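import Cfsg.Agent.H4.LinearBalance.Core
import Cfsg.Agent.H3.Isotropic

/-!
Semilinear maps commuting with root elements over a subfield are scalars fixing the subfield.
-/

set_option autoImplicit false

namespace Cfsg.Agent.H4.LinearBalance

open Matrix

variable {n : ℕ} {K L : Type*} [Field K] [Field L]

local notation "ML" => Matrix (Fin n) (Fin n) L
local notation "MK" => Matrix (Fin n) (Fin n) K

/-- Conjugation of a unipotent matrix to a multiple of a unipotent matrix has multiplier one. -/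
theorem mult_eq_one_of_unipotent (hn : 1 ≤ n) (g : GL (Fin n) L) {X Y : ML} {c : L}
    (hX : IsNilpotent (X - 1)) (hY : IsNilpotent (Y - 1)) (h : (g : ML) * X = c • (Y * g)) : c = 1 := by
  have : Nonempty (Fin n) := ⟨⟨0, hn⟩⟩
  refine scalar_eq_one_of_unipotent hY ?_
  have e : c • Y - 1 = (g : ML) * (X - 1) * ((g⁻¹ : GL (Fin n) L) : ML) := by
    rw [mul_sub, mul_one, sub_mul, h, smul_mul_assoc, mul_assoc, ← Units.val_mul, mul_inv_cancel,
      Units.val_one, mul_one]
  rw [e]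
  obtain ⟨k, hk⟩ := hX
  refine ⟨k, ?_⟩
  rw [Units.conj_pow, hk, mul_zero, zero_mul]

/-- A semilinear map commuting with a rank one nilpotent fixes its line. -/
theorem exists_line_of_commute (g : ML) {v w v' w' : Fin n → L} (hw : w ≠ 0)
    (h : g * vecMulVec v w = vecMulVec v' w' * g) : ∃ γ : L, g *ᵥ v = γ • v' := by
  obtain ⟨i, hi⟩ : ∃ i, w i ≠ 0 := by
    by_contra! h0
    exact hw (funext h0)
  rw [mul_vecMulVec, vecMulVec_mul] at h
  refine ⟨(w' ᵥ* g) i / w i, funext fun a => ?_⟩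
  have := congrFun (congrFun h a) i
  rw [vecMulVec_apply, vecMulVec_apply] at this
  rw [Pi.smul_apply, smul_eq_mul, div_mul_eq_mul_div, eq_div_iff hi]
  linear_combination this

theorem map_vecMulVec (ι : K →+* L) (v w : Fin n → K) :
    (vecMulVec v w).map ι = vecMulVec (fun a => ι (v a)) (fun a => ι (w a)) :=
  Matrix.ext fun _ _ => map_mul ι _ _

theorem isNilpotent_vecMulVec {v w : Fin n → L} (h : w ⬝ᵥ v = 0) : IsNilpotent (vecMulVec v w) :=
  ⟨2, by rw [pow_two, vecMulVec_mul_vecMulVec, h]; simp⟩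

variable (ι : K →+* L) (τ : L ≃+* L)

/-- The composite of the embedding and the automorphism. -/
abbrev twisted : K →+* L := (τ : L →+* L).comp ι

/-- Fixing the lines of the unit vectors and of their combinations forces a scalar. -/
theorem scalar_of_lines (hn : 2 ≤ n) (g : GL (Fin n) L)
    (h : ∀ v : Fin n → K, v ≠ 0 → ∃ γ : L, (g : ML) *ᵥ (fun a => twisted ι τ (v a)) = γ • fun a => ι (v a)) :
    ∃ a : Lˣ, (g : ML) = (a : L) • 1 ∧ ∀ t, τ (ι t) = ι t := by
  classical
  have hcol : ∀ (φ : K →+* L) (i : Fin n) (t : K),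
      (fun a => φ ((Pi.single i t : Fin n → K) a)) = Pi.single i (φ t) := fun φ i t => funext fun a => by
    by_cases ha : a = i <;> simp [ha]
  choose γ hγ using fun i : Fin n => h (Pi.single i 1) (by simp)
  simp only [hcol, map_one, mulVec_single_one] at hγ
  have hM : ∀ a b, (g : ML) a b = if a = b then γ b else 0 := fun a b => by
    have := congrFun (hγ b) a
    simpa [Matrix.col_apply, Pi.single_apply] using this
  have hγ0 : ∀ i, γ i ≠ 0 := fun i h0 => by
    refine ((Matrix.isUnit_iff_isUnit_det _).1 g.isUnit).ne_zero (det_eq_zero_of_column_eq_zero i fun a => ?_)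
    rw [hM, h0, ite_self]
  have key : ∀ i j, i ≠ j → ∀ t, twisted ι τ t * γ j = γ i * ι t := fun i j hij t => by
    obtain ⟨c, hc⟩ := h (Pi.single i 1 + Pi.single j t) (fun h0 => by
      simpa [hij] using congrFun h0 i)
    have hi := congrFun hc i
    have hj := congrFun hc j
    simp [mulVec, dotProduct, hM, hij, Ne.symm hij, Pi.single_apply] at hi hj
    rw [hi]
    simp only [twisted, RingHom.comp_apply, RingEquiv.coe_toRingHom]
    linear_combination hj
  set o : Fin n := ⟨0, by omega⟩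
  set o' : Fin n := ⟨1, by omega⟩
  have hoo : o ≠ o' := by simp [o, o', Fin.ext_iff]
  have heq : ∀ i, γ i = γ o := fun i => by
    by_cases hi : o = i
    · rw [hi]
    · simpa using key o i hi 1
  refine ⟨Units.mk0 _ (hγ0 o), Matrix.ext fun a b => ?_, fun t => ?_⟩
  · rw [hM, Units.val_mk0, Matrix.smul_apply, one_apply, heq, smul_eq_mul, mul_ite, mul_one, mul_zero]
  · have := key o o' hoo t
    rw [heq o', mul_comm (γ o)] at this
    exact mul_right_cancel₀ (hγ0 o) this

/-- A semilinear map commuting with all transvections over a subfield is a scalar. -/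
theorem scalar_of_transvections (hn : 2 ≤ n) (g : GL (Fin n) L)
    (h : ∀ v : Fin n → K, v ≠ 0 → ∃ w : Fin n → K, w ≠ 0 ∧
      (g : ML) * (vecMulVec v w).map (twisted ι τ) = (vecMulVec v w).map ι * g) :
    ∃ a : Lˣ, (g : ML) = (a : L) • 1 ∧ ∀ t, τ (ι t) = ι t := by
  refine scalar_of_lines ι τ hn g fun v hv => ?_
  obtain ⟨w, hw, e⟩ := h v hv
  rw [map_vecMulVec, map_vecMulVec] at e
  refine exists_line_of_commute _ ?_ e
  intro h0
  exact hw (funext fun a => (twisted ι τ).injective (by simpa using congrFun h0 a))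

/-- No semilinear map composed with inverse-transpose commutes with all transvections. -/
theorem false_of_transvections_transpose (hn : 3 ≤ n) (g : GL (Fin n) L)
    (h : ∀ i j : Fin n, i ≠ j →
      (g : ML) * vecMulVec (Pi.single j 1) (-Pi.single i (1 : L)) =
        vecMulVec (Pi.single i 1) (Pi.single j (1 : L)) * g) : False := by
  classical
  refine ((Matrix.isUnit_iff_isUnit_det _).1 g.isUnit).ne_zero
    (det_eq_zero_of_column_eq_zero ⟨0, by omega⟩ fun a => ?_)
  set o : Fin n := ⟨0, by omega⟩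
  obtain ⟨i, hio, hia⟩ : ∃ i : Fin n, i ≠ o ∧ i ≠ a := by
    by_cases ha : a = ⟨1, by omega⟩
    · exact ⟨⟨2, by omega⟩, by simp [o, Fin.ext_iff], by simp [ha, Fin.ext_iff]⟩
    · exact ⟨⟨1, by omega⟩, by simp [o, Fin.ext_iff], Ne.symm ha⟩
  obtain ⟨γ, hγ⟩ := exists_line_of_commute (g : ML) (by simp) (h i o hio)
  have := congrFun hγ a
  simpa [Ne.symm hia, Matrix.col_apply] using this

/-! ### Symmetric forms -/

section Sym

variable {B : Matrix (Fin n) (Fin n) K}

/-- The Siegel nilpotent attached to `e` and `a`. -/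
def eichN (B : MK) (e a : Fin n → K) : MK :=
  vecMulVec e (B *ᵥ a) - vecMulVec a (B *ᵥ e) - ((a ⬝ᵥ B *ᵥ a) / 2) • vecMulVec e (B *ᵥ e)

theorem dot_symm (hB : Bᵀ = B) (u v : Fin n → K) : u ⬝ᵥ B *ᵥ v = v ⬝ᵥ B *ᵥ u := by
  rw [dotProduct_mulVec, ← mulVec_transpose, hB, dotProduct_comm]

theorem eichN_sq (hB : Bᵀ = B) {e a : Fin n → K} (he : e ⬝ᵥ B *ᵥ e = 0) (ha : e ⬝ᵥ B *ᵥ a = 0) :
    eichN B e a * eichN B e a = -((a ⬝ᵥ B *ᵥ a) • vecMulVec e (B *ᵥ e)) := by
  simp only [eichN, sub_mul, mul_sub, smul_mul_assoc, mul_smul_comm, vecMulVec_mul_vecMulVec,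
    dotProduct_comm (B *ᵥ _) , dot_symm hB a e, he, ha, zero_smul, vecMulVec_zero, smul_zero,
    vecMulVec_smul]
  module

theorem isNilpotent_eichN (hB : Bᵀ = B) {e a : Fin n → K} (he : e ⬝ᵥ B *ᵥ e = 0)
    (ha : e ⬝ᵥ B *ᵥ a = 0) : IsNilpotent (eichN B e a) := by
  obtain ⟨k, hk⟩ : IsNilpotent (eichN B e a * eichN B e a) := by
    rw [eichN_sq hB he ha]
    exact ((isNilpotent_vecMulVec (by rw [dotProduct_comm, he])).smul _).neg
  exact ⟨2 * k, by rw [pow_mul, pow_two, hk]⟩

theorem transpose_eichN_mul (hB : Bᵀ = B) (h2 : (2 : K) ≠ 0) {e a : Fin n → K}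
    (he : e ⬝ᵥ B *ᵥ e = 0) (ha : e ⬝ᵥ B *ᵥ a = 0) :
    (1 + eichN B e a)ᵀ * B * (1 + eichN B e a) = B := by
  have hl : ∀ u : Fin n → K, u ᵥ* B = B *ᵥ u := fun u => by rw [← mulVec_transpose, hB]
  simp only [transpose_add, transpose_one, eichN, transpose_sub, transpose_smul, transpose_vecMulVec,
    add_mul, mul_add, one_mul, mul_one, sub_mul, mul_sub, smul_mul_assoc, mul_smul_comm, vecMulVec_mul,
    hl, mul_vecMulVec, vecMulVec_mulVec, vecMulVec_mul_vecMulVec, vecMulVec_smul, smul_vecMulVec]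
  simp only [dotProduct_comm (B *ᵥ _), dot_symm hB a e, he, ha, zero_smul, smul_zero, vecMulVec_zero,
    zero_vecMulVec, op_smul_eq_smul, smul_vecMulVec, vecMulVec_smul, smul_smul]
  match_scalars <;> field_simp <;> ring

theorem det_eichN (hB : Bᵀ = B) (hd : B.det ≠ 0) (h2 : (2 : K) ≠ 0) {e a : Fin n → K}
    (he : e ⬝ᵥ B *ᵥ e = 0) (ha : e ⬝ᵥ B *ᵥ a = 0) : (1 + eichN B e a).det = 1 := by
  set b := (2 : K)⁻¹ • a with hb
  have hb' : e ⬝ᵥ B *ᵥ b = 0 := by simp [hb, mulVec_smul, ha]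
  have h1 := congrArg det (transpose_eichN_mul hB h2 he hb')
  rw [det_mul, det_mul, det_transpose, mul_right_comm] at h1
  have e1 : (1 + eichN B e b) * (1 + eichN B e b) = 1 + eichN B e a := by
    simp only [add_mul, mul_add, one_mul, mul_one]
    rw [eichN_sq hB he hb']
    simp only [eichN, hb, mulVec_smul, dotProduct_smul, smul_dotProduct, vecMulVec_smul, smul_vecMulVec,
      smul_eq_mul]
    match_scalars <;> field_simp <;> ring
  rw [← e1, det_mul]
  exact mul_right_cancel₀ hd (h1.trans (one_mul _).symm)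

/-- Commuting with the Siegel elements gives a scalar. -/
theorem scalar_of_eichN (hB : Bᵀ = B) (hd : B.det ≠ 0) (h2 : (2 : K) ≠ 0) (g : GL (Fin n) L) {e f u : Fin n → K}
    (he : e ⬝ᵥ B *ᵥ e = 0) (hf : f ⬝ᵥ B *ᵥ f = 0) (hef : e ⬝ᵥ B *ᵥ f = 1)
    (heu : e ⬝ᵥ B *ᵥ u = 0) (hfu : f ⬝ᵥ B *ᵥ u = 0) (hu : u ⬝ᵥ B *ᵥ u ≠ 0)
    (hperp : ∀ z, z ≠ 0 → z ⬝ᵥ B *ᵥ z = 0 → ∃ a, z ⬝ᵥ B *ᵥ a = 0 ∧ a ⬝ᵥ B *ᵥ a ≠ 0)
    (h : ∀ z a, z ⬝ᵥ B *ᵥ z = 0 → z ⬝ᵥ B *ᵥ a = 0 →
      (g : ML) * (eichN B z a).map (twisted ι τ) = (eichN B z a).map ι * g) :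
    ∃ β : Lˣ, (g : ML) = (β : L) • 1 ∧ ∀ t, τ (ι t) = ι t := by
  classical
  set T : (Fin n → K) → (Fin n → L) := fun v => (g : ML) *ᵥ fun a => twisted ι τ (v a) with hT
  set I : (Fin n → K) → (Fin n → L) := fun v a => ι (v a) with hI
  have hTadd : ∀ v w, T (v + w) = T v + T w := fun v w => by
    simp only [hT, ← mulVec_add]; congr 1; funext a; exact map_add _ _ _
  have hTsmul : ∀ (t : K) v, T (t • v) = twisted ι τ t • T v := fun t v => by
    simp only [hT, ← mulVec_smul]; congr 1; funext a; exact map_mul _ _ _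
  have hIadd : ∀ v w, I (v + w) = I v + I w := fun v w => funext fun a => map_add ι _ _
  have hIsmul : ∀ (t : K) v, I (t • v) = ι t • I v := fun t v => funext fun a => map_mul ι _ _
  have hline : ∀ z, z ⬝ᵥ B *ᵥ z = 0 → ∃ γ : L, T z = γ • I z := by
    intro z hz
    rcases eq_or_ne z 0 with rfl | hz0
    · refine ⟨0, ?_⟩
      simp [hT]
      exact mulVec_zero _
    obtain ⟨a, ha, haa⟩ := hperp z hz0 hz
    have h1 := h z a hz ha
    have h3 : (g : ML) * (eichN B z a * eichN B z a).map (twisted ι τ) =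
        (eichN B z a * eichN B z a).map ι * g := by
      rw [Matrix.map_mul, Matrix.map_mul, ← mul_assoc, h1, mul_assoc, h1, mul_assoc]
    rw [eichN_sq hB hz ha, ← neg_smul, ← smul_vecMulVec, map_vecMulVec, map_vecMulVec] at h3
    have hBz : B *ᵥ z ≠ 0 := fun h0 => hz0 (eq_zero_of_mulVec_eq_zero hd h0)
    obtain ⟨γ, hγ⟩ := exists_line_of_commute (g : ML) (fun h0 => hBz (funext fun b =>
      (twisted ι τ).injective (by simpa using congrFun h0 b))) h3
    refine ⟨γ * ι (-(a ⬝ᵥ B *ᵥ a)) / twisted ι τ (-(a ⬝ᵥ B *ᵥ a)), ?_⟩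
    have hne : twisted ι τ (-(a ⬝ᵥ B *ᵥ a)) ≠ 0 := by simpa using haa
    have e1 : (fun b => twisted ι τ ((-(a ⬝ᵥ B *ᵥ a) • z) b)) =
        twisted ι τ (-(a ⬝ᵥ B *ᵥ a)) • fun b => twisted ι τ (z b) := funext fun b => map_mul _ _ _
    have e2 : (fun b => ι ((-(a ⬝ᵥ B *ᵥ a) • z) b)) = ι (-(a ⬝ᵥ B *ᵥ a)) • I z :=
      funext fun b => map_mul _ _ _
    rw [e1, e2, mulVec_smul, smul_smul] at hγ
    rw [div_eq_inv_mul, ← smul_smul, ← hγ, smul_smul, inv_mul_cancel₀ hne, one_smul]
  obtain ⟨α, hα⟩ := hline e he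
  obtain ⟨β, hβ⟩ := hline f hf
  have hfe : f ⬝ᵥ B *ᵥ e = 1 := by rw [dot_symm hB, hef]
  have hperpT : ∀ v, e ⬝ᵥ B *ᵥ v = 0 → f ⬝ᵥ B *ᵥ v = 0 →
      T v = β • I v ∧ ((v ⬝ᵥ B *ᵥ v ≠ 0) → twisted ι τ (v ⬝ᵥ B *ᵥ v / 2) * α = β * ι (v ⬝ᵥ B *ᵥ v / 2)) := by
    intro v hev hfv
    set c := v ⬝ᵥ B *ᵥ v / 2 with hc
    have hz : ∀ s : K, s * s = 1 → (f + s • v - c • e) ⬝ᵥ B *ᵥ (f + s • v - c • e) = 0 := by
      intro s hs
      simp only [mulVec_sub, mulVec_add, mulVec_smul, dotProduct_sub, dotProduct_add, sub_dotProduct,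
        add_dotProduct, smul_dotProduct, dotProduct_smul, dot_symm hB v e, dot_symm hB v f, hev, hfv, he,
        hf, hef, hfe, smul_eq_mul]
      rw [hc]
      field_simp
      linear_combination (4 * (v ⬝ᵥ B *ᵥ v)) * hs
    obtain ⟨γ, hγ⟩ := hline _ (hz 1 (one_mul 1))
    obtain ⟨γ', hγ'⟩ := hline _ (hz (-1) (by ring))
    rw [one_smul] at hγ
    rw [neg_one_smul] at hγ'
    have hTn : T (-v) = -T v := by rw [← neg_one_smul K, hTsmul, map_neg, map_one, neg_one_smul]
    have hIn : I (-v) = -I v := funext fun a => map_neg ι _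
    rw [sub_eq_add_neg, ← neg_smul, hTadd, hTadd, hTsmul, hIadd, hIadd, hIsmul, hα, hβ, map_neg,
      map_neg] at hγ hγ'
    rw [hTn, hIn] at hγ'
    rcases eq_or_ne v 0 with rfl | hv0
    · refine ⟨?_, fun h0 => by simp at h0⟩
      simp [hT, hI, ← Pi.zero_def]
    have hind : ∀ p r s : L, p • I e + r • I f + s • I v = 0 → p = 0 ∧ r = 0 ∧ s = 0 := by
      intro p r s hsum
      have hd : ∀ w : Fin n → K, ι (w ⬝ᵥ B *ᵥ e) * p + ι (w ⬝ᵥ B *ᵥ f) * r + ι (w ⬝ᵥ B *ᵥ v) * s = 0 := by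
        intro w
        have e0 : ∀ x, (fun b => ι ((w ᵥ* B) b)) ⬝ᵥ I x = ι (w ⬝ᵥ B *ᵥ x) := fun x => by
          rw [dotProduct_mulVec]; exact (RingHom.map_dotProduct ι _ _).symm
        have := congrArg (fun z => (fun b => ι ((w ᵥ* B) b)) ⬝ᵥ z) hsum
        simp only [dotProduct_add, dotProduct_smul, e0, dotProduct_zero, smul_eq_mul] at this
        linear_combination this
      have hr := hd e
      have hp := hd f
      simp only [he, hef, hev, hfe, hf, hfv, map_zero, map_one, zero_mul, one_mul, zero_add, add_zero]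
        at hr hp
      refine ⟨hp, hr, ?_⟩
      by_contra hs
      have hsum' : s • I v = 0 := by simpa [hp, hr] using hsum
      exact hv0 (funext fun b => ι.injective (by simpa [hs, hI] using congrFun hsum' b))
    have hsum := congrArg₂ (· + ·) hγ hγ'
    obtain ⟨h1, h2', h3⟩ := hind (2 * (-twisted ι τ c * α) + γ * ι c + γ' * ι c) (2 * β - γ - γ')
      (-γ + γ') (by
        rw [← sub_eq_zero] at hsum
        rw [← hsum]
        module)
    have hg' : γ' = γ := by linear_combination h3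
    have hγb : γ = β := by
      have h2L : (2 : L) ≠ 0 := by rw [← map_ofNat ι 2, map_ne_zero]; exact h2
      exact mul_left_cancel₀ h2L (by linear_combination -h2' - hg')
    refine ⟨?_, fun hv => ?_⟩
    · have hh : T v = γ • I v + (γ * -ι c + twisted ι τ c * α) • I e + (γ - β) • I f := by
        rw [← sub_eq_zero] at hγ ⊢
        rw [← hγ]
        module
      have h4 : γ * -ι c + twisted ι τ c * α = 0 := by
        have h2L : (2 : L) ≠ 0 := by rw [← map_ofNat ι 2, map_ne_zero]; exact h2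
        refine mul_left_cancel₀ h2L ?_
        linear_combination -h1 + ι c * hg'
      rw [hh, h4, zero_smul, add_zero, hγb, sub_self, zero_smul, add_zero]
    · have h2L : (2 : L) ≠ 0 := by rw [← map_ofNat ι 2, map_ne_zero]; exact h2
      refine mul_left_cancel₀ h2L ?_
      linear_combination -h1 + ι c * hg' + 2 * ι c * hγb
  obtain ⟨hTu, hcu⟩ := hperpT u heu hfu
  have hu0 : u ≠ 0 := fun h0 => hu (by simp [h0])
  obtain ⟨b, hb⟩ : ∃ b, u b ≠ 0 := by
    by_contra! h0; exact hu0 (funext h0)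
  have hβ0 : β ≠ 0 := fun h0 => by
    rw [h0, zero_smul] at hβ
    have hf0 : f ≠ 0 := fun h' => one_ne_zero (α := K) (by rw [← hef, h']; simp)
    have := congrArg (fun z => ((g⁻¹ : GL (Fin n) L) : ML) *ᵥ z) hβ
    simp only [hT, mulVec_mulVec, ← Units.val_mul, inv_mul_cancel, Units.val_one, one_mulVec,
      mulVec_zero] at this
    exact hf0 (funext fun a => (twisted ι τ).injective (by simpa using congrFun this a))
  have hfix : ∀ t, τ (ι t) = ι t := fun t => by
    have h1 := (hperpT (t • u) (by simp [mulVec_smul, heu]) (by simp [mulVec_smul, hfu])).1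
    rw [hTsmul, hTu, hIsmul, smul_smul, smul_smul] at h1
    have h4 := congrFun h1 b
    simp only [Pi.smul_apply, smul_eq_mul, hI] at h4
    have := mul_right_cancel₀ ((map_ne_zero ι).2 hb) h4
    rw [mul_comm β] at this
    exact mul_right_cancel₀ hβ0 this
  have hαβ : α = β := by
    have := hcu hu
    rw [show twisted ι τ (u ⬝ᵥ B *ᵥ u / 2) = ι (u ⬝ᵥ B *ᵥ u / 2) from hfix _, mul_comm β] at this
    exact mul_left_cancel₀ (by simp [hu, h2]) this
  refine ⟨Units.mk0 β hβ0, Matrix.ext_of_mulVec_single fun i => ?_, hfix⟩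
  have hei : ∀ φ : K →+* L, (fun a => φ ((Pi.single i 1 : Fin n → K) a)) = Pi.single i 1 := fun φ =>
    funext fun a => by by_cases ha : a = i <;> simp [ha]
  set x : Fin n → K := Pi.single i 1
  set v := x - (f ⬝ᵥ B *ᵥ x) • e - (e ⬝ᵥ B *ᵥ x) • f with hv
  have hv1 := (hperpT v (by
    simp [hv, mulVec_sub, mulVec_smul, dotProduct_sub, dotProduct_smul, he, hef])
    (by simp [hv, mulVec_sub, mulVec_smul, dotProduct_sub, dotProduct_smul, hf, hfe])).1
  have hx : x = v + (f ⬝ᵥ B *ᵥ x) • e + (e ⬝ᵥ B *ᵥ x) • f := by rw [hv]; abel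
  have : T x = β • I x := by
    rw [hx, hTadd, hTadd, hTsmul, hTsmul, hv1, hα, hβ, hαβ, hIadd, hIadd, hIsmul, hIsmul]
    simp only [smul_add, smul_smul, show ∀ t, twisted ι τ t = ι t from hfix, mul_comm β]
  rw [smul_mulVec, one_mulVec, Units.val_mk0]
  simpa only [hT, hI, hei] using this

end Sym

/-! ### Hermitian forms -/

/-- Fixing the isotropic lines on two coordinates forces a scalar fixing the field. -/
theorem scalar_of_herm [Fintype K] {q : ℕ} (hK : Fintype.card K = q ^ 2) (hn : 3 ≤ n) (g : GL (Fin n) L)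
    (h : ∀ v : Fin n → K, v ≠ 0 → Cfsg.hermForm n K q v v = 0 → ∃ w : Fin n → K, w ≠ 0 ∧
      (g : ML) * (vecMulVec v w).map (twisted ι τ) = (vecMulVec v w).map ι * g) :
    ∃ a : Lˣ, (g : ML) = (a : L) • 1 ∧ ∀ t, τ (ι t) = ι t := by
  classical
  obtain ⟨μ, μ', hne, hμ, hμ'⟩ := H3.exists_two_norm_neg_one hK
  set A : ML := (g : ML)
  have hpair : ∀ i j : Fin n, i ≠ j → ∀ m : K, m ^ (q + 1) = -1 → ∃ γ : L,
      (fun a => A a i + twisted ι τ m * A a j) = γ • (Pi.single i 1 + Pi.single j (ι m)) := by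
    intro i j hij m hm
    have hv0 : (Pi.single i 1 + Pi.single j m : Fin n → K) ≠ 0 := fun h0 => by
      simpa [hij] using congrFun h0 i
    obtain ⟨w, hw, e⟩ := h _ hv0 (by
      simpa [← Pi.single_smul', smul_eq_mul] using H3.hermForm_pair_isotropic hK hij hm)
    rw [map_vecMulVec, map_vecMulVec] at e
    obtain ⟨γ, hγ⟩ := exists_line_of_commute A (fun h0 => hw (funext fun a =>
      (twisted ι τ).injective (by simpa using congrFun h0 a))) e
    have e1 : ∀ φ : K →+* L, (fun a => φ ((Pi.single i 1 + Pi.single j m : Fin n → K) a)) =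
        Pi.single i 1 + Pi.single j (φ m) := fun φ => funext fun a => by
      by_cases h1 : a = i <;> by_cases h2 : a = j <;> simp_all
    rw [e1, e1, mulVec_add, mulVec_single_one, mulVec_single] at hγ
    refine ⟨γ, funext fun a => ?_⟩
    have := congrFun hγ a
    simp [Matrix.col_apply, mul_comm] at this ⊢
    linear_combination this
  have hoff : ∀ a j, a ≠ j → A a j = 0 := by
    intro a j haj
    obtain ⟨i, hij, hia⟩ : ∃ i : Fin n, i ≠ j ∧ i ≠ a := by
      obtain ⟨i, hi⟩ := Finset.exists_mem_notMem_of_card_lt_card (t := Finset.univ) (s := {a, j})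
        (by simp [Finset.card_pair haj]; omega)
      exact ⟨i, fun e => hi.2 (by simp [e]), fun e => hi.2 (by simp [e])⟩
    obtain ⟨γ, hγ⟩ := hpair i j hij μ hμ
    obtain ⟨γ', hγ'⟩ := hpair i j hij μ' hμ'
    have h1 := congrFun hγ a
    have h2 := congrFun hγ' a
    simp [Ne.symm hia, haj] at h1 h2
    have h3 : (twisted ι τ μ - twisted ι τ μ') * A a j = 0 := by
      simp only [RingHom.comp_apply, RingEquiv.coe_toRingHom] at *
      linear_combination h1 - h2
    exact (mul_eq_zero.1 h3).resolve_left (sub_ne_zero.2 fun e => hne ((twisted ι τ).injective e))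
  have key : ∀ i j, i ≠ j → ∀ m : K, m ^ (q + 1) = -1 →
      twisted ι τ m * A j j = ι m * A i i := by
    intro i j hij m hm
    obtain ⟨γ, hγ⟩ := hpair i j hij m hm
    have h1 := congrFun hγ i
    have h2 := congrFun hγ j
    simp [hij, Ne.symm hij, hoff i j hij, hoff j i (Ne.symm hij)] at h1 h2
    simp only [RingHom.comp_apply, RingEquiv.coe_toRingHom]
    rw [h1]
    linear_combination h2
  have hA0 : ∀ i, A i i ≠ 0 := fun i h0 => by
    refine ((Matrix.isUnit_iff_isUnit_det _).1 g.isUnit).ne_zero (det_eq_zero_of_column_eq_zero i fun a => ?_)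
    by_cases hai : a = i
    · rw [hai]; exact h0
    · exact hoff a i hai
  have hμ0 : ∀ m : K, m ^ (q + 1) = -1 → m ≠ 0 := fun m hm h0 => by
    rw [h0, zero_pow (by omega)] at hm; exact neg_ne_zero.2 one_ne_zero hm.symm
  have hdiag : ∀ i j, A i i = A j j := by
    intro i j
    rcases eq_or_ne i j with rfl | hij
    · rfl
    obtain ⟨k, hk⟩ := Finset.exists_mem_notMem_of_card_lt_card (t := Finset.univ) (s := {i, j})
      (by simp [Finset.card_pair hij]; omega)
    simp only [Finset.mem_insert, Finset.mem_singleton, not_or] at hk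
    have e1 := key k i hk.2.1 μ hμ
    have e2 := key k j hk.2.2 μ hμ
    exact mul_left_cancel₀ ((map_ne_zero _).2 (hμ0 μ hμ)) (e1.trans e2.symm)
  set o : Fin n := ⟨0, by omega⟩
  set o' : Fin n := ⟨1, by omega⟩
  have hneg : ∀ m : K, m ^ (q + 1) = -1 → twisted ι τ m = ι m := fun m hm => by
    have := key o o' (by simp [o, o', Fin.ext_iff]) m hm
    rw [hdiag o' o] at this
    exact mul_right_cancel₀ (hA0 o) this
  refine ⟨Units.mk0 _ (hA0 o), Matrix.ext fun a b => ?_, fun t => ?_⟩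
  · by_cases hab : a = b
    · subst hab
      simp [hdiag a o, A]
    · simp [Matrix.one_apply_ne hab, A, hoff a b hab]
  let S : Subfield K := RingHom.eqLocusField (twisted ι τ) ι
  suffices htop : S = ⊤ by exact (htop ▸ Subfield.mem_top t : t ∈ S)
  have hnorm : ∀ m : K, m ^ (q + 1) = 1 → m ∈ S := fun m hm => by
    show twisted ι τ m = ι m
    have h1 := hneg (μ * m) (by rw [mul_pow, hμ, hm, mul_one])
    rw [map_mul, map_mul, hneg μ hμ] at h1
    exact mul_left_cancel₀ ((map_ne_zero _).2 (hμ0 μ hμ)) h1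
  have hcard : q < Nat.card S := by
    refine lt_of_lt_of_le (Nat.lt_succ_self q) ?_
    rw [Nat.succ_eq_add_one, ← H3.card_norm_one_units hK]
    exact Nat.card_le_card_of_injective (fun x => (⟨((x : Kˣ) : K), hnorm _ (by
      rw [← Units.val_pow_eq_pow_val]
      exact congrArg Units.val x.2)⟩ : S)) fun x y hxy =>
        Subtype.ext (Units.ext (congrArg Subtype.val hxy))
  have hpow := Module.natCard_eq_pow_finrank (K := S) (V := K)
  rw [Nat.card_eq_fintype_card, hK] at hpow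
  set d := Module.finrank S K with hd
  have hd1 : d = 1 := by
    have hdpos : 0 < d := Module.finrank_pos
    by_contra hne1
    have h1 : Nat.card S ^ 2 ≤ Nat.card S ^ d := Nat.pow_le_pow_right (by omega) (by omega)
    have h2 : q ^ 2 < Nat.card S ^ 2 := Nat.pow_lt_pow_left hcard two_ne_zero
    omega
  rw [hd1, pow_one] at hpow
  refine SetLike.coe_injective (Set.eq_of_subset_of_ncard_le (Set.subset_univ _) ?_ Set.finite_univ)
  rw [Subfield.coe_top, Set.ncard_univ, Nat.card_eq_fintype_card, hK, hpow]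
  exact le_of_eq (Nat.card_coe_set_eq _)

end Cfsg.Agent.H4.LinearBalance
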