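import Cfsg.Agent.H4.LinearBalance.Core
import Cfsg.Agent.H4.LinearBalance.Cent
import Cfsg.Agent.H62.GraphPSL.Basic
import Cfsg.Agent.H70.AutPSL.GraphField

/-!
Semilinear automorphisms of `PSL_n` commuting with unipotent inner-diagonal automorphisms.
-/

set_option autoImplicit false

namespace Cfsg.Agent.H4.LinearBalance

open Matrix Cfsg.Agent.H70.AutPSL

variable {n : ℕ} {F : Type*} [Field F]

local notation "Mn" => Matrix (Fin n) (Fin n) F

/-- The inverse-transpose of a unipotent matrix is unipotent. -/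
theorem isNilpotent_itGL {a : GL (Fin n) F} (ha : IsNilpotent ((a : Mn) - 1)) :
    IsNilpotent ((itGL n F a : Mn) - 1) := by
  have hc : Commute ((a⁻¹ : GL (Fin n) F) : Mn) ((a : Mn) - 1) :=
    ((Commute.refl a).inv_left.units_val).sub_right (Commute.one_right _)
  have h1 : IsNilpotent (((a⁻¹ : GL (Fin n) F) : Mn) - 1) := by
    have h2 := (hc.isNilpotent_mul_left ha).neg
    rwa [show -(((a⁻¹ : GL (Fin n) F) : Mn) * ((a : Mn) - 1)) = ((a⁻¹ : GL (Fin n) F) : Mn) - 1 by
      rw [mul_sub, mul_one, ← Units.val_mul, inv_mul_cancel, Units.val_one, neg_sub]] at h2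
  obtain ⟨k, hk⟩ := h1
  refine ⟨k, ?_⟩
  rw [itGL_coe, ← transpose_one, ← transpose_sub, ← transpose_pow, hk, transpose_zero]

variable [Finite F]

/-- Commuting with unipotent inner-diagonal automorphisms is commuting of matrices. -/
theorem matrix_eq_of_commute (hn : 2 ≤ n) (h : GL (Fin n) F) (τ : F ≃+* F) {a a' : GL (Fin n) F}
    (ha : IsNilpotent ((a : Mn) - 1)) (ha' : IsNilpotent ((a' : Mn) - 1))
    (e : semiAut h τ * innDiag n F a' = innDiag n F a * semiAut h τ) :
    (h : Mn) * (a' : Mn).map τ = (a : Mn) * (h : Mn) := by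
  rw [innDiag_mul_semiAut, semiAut_mul_innDiag] at e
  obtain ⟨-, c, hc⟩ := semiAut_inj hn e
  have hm := congrArg Units.val hc
  rw [scal_mul_coe, Units.val_mul, Units.val_mul, mapGL_coe] at hm
  have hm' : (h : Mn) * (a' : Mn).map τ = ((c⁻¹ : Fˣ) : F) • ((a : Mn) * h) := by
    rw [hm, smul_smul, Units.inv_mul, one_smul]
  have hX : IsNilpotent ((a' : Mn).map τ - 1) := by
    have h1 := ha'.map (τ : F →+* F).mapMatrix
    rwa [map_sub, map_one, RingHom.mapMatrix_apply] at h1
  rw [hm', mult_eq_one_of_unipotent (by omega) h hX ha hm', one_smul]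

/-- The same for an automorphism composed with inverse-transpose. -/
theorem matrix_eq_of_commute_it (hn : 2 ≤ n) (h : GL (Fin n) F) (τ : F ≃+* F) {a : GL (Fin n) F}
    (ha : IsNilpotent ((a : Mn) - 1))
    (e : semiAut h τ * itAut n F * innDiag n F a = innDiag n F a * (semiAut h τ * itAut n F)) :
    (h : Mn) * (itGL n F a : Mn).map τ = (a : Mn) * (h : Mn) := by
  refine matrix_eq_of_commute hn h τ ha (isNilpotent_itGL ha) ?_
  rw [mul_assoc, H62.GraphPSL.itAut_innDiag, ← mul_assoc, ← mul_assoc] at e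
  exact mul_right_cancel e

theorem innDiag_mem_inn {a : GL (Fin n) F} (ha : (a : Mn).det = 1) :
    innDiag n F a ∈ Cfsg.Inn (Matrix.ProjectiveSpecialLinearGroup (Fin n) F) := by
  rw [inn_eq_map]
  exact ⟨a, Units.ext (by simpa using ha), rfl⟩

theorem inn_le_inndiag : Cfsg.Inn (Matrix.ProjectiveSpecialLinearGroup (Fin n) F) ≤ Cfsg.inndiagPSL n F := by
  rw [inn_eq_map, inndiagPSL_eq_range]
  exact Subgroup.map_le_range _ _

theorem innDiag_eq_one_iff_smul (hn : 2 ≤ n) (h : GL (Fin n) F) :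
    innDiag n F h = 1 ↔ ∃ a : F, (h : Mn) = a • 1 := by
  rw [innDiag_eq_one_iff hn]
  constructor
  · rintro ⟨a, rfl⟩
    exact ⟨a, scal_coe a⟩
  · rintro ⟨a, ha⟩
    refine ⟨Units.mk0 a (fun h0 => ?_), Units.ext (by rw [scal_coe, ha]; rfl)⟩
    refine Matrix.GeneralLinearGroup.det_ne_zero h ?_
    have : Nonempty (Fin n) := ⟨⟨0, by omega⟩⟩
    rw [ha, h0, zero_smul, det_zero]

omit [Finite F] in
/-- An element of order prime to `p` in the group generated by an element of order `p`. -/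
theorem eq_one_of_mem_zpowers {X : Type*} [Group X] {x g : X} {p : ℕ} (hx : orderOf x = p)
    (hg : g ∈ Subgroup.zpowers x) (hc : (orderOf g).Coprime p) : g = 1 :=
  orderOf_eq_one_iff.1 (Nat.eq_one_of_dvd_coprimes hc dvd_rfl (hx ▸ orderOf_dvd_of_mem_zpowers hg))

/-- Centralisers of outer involutions: only the semilinear part has to be examined. -/
theorem cent_of_semi (hn : 2 ≤ n) {x : MulAut (Matrix.ProjectiveSpecialLinearGroup (Fin n) F)}
    (g₀ : GL (Fin n) F) (σ₀ : F ≃+* F) (hx : x = semiAut g₀ σ₀ * itAut n F) (hord : orderOf x = 2)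
    {S : Subgroup (MulAut (Matrix.ProjectiveSpecialLinearGroup (Fin n) F))}
    (hS : S ≤ Subgroup.centralizer {x})
    (hsemi : ∀ h τ, (∀ s ∈ S, semiAut h τ * s = s * semiAut h τ) → semiAut h τ = 1) :
    ∀ g ∈ Subgroup.centralizer {x}, (orderOf g).Coprime 2 → (∀ s ∈ S, g * s = s * g) → g = 1 := by
  intro g _ hcop hgS
  obtain ⟨h, τ, rfl | ⟨-, rfl⟩⟩ := exists_semiAut hn g
  · exact hsemi h τ hgS
  · exfalso
    have e : semiAut h τ * itAut n F * x = semiAut (h * mapGL n τ (itGL n F g₀)) (σ₀.trans τ) := by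
      rw [hx, mul_assoc, ← mul_assoc (itAut n F), itAut_semiAut, semiAut_mul']
    have hk := hsemi _ _ fun s hs => by
      have hxs : x * s = s * x := Subgroup.mem_centralizer_iff.1 (hS hs) x rfl
      rw [← e, mul_assoc, hxs, ← mul_assoc, hgS s hs, mul_assoc]
    rw [← e] at hk
    rw [eq_inv_of_mul_eq_one_left hk, orderOf_inv, hord] at hcop
    exact absurd hcop (by decide)

end Cfsg.Agent.H4.LinearBalance
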