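import Cfsg.Agent.H4.LocalBalance.Criterion
import Cfsg.Agent.H19.Cores
import Mathlib.GroupTheory.GroupAction.Blocks

/-!
The `p'`-core criterion for centralisers of automorphisms, with a witness subgroup.
-/

set_option autoImplicit false

namespace Cfsg.Agent.H4.LinearBalance

/-- A normal coprime subgroup commuting modulo trivial intersection. -/
theorem commute_of_normalized {X : Type*} [Group X] {M S : Subgroup X}
    (hM : ∀ s ∈ S, ∀ m ∈ M, s * m * s⁻¹ ∈ M) (hS : ∀ m ∈ M, ∀ s ∈ S, m * s * m⁻¹ ∈ S)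
    (hMS : ∀ y ∈ M, y ∈ S → y = 1) {m s : X} (hm : m ∈ M) (hs : s ∈ S) : m * s = s * m := by
  refine commutatorElement_eq_one_iff_mul_comm.1 (hMS _ ?_ ?_)
  · rw [commutatorElement_def, mul_assoc, mul_assoc, ← mul_assoc s]
    exact mul_mem hm (hM s hs _ (inv_mem hm))
  · exact mul_mem (hS m hm s hs) (inv_mem hs)

/-- The core of the centraliser is trivial unless the inner part has order prime to `p`. -/
theorem core_eq_bot {K : Type*} [Group K] [Finite K] {p : ℕ} {A : Subgroup (MulAut K)}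
    (hinn : ∀ k : K, MulAut.conj k ∈ A) {x : MulAut K} (S E : Subgroup (MulAut K))
    (hSle : S ≤ Cfsg.Inn K ⊓ Subgroup.centralizer {x})
    (hCE : Cfsg.Inn K ⊓ Subgroup.centralizer {x} ≤ E) (hE : E ≤ Subgroup.centralizer {x})
    (hEn : ∀ e ∈ E, ∀ s ∈ S, e * s * e⁻¹ ∈ S)
    (hmin : ∀ M : Subgroup (MulAut K), M ≤ S → (Nat.card M).Coprime p →
      (∀ e ∈ E, ∀ m ∈ M, e * m * e⁻¹ ∈ M) → M = ⊥)
    (hcent : ∀ g ∈ Subgroup.centralizer {x}, (orderOf g).Coprime p →
      (∀ s ∈ S, g * s = s * g) → g = 1) :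
    Cfsg.pPrimeCore p ↥(A ⊓ Subgroup.centralizer {x}) = ⊥ := by
  haveI : Finite (MulAut K) := Finite.of_injective (fun α => (α : K → K)) DFunLike.coe_injective
  set C₀ := Cfsg.Inn K ⊓ Subgroup.centralizer {x} with hC₀
  set L := (Cfsg.pPrimeCore p C₀).map C₀.subtype with hL
  have hC₀n : ∀ g ∈ Subgroup.centralizer {x}, ∀ c ∈ C₀, g * c * g⁻¹ ∈ C₀ := fun g hg c hc =>
    ⟨(inferInstance : (Cfsg.Inn K).Normal).conj_mem c hc.1 g,
      Subgroup.mul_mem _ (Subgroup.mul_mem _ hg hc.2) (Subgroup.inv_mem _ hg)⟩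
  have hLcop : (Nat.card L).Coprime p := by
    rw [hL, ← Nat.card_congr (Subgroup.equivMapOfInjective _ _ C₀.subtype_injective).toEquiv]
    exact H19.pPrimeCore_coprime p
  have hLn : ∀ g ∈ Subgroup.centralizer {x}, ∀ l ∈ L, g * l * g⁻¹ ∈ L := by
    intro g hg
    let φ : C₀ ≃* C₀ :=
      { toFun := fun c => ⟨g * c * g⁻¹, hC₀n g hg c c.2⟩
        invFun := fun c => ⟨g⁻¹ * c * g, by simpa using hC₀n g⁻¹ (Subgroup.inv_mem _ hg) c c.2⟩
        left_inv := fun c => Subtype.ext (by simp [mul_assoc])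
        right_inv := fun c => Subtype.ext (by simp [mul_assoc])
        map_mul' := fun a b => Subtype.ext (by simp [mul_assoc]) }
    rintro _ ⟨c, hc, rfl⟩
    refine ⟨φ c, ?_, rfl⟩
    exact H19.le_pPrimeCore ((Cfsg.pPrimeCore_normal p C₀).map _ φ.surjective) (by
      rw [← Nat.card_congr (Subgroup.equivMapOfInjective _ φ.toMonoidHom φ.injective).toEquiv]
      exact H19.pPrimeCore_coprime p) (Subgroup.mem_map_of_mem φ.toMonoidHom hc)
  have hLle : L ≤ C₀ := Subgroup.map_subtype_le _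
  have hord : ∀ {N : Subgroup (MulAut K)}, (Nat.card N).Coprime p → ∀ g ∈ N, (orderOf g).Coprime p :=
    fun hN g hg => hN.coprime_dvd_left (Subgroup.orderOf_dvd_natCard _ hg)
  have hLS : L ⊓ S = ⊥ := hmin _ inf_le_right
    (hLcop.coprime_dvd_left (Subgroup.card_dvd_of_le inf_le_left))
    fun e he m hm => ⟨hLn e (hE he) m hm.1, hEn e he m hm.2⟩
  have hLbot : L = ⊥ := (Subgroup.eq_bot_iff_forall _).2 fun l hl =>
    hcent l (hLle hl).2 (hord hLcop l hl) fun s hs => commute_of_normalized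
      (fun s hs m hm => hLn s (hSle hs).2 m hm) (fun m hm s hs => hEn m (hCE (hLle hm)) s hs)
      (fun y hy hy' => Subgroup.mem_bot.1 (hLS ▸ ⟨hy, hy'⟩)) hl hs
  set C := A ⊓ Subgroup.centralizer {x}
  have hC₀C : C₀ ≤ C := inf_le_inf_right _ (by rintro _ ⟨k, rfl⟩; exact hinn k)
  refine sSup_eq_bot.2 fun N hN => ?_
  obtain ⟨hn, hc⟩ := hN
  set N' := N.map C.subtype with hN'
  have hN'cop : (Nat.card N').Coprime p := by
    rw [hN', ← Nat.card_congr (Subgroup.equivMapOfInjective _ _ C.subtype_injective).toEquiv]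
    exact hc
  have hN'n : ∀ g ∈ C, ∀ m ∈ N', g * m * g⁻¹ ∈ N' := by
    rintro g hg _ ⟨m, hm, rfl⟩
    exact ⟨_, hn.conj_mem m hm ⟨g, hg⟩, rfl⟩
  have hN'C : N' ≤ C := Subgroup.map_subtype_le _
  have hinf : ∀ y ∈ N', y ∈ C₀ → y = 1 := fun y hy hy0 => Subgroup.mem_bot.1 (hLbot ▸ by
    refine ⟨⟨y, hy0⟩, H19.le_pPrimeCore (N := N'.subgroupOf C₀)
      ⟨fun m hm c => hN'n _ (hC₀C c.2) _ hm⟩ ?_ hy, rfl⟩
    exact hN'cop.coprime_dvd_left (Subgroup.card_dvd_of_injective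
      ((C₀.subtype.comp (N'.subgroupOf C₀).subtype).codRestrict N' fun m => m.2)
      fun a b hab => Subtype.ext (Subtype.ext (congrArg (fun m : N' => (m : MulAut K)) hab))))
  rw [← Subgroup.map_eq_bot_iff_of_injective N C.subtype_injective, Subgroup.eq_bot_iff_forall]
  intro m hm
  refine hcent m (hN'C hm).2 (hord hN'cop m hm) fun s hs => ?_
  exact commute_of_normalized (S := C₀) (fun c hc y hy => hN'n c (hC₀C hc) y hy)
    (fun y hy c hc => hC₀n y (hN'C hy).2 c hc) hinf hm (hSle hs)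

/-- The `p'`-core criterion with a witness subgroup. -/
theorem core_iff {K : Type*} [Group K] [Finite K] [IsSimpleGroup K] {p : ℕ} [Fact p.Prime]
    {A : Subgroup (MulAut K)} (hinn : ∀ k : K, MulAut.conj k ∈ A) {x : MulAut K}
    (S E : Subgroup (MulAut K)) (hS : S ≠ ⊥)
    (hSle : S ≤ Cfsg.Inn K ⊓ Subgroup.centralizer {x})
    (hCE : Cfsg.Inn K ⊓ Subgroup.centralizer {x} ≤ E) (hE : E ≤ Subgroup.centralizer {x})
    (hEn : ∀ e ∈ E, ∀ s ∈ S, e * s * e⁻¹ ∈ S)
    (hmin : p ∣ Nat.card ↥(Cfsg.Inn K ⊓ Subgroup.centralizer {x}) →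
      ∀ M : Subgroup (MulAut K), M ≤ S → (Nat.card M).Coprime p →
      (∀ e ∈ E, ∀ m ∈ M, e * m * e⁻¹ ∈ M) → M = ⊥)
    (hcent : p ∣ Nat.card ↥(Cfsg.Inn K ⊓ Subgroup.centralizer {x}) →
      ∀ g ∈ Subgroup.centralizer {x}, (orderOf g).Coprime p →
      (∀ s ∈ S, g * s = s * g) → g = 1) :
    Cfsg.pPrimeCore p ↥(A ⊓ Subgroup.centralizer {x}) ≠ ⊥ ↔
      Nat.Coprime p (Nat.card ↥(MonoidHom.eqLocus x.toMonoidHom (MonoidHom.id K))) := by
  have hp : p.Prime := Fact.out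
  have hconj : Function.Injective (MulAut.conj : K →* MulAut K) := by
    rw [← MonoidHom.ker_eq_bot_iff]
    refine (MonoidHom.normal_ker _).eq_bot_or_eq_top.resolve_right fun h => hS ?_
    refine le_bot_iff.1 ((hSle.trans inf_le_left).trans ?_)
    rintro _ ⟨k, rfl⟩
    exact Subgroup.mem_bot.2 (MonoidHom.mem_ker.1 (h ▸ Subgroup.mem_top k))
  rw [← H4.LocalBalance.card_inn_inf_centralizer hconj, hp.coprime_iff_not_dvd]
  refine ⟨fun h hd => h (core_eq_bot hinn S E hSle hCE hE hEn (hmin hd) (hcent hd)), fun hd hbot => hS ?_⟩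
  set C := A ⊓ Subgroup.centralizer {x}
  have hle : Cfsg.Inn K ⊓ Subgroup.centralizer {x} ≤ C :=
    inf_le_inf_right _ (by rintro _ ⟨k, rfl⟩; exact hinn k)
  have hN : ((Cfsg.Inn K ⊓ Subgroup.centralizer {x}).subgroupOf C).Normal := ⟨fun m hm g =>
    ⟨(inferInstance : (Cfsg.Inn K).Normal).conj_mem _ hm.1 _,
      Subgroup.mul_mem _ (Subgroup.mul_mem _ g.2.2 hm.2) (Subgroup.inv_mem _ g.2.2)⟩⟩
  have h1 := H19.le_pPrimeCore (p := p) hN (by
    rw [Nat.card_congr (Subgroup.subgroupOfEquivOfLe hle).toEquiv, Nat.coprime_comm,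
      hp.coprime_iff_not_dvd]
    exact hd)
  rw [hbot, le_bot_iff, Subgroup.subgroupOf_eq_bot] at h1
  exact le_bot_iff.1 (hSle.trans (le_of_eq (disjoint_self.1 (h1.mono_right hle))))

/-- A coprime subgroup normalised by the image of a group which is simple modulo the kernel. -/
theorem eq_bot_of_simple_quotient {P X : Type*} [Group P] [Group X] (ψ : P →* X) (Z : Subgroup P)
    [Z.Normal] [IsSimpleGroup (P ⧸ Z)] (hZ : Z ≤ ψ.ker) {M : Subgroup X} (hM : M ≤ ψ.range)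
    (hnorm : ∀ s ∈ ψ.range, ∀ m ∈ M, s * m * s⁻¹ ∈ M) {y : P} {p : ℕ} [Fact p.Prime]
    (hy : orderOf (ψ y) = p) (hcop : (Nat.card M).Coprime p) : M = ⊥ := by
  have hn : (M.comap ψ).Normal := ⟨fun m hm a => by
    rw [Subgroup.mem_comap, map_mul, map_mul, map_inv]
    exact hnorm _ ⟨a, rfl⟩ _ hm⟩
  rcases (hn.map _ (QuotientGroup.mk'_surjective Z)).eq_bot_or_eq_top with h | h
  · rw [Subgroup.map_eq_bot_iff, QuotientGroup.ker_mk'] at h
    refine (Subgroup.eq_bot_iff_forall _).2 fun m hm => ?_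
    obtain ⟨a, rfl⟩ := hM hm
    exact MonoidHom.mem_ker.1 (hZ (h hm))
  · obtain ⟨a, ha, hae⟩ : QuotientGroup.mk' Z y ∈ (M.comap ψ).map (QuotientGroup.mk' Z) :=
      h ▸ Subgroup.mem_top _
    have h1 : ψ a = ψ y := by
      rw [← inv_mul_eq_one, ← map_inv, ← map_mul]
      exact MonoidHom.mem_ker.1 (hZ ((QuotientGroup.eq).1 hae))
    have h2 := hcop.coprime_dvd_left (Subgroup.orderOf_dvd_natCard M (x := ψ y) (h1 ▸ ha))
    rw [hy, Nat.coprime_self] at h2
    exact absurd h2 (Fact.out : p.Prime).ne_one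

/-- A normalised subgroup of order prime to the number of points fixes every point. -/
theorem smul_eq_of_coprime {H X Y : Type*} [Group H] [Group X] [Finite H] [MulAction H Y] [Finite Y]
    [MulAction.IsPretransitive H Y] (ψ : H →* X) (hker : ∀ h ∈ ψ.ker, ∀ y : Y, h • y = y)
    {M : Subgroup X} (hnorm : ∀ s ∈ ψ.range, ∀ m ∈ M, s * m * s⁻¹ ∈ M)
    (hcop : (Nat.card M).Coprime (Nat.card Y)) {h : H} (hh : ψ h ∈ M) (y : Y) : h • y = y := by
  set N := M.comap ψ with hN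
  haveI : N.Normal := ⟨fun m hm a => by
    rw [hN, Subgroup.mem_comap, map_mul, map_mul, map_inv]
    exact hnorm _ ⟨a, rfl⟩ _ hm⟩
  have hB := MulAction.IsBlock.orbit_of_normal (N := N) y
  have h1 : (MulAction.orbit N y).ncard ∣ Nat.card Y := hB.ncard_dvd_card (MulAction.nonempty_orbit y)
  have h2 : (MulAction.orbit N y).ncard ∣ Nat.card M := by
    rw [← MulAction.index_stabilizer]
    refine (Subgroup.index_dvd_of_le (H := (ψ.comp N.subtype).ker) fun m hm => hker m.1 hm y).trans ?_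
    rw [Subgroup.index_ker]
    exact Subgroup.card_dvd_of_le (by rintro _ ⟨m, rfl⟩; exact m.2)
  obtain ⟨z, hz⟩ := Set.ncard_eq_one.1 (Nat.eq_one_of_dvd_coprimes hcop h2 h1)
  have e1 : y ∈ MulAction.orbit N y := MulAction.mem_orbit_self y
  have e2 : h • y ∈ MulAction.orbit N y := ⟨⟨h, hh⟩, rfl⟩
  rw [hz, Set.mem_singleton_iff] at e1 e2
  rw [e2, e1]

/-- A power prime to `p` keeps the order `p`. -/
theorem orderOf_map_pow {G X : Type*} [Group G] [Group X] (ψ : G →* X) {g : G} {p k : ℕ} [Fact p.Prime]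
    (hg : orderOf (ψ g) = p) (hk : ¬ p ∣ k) : orderOf (ψ (g ^ k)) = p := by
  have hk0 : k ≠ 0 := fun h => hk (h ▸ dvd_zero p)
  rw [map_pow, orderOf_pow' _ hk0, hg, ((Fact.out : p.Prime).coprime_iff_not_dvd.2 hk).gcd_eq_one,
    Nat.div_one]

/-- A nilpotent scalar vanishes. -/
theorem scalar_eq_one_of_unipotent {R A : Type*} [Field R] [Ring A] [Algebra R A] [Nontrivial A]
    {c : R} {x : A} (hx : IsNilpotent (x - 1)) (hy : IsNilpotent (c • x - 1)) : c = 1 := by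
  have h1 : IsNilpotent (c • (x - 1) - (c • x - 1)) :=
    Commute.isNilpotent_sub ((((Commute.refl x).smul_right c).sub_right (Commute.one_right x)).sub_left
      ((Commute.one_left _)) |>.smul_left c) (hx.smul c) hy
  have h2 : c • (x - 1) - (c • x - 1) = algebraMap R A (1 - c) := by
    rw [Algebra.algebraMap_eq_smul_one, sub_smul, one_smul, smul_sub]
    abel
  rw [h2] at h1
  exact (sub_eq_zero.1 ((IsNilpotent.map_iff (algebraMap R A).injective).1 h1).eq_zero).symm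

end Cfsg.Agent.H4.LinearBalance
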