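import Cfsg.Agent.H4.LinearBalance.Common
import Cfsg.Agent.H4.LocalBalance.FieldCore
import Cfsg.Agent.H23.GaloisDescent
import Cfsg.Agent.H1.PSLSimple

/-!
The core criterion for a standard field automorphism of `PSL_n`.
-/

set_option autoImplicit false

namespace Cfsg.Agent.H4.LinearBalance

open Matrix Cfsg.Agent.H70.AutPSL
open scoped LinearAlgebra.Projectivization

variable {n : ℕ} {F : Type*} [Field F]

local notation "PSLn" => Matrix.ProjectiveSpecialLinearGroup (Fin n) F

/-- An element of order `p` modulo scalars can be chosen of determinant one. -/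
theorem exists_sl_order {K : Type*} [Field K] [Finite K] (hn : 2 ≤ n) {X : Type*} [Group X]
    (ρ : GL (Fin n) K →* X) (hker : ∀ g : GL (Fin n) K, ρ g = 1 → ∀ i j, i ≠ j → (g : Matrix (Fin n) (Fin n) K) i j = 0)
    (hkd : ∀ g : GL (Fin n) K, ρ g = 1 → ∀ i j, (g : Matrix (Fin n) (Fin n) K) i i = (g : Matrix (Fin n) (Fin n) K) j j)
    (hscal : ∀ g : GL (Fin n) K, (g : Matrix (Fin n) (Fin n) K) = -1 → ρ g = 1) {p : ℕ} [Fact p.Prime]
    {g : GL (Fin n) K} (hg : orderOf (ρ g) = p) :
    ∃ s : Matrix.SpecialLinearGroup (Fin n) K, orderOf (ρ (Matrix.SpecialLinearGroup.toGL s)) = p := by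
  classical
  have hp : p.Prime := Fact.out
  set k := Nat.card Kˣ with hk
  by_cases hpk : p ∣ k
  · obtain ⟨t, ht⟩ := exists_prime_orderOf_dvd_card' p hpk
    set o : Fin n := ⟨0, by omega⟩
    set o' : Fin n := ⟨1, by omega⟩
    have hoo : o ≠ o' := by simp [o, o', Fin.ext_iff]
    by_cases hspec : n = 2 ∧ p = 2
    · obtain ⟨rfl, rfl⟩ := hspec
      let s : Matrix.SpecialLinearGroup (Fin 2) K := ⟨!![0, 1; -1, 0], by simp [det_fin_two]⟩
      refine ⟨s, orderOf_eq_prime ?_ fun h => ?_⟩
      · rw [← map_pow, ← map_pow]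
        refine hscal _ ?_
        show ((s ^ 2 : Matrix.SpecialLinearGroup (Fin 2) K) : Matrix (Fin 2) (Fin 2) K) = -1
        rw [Matrix.SpecialLinearGroup.coe_pow]
        ext i j
        fin_cases i <;> fin_cases j <;> simp [s, pow_two]
      · exact one_ne_zero (hker _ h 0 1 (by decide) : (1 : K) = 0)
    · set d : Fin n → Kˣ := fun i => if i = o then t else if i = o' then t⁻¹ else 1 with hd
      have hdet : (diagonal fun i => (d i : K)).det = 1 := by
        rw [det_diagonal, ← Units.coe_prod]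
        rw [Finset.prod_eq_mul o o' hoo (fun c _ hc => by simp [hd, hc.1, hc.2])
          (fun h => absurd (Finset.mem_univ o) h) (fun h => absurd (Finset.mem_univ o') h)]
        simp [hd, hoo, Ne.symm hoo]
      let s : Matrix.SpecialLinearGroup (Fin n) K := ⟨diagonal fun i => (d i : K), hdet⟩
      refine ⟨s, orderOf_eq_prime ?_ fun h => ?_⟩
      · rw [← map_pow, ← map_pow]
        convert map_one ρ
        refine Units.ext ?_
        show ((s ^ p : Matrix.SpecialLinearGroup (Fin n) K) : Matrix (Fin n) (Fin n) K) = 1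
        rw [Matrix.SpecialLinearGroup.coe_pow]
        show (diagonal fun i => (d i : K)) ^ p = 1
        rw [diagonal_pow, ← diagonal_one]
        congr 1
        funext i
        have : d i ^ p = 1 := by
          have htp : t ^ p = 1 := ht ▸ pow_orderOf_eq_one t
          simp only [hd]
          split_ifs <;> simp [htp, inv_pow]
        simpa using congrArg Units.val this
      · have e1 : (t : K) = ((t⁻¹ : Kˣ) : K) := by
          have := hkd _ h o o'
          change (diagonal fun i => (d i : K)) o o = (diagonal fun i => (d i : K)) o' o' at this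
          simpa [hd, hoo, Ne.symm hoo] using this
        have ht2 : t ^ 2 = 1 := by
          rw [pow_two]; nth_rewrite 2 [Units.ext e1]; exact mul_inv_cancel t
        rcases hn.lt_or_eq with h3 | h2
        · have e2 := hkd _ h o ⟨2, by omega⟩
          change (diagonal fun i => (d i : K)) o o = (diagonal fun i => (d i : K)) _ _ at e2
          have : t = 1 := Units.ext (by simpa [hd, hoo, Fin.ext_iff, o, o'] using e2)
          rw [this, orderOf_one] at ht
          exact hp.ne_one ht.symm
        · exact hspec ⟨h2.symm, ((Nat.prime_dvd_prime_iff_eq hp Nat.prime_two).1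
            (ht ▸ orderOf_dvd_of_pow_eq_one ht2))⟩
  · refine ⟨⟨((g ^ k : GL (Fin n) K) : Matrix (Fin n) (Fin n) K), ?_⟩, ?_⟩
    · rw [← Matrix.GeneralLinearGroup.val_det_apply, map_pow, pow_card_eq_one', Units.val_one]
    · refine Eq.trans (congrArg (fun y => orderOf (ρ y)) ?_) (orderOf_map_pow ρ hg hpk)
      exact Units.ext rfl

/-- A finite field in which every non-zero square is one has at most three elements. -/
theorem card_le_three {K : Type*} [Field K] [Fintype K] (h : ∀ x : K, x ≠ 0 → x ^ 2 = 1) :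
    Fintype.card K ≤ 3 := by
  classical
  refine (Finset.card_le_card (s := Finset.univ) (t := {0, 1, -1}) fun x _ => ?_).trans Finset.card_le_three
  rcases eq_or_ne x 0 with rfl | hx
  · simp
  · rcases sq_eq_one_iff.1 (h x hx) with e | e <;> simp [e]

variable [Fintype F]

set_option maxHeartbeats 1600000 in
/-- The criterion for a standard field automorphism. -/
theorem field_core (hn : 2 ≤ n) {r : ℕ} [Fact r.Prime] [CharP F r] [IsSimpleGroup PSLn]
    {A : Subgroup (MulAut PSLn)} (hinn : ∀ k : PSLn, MulAut.conj k ∈ A) {p : ℕ} [Fact p.Prime]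
    (hpr : p ≠ r) (σ : F ≃+* F) (hσ : orderOf σ = p) :
    Cfsg.pPrimeCore p ↥(A ⊓ Subgroup.centralizer {semiAut (1 : GL (Fin n) F) σ}) ≠ ⊥ ↔
      Nat.Coprime p (Nat.card ↥(MonoidHom.eqLocus
        (semiAut (1 : GL (Fin n) F) σ).toMonoidHom (MonoidHom.id PSLn))) := by
  classical
  have hp : p.Prime := Fact.out
  haveI : Nonempty (Fin n) := ⟨⟨0, by omega⟩⟩
  obtain ⟨K, hK, -⟩ := H23.Descent.exists_fixedField σ
  haveI := Fintype.ofFinite K
  set φ : K →+* F := K.subtype with hφdef
  have hφ : ∀ y, σ y = y ↔ y ∈ φ.range := fun y =>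
    ⟨fun h => ⟨⟨y, (hK y).2 h⟩, rfl⟩, fun ⟨z, hz⟩ => hz ▸ (hK _).1 z.2⟩
  set x := semiAut (1 : GL (Fin n) F) σ with hxdef
  have hord : orderOf x = p := (orderOf_semiAut_one hn σ).trans hσ
  set ρ : GL (Fin n) K →* MulAut PSLn := (innDiag n F).comp (Matrix.GeneralLinearGroup.map φ) with hρ
  set ψ : Matrix.SpecialLinearGroup (Fin n) K →* MulAut PSLn :=
    ρ.comp Matrix.SpecialLinearGroup.toGL with hψ
  have hfix : ∀ g₀ : GL (Fin n) K, mapGL n σ (Matrix.GeneralLinearGroup.map φ g₀) =
      Matrix.GeneralLinearGroup.map φ g₀ :=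
    fun g₀ => Units.ext (Matrix.ext fun i j => (hφ _).mpr ⟨_, rfl⟩)
  have hρc : ∀ g₀, ρ g₀ ∈ Subgroup.centralizer {x} := fun g₀ =>
    (centralizer_field_iff hn σ (Matrix.GeneralLinearGroup.map φ g₀)).mpr
      ⟨1, by rw [hfix, scal, map_one, one_mul]⟩
  have hlift : ∀ e ∈ Cfsg.inndiagPSL n F ⊓ Subgroup.centralizer {x}, ∃ g₀, ρ g₀ = e := by
    rintro e ⟨he, hec⟩
    rw [inndiagPSL_eq_range] at he
    obtain ⟨g, rfl⟩ := he
    obtain ⟨a, ha⟩ := (centralizer_field_iff hn σ g).mp hec
    obtain ⟨b, hb⟩ := exists_fixed_multiple (by omega) ha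
    set k := scal n b * g with hk
    have hkK : ∀ i j, (k : Matrix (Fin n) (Fin n) F) i j ∈ φ.range := fun i j =>
      (hφ _).mp (congrArg (fun y : GL (Fin n) F => (y : Matrix (Fin n) (Fin n) F) i j) hb)
    choose P hP using hkK
    have hPm : (Matrix.of P).map φ = (k : Matrix (Fin n) (Fin n) F) := Matrix.ext hP
    refine ⟨Matrix.GeneralLinearGroup.mkOfDetNeZero (Matrix.of P) (fun h0 => ?_), ?_⟩
    · refine Matrix.GeneralLinearGroup.det_ne_zero k ?_
      rw [← hPm, ← RingHom.mapMatrix_apply, ← RingHom.map_det, h0, map_zero]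
    · exact ((innDiag_eq_iff hn g _).mpr ⟨b, Units.ext hPm⟩).symm
  have hk1 : ∀ g₀ : GL (Fin n) K, ρ g₀ = 1 → ∃ a : F, ∀ i j,
      φ ((g₀ : Matrix (Fin n) (Fin n) K) i j) = a * (1 : Matrix (Fin n) (Fin n) F) i j := fun g₀ h => by
    obtain ⟨a, ha⟩ := (innDiag_eq_one_iff_smul hn _).1 h
    exact ⟨a, fun i j => congrFun (congrFun ha i) j⟩
  have hker : ∀ g₀ : GL (Fin n) K, ρ g₀ = 1 → ∀ i j, i ≠ j → (g₀ : Matrix (Fin n) (Fin n) K) i j = 0 :=
    fun g₀ h i j hij => by
      obtain ⟨a, ha⟩ := hk1 g₀ h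
      refine φ.injective ?_
      rw [ha, one_apply_ne hij, mul_zero, map_zero]
  have hkd : ∀ g₀ : GL (Fin n) K, ρ g₀ = 1 → ∀ i j,
      (g₀ : Matrix (Fin n) (Fin n) K) i i = (g₀ : Matrix (Fin n) (Fin n) K) j j := fun g₀ h i j => by
    obtain ⟨a, ha⟩ := hk1 g₀ h
    refine φ.injective ?_
    rw [ha, ha, one_apply_eq, one_apply_eq]
  have hscal : ∀ (g₀ : GL (Fin n) K) (a : K), (g₀ : Matrix (Fin n) (Fin n) K) = a • 1 → ρ g₀ = 1 :=
    fun g₀ a h => (innDiag_eq_one_iff_smul hn _).2 ⟨φ a, Matrix.ext fun i j => by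
      show φ ((g₀ : Matrix (Fin n) (Fin n) K) i j) = _
      rw [h]
      by_cases hij : i = j <;> simp [hij]⟩
  have hψker : ∀ s, ψ s = 1 ↔ s ∈ Subgroup.center (Matrix.SpecialLinearGroup (Fin n) K) := fun s => by
    rw [Matrix.SpecialLinearGroup.mem_center_iff]
    constructor
    · intro h
      set o : Fin n := ⟨0, by omega⟩
      refine ⟨(s : Matrix (Fin n) (Fin n) K) o o, ?_, ?_⟩
      · have hs : (s : Matrix (Fin n) (Fin n) K) = diagonal fun _ => (s : Matrix (Fin n) (Fin n) K) o o :=
          Matrix.ext fun i j => by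
            by_cases hij : i = j
            · subst hij; rw [diagonal_apply_eq]; exact hkd _ h i o
            · rw [diagonal_apply_ne _ hij]; exact hker _ h i j hij
        have h1 := s.2
        rw [hs, det_diagonal, Finset.prod_const] at h1
        simpa using h1
      · refine Matrix.ext fun i j => ?_
        by_cases hij : i = j
        · subst hij; simpa using hkd _ h o i
        · simpa [hij] using (hker _ h i j hij).symm
    · rintro ⟨c, -, hc⟩
      refine hscal _ c ?_
      show (s : Matrix (Fin n) (Fin n) K) = _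
      rw [← hc, Matrix.smul_one_eq_diagonal]
      rfl
  set E := Cfsg.inndiagPSL n F ⊓ Subgroup.centralizer {x} with hE
  have hψI : ∀ s, ψ s ∈ Cfsg.Inn PSLn ⊓ Subgroup.centralizer {x} := fun s => by
    refine ⟨innDiag_mem_inn ?_, hρc _⟩
    show ((s : Matrix (Fin n) (Fin n) K).map φ).det = 1
    rw [← RingHom.mapMatrix_apply, ← RingHom.map_det, s.2, map_one]
  have htv : ∀ v w : Fin n → K, w ⬝ᵥ v = 0 →
      ∃ s : Matrix.SpecialLinearGroup (Fin n) K, (s : Matrix (Fin n) (Fin n) K) = 1 + vecMulVec v w :=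
    fun v w h => ⟨⟨1 + vecMulVec v w, by
      rw [vecMulVec_eq Unit, det_one_add_replicateCol_mul_replicateRow, h, add_zero]⟩, rfl⟩
  have htv0 : ∀ i j : Fin n, i ≠ j → (Pi.single j 1 : Fin n → K) ⬝ᵥ Pi.single i 1 = 0 := fun i j hij => by
    simp [Ne.symm hij]
  refine core_iff hinn ψ.range E ?_ ?_ (inf_le_inf_right _ inn_le_inndiag) inf_le_right ?_ ?_ ?_
  · -- nontriviality
    intro h
    set o : Fin n := ⟨0, by omega⟩
    set o' : Fin n := ⟨1, by omega⟩
    have hoo : o ≠ o' := by simp [o, o', Fin.ext_iff]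
    obtain ⟨s, hs⟩ := htv (Pi.single o 1) (Pi.single o' 1) (htv0 o o' hoo)
    have h1 : ψ s = 1 := Subgroup.mem_bot.1 (h ▸ ⟨s, rfl⟩)
    have := hker _ h1 o o' hoo
    rw [show ((Matrix.SpecialLinearGroup.toGL s : GL (Fin n) K) : Matrix (Fin n) (Fin n) K) = _ from hs]
      at this
    simp [hoo, vecMulVec_apply] at this
  · rintro _ ⟨s, rfl⟩
    exact hψI s
  · rintro e he _ ⟨s, rfl⟩
    obtain ⟨g₀, rfl⟩ := hlift e he
    refine ⟨⟨(g₀ * Matrix.SpecialLinearGroup.toGL s * g₀⁻¹ : GL (Fin n) K).val, ?_⟩, ?_⟩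
    · rw [← Matrix.GeneralLinearGroup.val_det_apply, map_mul, map_mul, map_inv, mul_inv_cancel_comm,
        Matrix.GeneralLinearGroup.val_det_apply]
      exact s.2
    · refine Eq.trans (congrArg ρ (a₂ := g₀ * Matrix.SpecialLinearGroup.toGL s * g₀⁻¹) ?_) ?_
      · exact Units.ext rfl
      · rw [map_mul, map_mul, map_inv]
        rfl
  · -- minimality
    intro hdvd M hM hcop hnorm
    have hnorm' : ∀ e ∈ ψ.range, ∀ m ∈ M, e * m * e⁻¹ ∈ M := fun e he => hnorm e (by
      obtain ⟨s, rfl⟩ := he
      exact ⟨inn_le_inndiag (hψI s).1, (hψI s).2⟩)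
    obtain ⟨y, hy⟩ := exists_prime_orderOf_dvd_card' p hdvd
    obtain ⟨g₀, hg₀⟩ := hlift (y : MulAut PSLn) ⟨inn_le_inndiag y.2.1, y.2.2⟩
    have hg₀p : orderOf (ρ g₀) = p := by rw [hg₀, Subgroup.orderOf_coe, hy]
    obtain ⟨s, hs⟩ := exists_sl_order hn ρ hker hkd
      (fun g h => hscal g (-1) (by rw [h, neg_one_smul])) hg₀p
    by_cases hgen : 3 ≤ n ∨ ∃ t : K, t ≠ 0 ∧ t ^ 2 ≠ 1
    · haveI : Nontrivial (Fin n) := Fin.nontrivial_iff_two_le.2 hn
      haveI := H1.isSimpleGroup_PSL (ι := Fin n) (F := K) (by rwa [Fintype.card_fin])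
      exact eq_bot_of_simple_quotient ψ (Subgroup.center _)
        (fun z hz => (hψker z).2 hz) hM hnorm' (show orderOf (ψ s) = p from hs) hcop
    · push Not at hgen
      obtain ⟨hn3, hsq⟩ := hgen
      obtain rfl : n = 2 := by omega
      have hcard := card_le_three hsq
      have hcard2 := Fintype.one_lt_card (α := K)
      haveI : CharP K r := RingHom.charP φ φ.injective r
      have hr0 : r ∣ Fintype.card K := (CharP.cast_eq_zero_iff K r _).1 (Nat.cast_card_eq_zero K)
      have hdvd' : p ∣ Nat.card (GL (Fin 2) K) := by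
        rw [← hg₀p]
        exact (orderOf_map_dvd ρ g₀).trans (orderOf_dvd_natCard _)
      rw [Matrix.card_GL_field, Fin.prod_univ_two] at hdvd'
      have hpY : Nat.card (ℙ K (Fin 2 → K)) = Fintype.card K + 1 := by
        have := Projectivization.card' K (Fin 2 → K)
        rw [Nat.card_fun, Nat.card_eq_fintype_card (α := K), Nat.card_eq_fintype_card (α := Fin 2),
          Fintype.card_fin] at this
        have h0 : (0 : ℕ) < Fintype.card K - 1 := by omega
        refine Nat.eq_of_mul_eq_mul_right h0 ?_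
        interval_cases h : Fintype.card K <;> omega
      have hcopY : (Nat.card M).Coprime (Nat.card (ℙ K (Fin 2 → K))) := by
        rw [hpY]
        have hr : r.Prime := Fact.out
        interval_cases h : Fintype.card K
        · have hr2 : r = 2 := (Nat.prime_dvd_prime_iff_eq hr Nat.prime_two).1 hr0
          have hp3 : p = 3 := by
            norm_num [Nat.card_eq_fintype_card, h] at hdvd'
            rcases hp.dvd_mul.1 (show p ∣ 3 * 2 by simpa using hdvd') with e | e
            · exact (Nat.prime_dvd_prime_iff_eq hp Nat.prime_three).1 e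
            · exact absurd ((Nat.prime_dvd_prime_iff_eq hp Nat.prime_two).1 e) (hr2 ▸ hpr)
          rw [hp3] at hcop; exact hcop
        · have hr3 : r = 3 := (Nat.prime_dvd_prime_iff_eq hr Nat.prime_three).1 hr0
          have hp2 : p = 2 := by
            norm_num [Nat.card_eq_fintype_card, h] at hdvd'
            rcases hp.dvd_mul.1 (show p ∣ 2 ^ 4 * 3 by simpa using hdvd') with e | e
            · exact (Nat.prime_dvd_prime_iff_eq hp Nat.prime_two).1 (hp.dvd_of_dvd_pow e)
            · exact absurd ((Nat.prime_dvd_prime_iff_eq hp Nat.prime_three).1 e) (hr3 ▸ hpr)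
          rw [hp2] at hcop; exact hcop.pow_right 2
      refine (Subgroup.eq_bot_iff_forall _).2 fun m hm => ?_
      obtain ⟨h, rfl⟩ := hM hm
      refine (hψker h).2 ?_
      rw [← Projectivization.SL_mulAction_ker, MonoidHom.mem_ker]
      refine Equiv.ext fun D => ?_
      exact smul_eq_of_coprime ψ (fun z hz D => by
        have hz' := (hψker z).1 hz
        rw [← Projectivization.SL_mulAction_ker, MonoidHom.mem_ker] at hz'
        exact DFunLike.congr_fun hz' D) hnorm' hcopY hm D
  · -- centraliser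
    intro _ g hg hcop hgS
    have hψc : ∀ (s : Matrix.SpecialLinearGroup (Fin n) K),
        g * innDiag n F (Matrix.GeneralLinearGroup.map φ (Matrix.SpecialLinearGroup.toGL s)) =
        innDiag n F (Matrix.GeneralLinearGroup.map φ (Matrix.SpecialLinearGroup.toGL s)) * g :=
      fun s => hgS _ ⟨s, rfl⟩
    have hnil : ∀ (v w : Fin n → K), w ⬝ᵥ v = 0 → ∀ (s : Matrix.SpecialLinearGroup (Fin n) K),
        (s : Matrix (Fin n) (Fin n) K) = 1 + vecMulVec v w →
        IsNilpotent ((Matrix.GeneralLinearGroup.map φ (Matrix.SpecialLinearGroup.toGL s) :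
          Matrix (Fin n) (Fin n) F) - 1) := fun v w h s hs => by
      have := (isNilpotent_vecMulVec h).map φ.mapMatrix
      rwa [show φ.mapMatrix (vecMulVec v w) = φ.mapMatrix ((s : Matrix (Fin n) (Fin n) K)) - 1 by
        rw [hs, map_add, map_one, add_sub_cancel_left]] at this
    obtain ⟨h, τ, rfl | ⟨hn3, rfl⟩⟩ := exists_semiAut hn g
    · obtain ⟨a, ha, hτ⟩ := scalar_of_transvections φ τ hn h fun v hv => by
        obtain ⟨w, hw0, hw⟩ := exists_perp hn v
        refine ⟨w, hw0, ?_⟩
        obtain ⟨s, hs⟩ := htv v w hw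
        have e := matrix_eq_of_commute hn h τ (hnil v w hw s hs) (hnil v w hw s hs) (hψc s)
        rw [show ((Matrix.GeneralLinearGroup.map φ (Matrix.SpecialLinearGroup.toGL s) : GL (Fin n) F) :
          Matrix (Fin n) (Fin n) F) = φ.mapMatrix (s : Matrix (Fin n) (Fin n) K) from rfl, hs, map_add,
          map_one] at e
        rw [show (vecMulVec v w).map (twisted φ τ) = ((vecMulVec v w).map φ).map τ from rfl]
        rw [RingHom.mapMatrix_apply, Matrix.map_add _ (map_add τ), Matrix.map_one _ (map_zero τ) (map_one τ),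
          mul_add, add_mul, mul_one, one_mul] at e
        exact add_left_cancel e
      have hh : h = scal n a * 1 := by rw [mul_one]; exact Units.ext (ha.trans (scal_coe a).symm)
      rw [hh, semiAut_scal_mul] at hcop ⊢
      refine eq_one_of_mem_zpowers hord ?_ hcop
      haveI : Finite (F ≃+* F) := Finite.of_injective (fun e => (e : F → F)) DFunLike.coe_injective
      have hτm : τ ∈ Submonoid.powers σ := mem_powers_iff_mem_zpowers.2
        (LocalBalance.mem_zpowers_of_fix fun y hy => by
          obtain ⟨b, rfl⟩ := (hφ y).1 hy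
          exact hτ b)
      obtain ⟨j, rfl⟩ := (Submonoid.mem_powers_iff _ _).1 hτm
      rw [← semiAut_one_pow]
      exact pow_mem (Subgroup.mem_zpowers _) j
    · exfalso
      refine false_of_transvections_transpose hn3 h fun i j hij => ?_
      obtain ⟨s, hs⟩ := htv (Pi.single i 1) (Pi.single j 1) (htv0 i j hij)
      have e := matrix_eq_of_commute_it hn h τ (hnil _ _ (htv0 i j hij) s hs) (hψc s)
      have hsi : ((itGL n F (Matrix.GeneralLinearGroup.map φ (Matrix.SpecialLinearGroup.toGL s)) :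
          Matrix (Fin n) (Fin n) F)) = 1 + vecMulVec (Pi.single j 1) (-Pi.single i (1 : F)) := by
        rw [itGL_coe, Units.inv_eq_of_mul_eq_one_right (a := 1 + vecMulVec (Pi.single i 1) (-Pi.single j (1 : F))),
          transpose_add, transpose_one, transpose_vecMulVec]
        · congr 1
          ext a b
          simp [vecMulVec_apply, mul_comm]
        · show φ.mapMatrix (s : Matrix (Fin n) (Fin n) K) * _ = 1
          rw [hs, map_add, map_one, RingHom.mapMatrix_apply, map_vecMulVec]
          have e1 : ∀ k : Fin n, (fun a => φ ((Pi.single k 1 : Fin n → K) a)) = Pi.single k 1 := fun k =>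
            funext fun a => by by_cases ha : a = k <;> simp [ha]
          rw [e1, e1]
          simp [mul_add, add_mul, vecMulVec_mul_vecMulVec, hij, Ne.symm hij]
      rw [hsi, show ((Matrix.GeneralLinearGroup.map φ (Matrix.SpecialLinearGroup.toGL s) : GL (Fin n) F) :
          Matrix (Fin n) (Fin n) F) = φ.mapMatrix (s : Matrix (Fin n) (Fin n) K) from rfl, hs, map_add,
        map_one, RingHom.mapMatrix_apply, map_vecMulVec] at e
      have e1 : ∀ k : Fin n, (fun a => φ ((Pi.single k 1 : Fin n → K) a)) = Pi.single k 1 := fun k =>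
        funext fun a => by by_cases ha : a = k <;> simp [ha]
      rw [e1, e1, Matrix.map_add _ (map_add τ), Matrix.map_one _ (map_zero τ) (map_one τ),
        mul_add, add_mul, mul_one, one_mul] at e
      have e2 : (vecMulVec (Pi.single j 1) (-Pi.single i (1 : F))).map τ =
          vecMulVec (Pi.single j 1) (-Pi.single i (1 : F)) := Matrix.ext fun a b => by
        by_cases ha : a = j <;> by_cases hb : b = i <;> simp [vecMulVec_apply, ha, hb]
      rw [e2] at e
      exact add_left_cancel e

end Cfsg.Agent.H4.LinearBalance
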