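import Cfsg.Agent.H4.LocalBalance.OddNormal

/-!
A normal subgroup of an orthogonal group in odd characteristic and dimension at least three, all of
whose elements have a scalar odd power, consists of scalars.
-/

set_option autoImplicit false

namespace Cfsg.Agent.H4.LinearBalance

open QuadraticMap hiding sq
open Module
open Cfsg.Agent.H5 (orth orth_map orth_ext orth_mul_apply refl dick)

universe u

variable {F : Type*} [Field F] [Finite F]

/-- An odd power which is scalar and fixes a vector is trivial. -/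
theorem pow_eq_one_of_fix {V : Type*} [AddCommGroup V] [Module F V] {Q : QuadraticForm F V}
    {g : orth Q} {u : V} (hu : u ≠ 0) (hg : (g : V ≃ₗ[F] V) u = u) {m : ℕ}
    (hm : H5.IsScalar (g ^ m)) : g ^ m = 1 := by
  obtain ⟨t, ht⟩ := hm
  have hfix : ∀ k : ℕ, ((g ^ k : orth Q) : V ≃ₗ[F] V) u = u := fun k => by
    induction k with
    | zero => rfl
    | succ k ih => rw [pow_succ, orth_mul_apply, hg, ih]
  have h1 := ht u
  rw [hfix] at h1
  have ht1 : t = 1 := smul_left_injective F hu (h1.symm.trans (one_smul F u).symm)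
  exact orth_ext fun x => by rw [ht, ht1, one_smul]; rfl

/-- An element of odd order equal to its inverse is trivial. -/
theorem eq_one_of_odd_pow {G : Type*} [Group G] {g : G} (h2 : g * g = 1) {m : ℕ} (hm : Odd m)
    (h : g ^ m = 1) : g = 1 := by
  obtain ⟨j, rfl⟩ := hm
  rwa [pow_succ, pow_mul, pow_two, h2, one_pow, one_mul] at h

theorem scalar_of_odd_normal_three {V : Type*} [AddCommGroup V] [Module F V]
    [FiniteDimensional F V] [Finite V] (h2 : (2 : F) ≠ 0) {Q : QuadraticForm F V}
    (hQ : (polarBilin Q).Nondegenerate) (h3 : finrank F V = 3) (H : Subgroup (orth Q)) [H.Normal]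
    (hH : ∀ h ∈ H, ∃ m, Odd m ∧ H5.IsScalar (h ^ m)) {h : orth Q} (hh : h ∈ H) : H5.IsScalar h := by
  classical
  haveI : Finite (V ≃ₗ[F] V) :=
    Finite.of_injective (fun g => (g : V → V)) DFunLike.coe_injective
  haveI : Nontrivial V := Module.nontrivial_of_finrank_pos (R := F) (by omega)
  have hstd : Nat.card F ≠ 2 ∨ finrank F V ≠ 4 := Or.inr (by omega)
  let δ : orth Q →* Fˣ := LinearEquiv.det.comp (orth Q).subtype
  have hδ : ∀ g, δ g * δ g = 1 := fun g => Units.ext (by
    simp only [δ, MonoidHom.comp_apply, Subgroup.coe_subtype, Units.val_mul, LinearEquiv.coe_det, Units.val_one]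
    rw [H5.det_eq_dick hQ (by rw [H5.reflGroup_eq_top hQ hstd]; trivial), ← Int.cast_mul,
      ← Units.val_mul, Int.units_mul_self, Units.val_one, Int.cast_one])
  set H' := H ⊓ δ.ker
  have hord : ∀ g ∈ H', ∃ m, Odd m ∧ g ^ m = 1 := by
    rintro g ⟨hg, hd⟩
    obtain ⟨m, hm, hs⟩ := hH g hg
    refine ⟨m, hm, ?_⟩
    obtain ⟨t, ht⟩ := hs
    have hk : δ (g ^ m) = 1 := by rw [map_pow, MonoidHom.mem_ker.1 hd, one_pow]
    have hk' : LinearMap.det (((g ^ m : orth Q) : V ≃ₗ[F] V) : V →ₗ[F] V) = 1 := by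
      simpa only [δ, MonoidHom.comp_apply, Subgroup.coe_subtype, LinearEquiv.coe_det, Units.val_one] using
        congrArg Units.val hk
    rw [show (((g ^ m : orth Q) : V ≃ₗ[F] V) : V →ₗ[F] V) = t • LinearMap.id from LinearMap.ext ht,
      LinearMap.det_smul, h3, LinearMap.det_id, mul_one] at hk'
    obtain ⟨v, hv⟩ := exists_ne (0 : V)
    have hkk := LocalBalance.mul_self_eq_one_of_scalar hQ ⟨t, ht⟩
    have h1 := congrArg (fun k : orth Q => (k : V ≃ₗ[F] V) v) hkk
    simp only [orth_mul_apply, ht, smul_smul, Subgroup.coe_one, LinearEquiv.coe_one, id_eq] at h1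
    have htt : t * t = 1 := smul_left_injective F hv (h1.trans (one_smul F v).symm)
    rw [pow_succ, pow_two, htt, one_mul] at hk'
    exact orth_ext fun x => by rw [ht, hk', one_smul]; rfl
  have hodd : Odd (Nat.card H') := by
    rw [← Nat.not_even_iff_odd]
    intro he
    obtain ⟨g, hg⟩ := exists_prime_orderOf_dvd_card' (G := H') 2 (even_iff_two_dvd.1 he)
    obtain ⟨m, hm, hgm⟩ := hord g g.2
    have hgg : (g : H') * g = 1 := by rw [← pow_two, ← hg]; exact pow_orderOf_eq_one g
    have h1 : (g : orth Q) = 1 :=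
      eq_one_of_odd_pow (by rw [← Subgroup.coe_mul, hgg]; rfl) hm hgm
    rw [show g = 1 from Subtype.ext h1, orderOf_one] at hg
    exact absurd hg (by norm_num)
  have hbot := LocalBalance.eq_bot_of_odd_normal_orth h2 hQ ⟨1, by omega⟩ H' hodd
  have hmem : h * h ∈ H' := ⟨mul_mem hh hh, show δ (h * h) = 1 by rw [map_mul, hδ]⟩
  rw [hbot, Subgroup.mem_bot] at hmem
  obtain ⟨m, ⟨j, rfl⟩, hm⟩ := hH h hh
  rwa [pow_succ, pow_mul, pow_two, hmem, one_pow, one_mul] at hm

/-- A normal subgroup all of whose elements have a scalar odd power consists of scalars. -/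
theorem scalar_of_odd_normal (n : ℕ) : ∀ (V : Type u) [AddCommGroup V] [Module F V]
    [FiniteDimensional F V] [Finite V], (2 : F) ≠ 0 → ∀ (Q : QuadraticForm F V),
    (polarBilin Q).Nondegenerate → finrank F V = n → 3 ≤ n → ∀ (H : Subgroup (orth Q)) [H.Normal],
    (∀ h ∈ H, ∃ m, Odd m ∧ H5.IsScalar (h ^ m)) → ∀ h ∈ H, H5.IsScalar h := by
  induction n using Nat.strong_induction_on with
  | _ n ih =>
  intro V _ _ _ _ h2 Q hQ hn hn3 H _ hH x hx
  rcases hn3.lt_or_eq with h4 | h3
  swap
  · exact scalar_of_odd_normal_three h2 hQ (hn.trans h3.symm) H hH hx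
  have hq : Nat.card F ≠ 2 := fun hc => h2 (by
    haveI := Fintype.ofFinite F
    rw [Nat.card_eq_fintype_card] at hc
    have := Nat.cast_card_eq_zero F
    rw [hc] at this
    simpa using this)
  -- the stabiliser of an anisotropic vector meets `H` trivially
  have hstab : ∀ u : V, Q u ≠ 0 → ∀ g ∈ H, (g : V ≃ₗ[F] V) u = u → g = 1 := by
    intro u hu g hg hgu
    have hu0 : u ≠ 0 := fun h => hu (by rw [h, QuadraticMap.map_zero])
    set U := Submodule.span F {u}
    have hU : U ⊓ H5.perp Q U = ⊥ := by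
      rw [Submodule.eq_bot_iff]
      rintro y ⟨hy, hy'⟩
      obtain ⟨t, rfl⟩ := Submodule.mem_span_singleton.1 hy
      have := H5.mem_perp_span.1 hy'
      rw [polar_smul_right, H5.polar_self', smul_eq_mul, mul_eq_zero, mul_eq_zero] at this
      rcases this with h | h | h
      · rw [h, zero_smul]
      · exact absurd h h2
      · exact absurd h hu
    obtain ⟨W, hWdef⟩ : ∃ W, W = H5.perp Q U := ⟨_, rfl⟩
    have hpW : H5.perp Q W = U := by rw [hWdef]; exact H5.perp_perp hQ U
    have hW : W ⊓ H5.perp Q W = ⊥ := by rw [hpW, inf_comm, hWdef]; exact hU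
    have hWdim : finrank F W + 1 = n := by
      have h1 : finrank F W + finrank F U = finrank F V := by rw [hWdef]; exact H5.finrank_perp_add hQ U
      have h2' : finrank F U = 1 := finrank_span_singleton hu0
      omega
    have hinv : ∀ w ∈ W, (g : V ≃ₗ[F] V) w ∈ W := fun w hw => by
      rw [hWdef] at hw ⊢
      refine H5.mem_perp_span.2 ?_
      rw [← hgu, H5.orth_polar]; exact H5.mem_perp_span.1 hw
    have hmap : W.map ((g : V ≃ₗ[F] V) : V →ₗ[F] V) = W := Submodule.eq_of_le_of_finrank_eq
      (Submodule.map_le_iff_le_comap.2 fun w hw => hinv w hw)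
      (LinearEquiv.finrank_map_eq (g : V ≃ₗ[F] V) W)
    set k : orth (Q.restrict W) := ⟨(g : V ≃ₗ[F] V).ofSubmodules W W hmap, fun w => by
      show Q ((g : V ≃ₗ[F] V) (w : V)) = Q (w : V)
      exact orth_map g _⟩ with hk
    have hgk : LocalBalance.extHom hQ hW k = g := orth_ext fun y => by
      obtain ⟨w, hw, z, hz, rfl⟩ := H5.exists_split hQ hW y
      rw [map_add, map_add, show w = ((⟨w, hw⟩ : W) : V) from rfl, LocalBalance.extHom_apply,
        LocalBalance.extHom_apply_perp hQ hW _ hz]
      rw [hpW] at hz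
      obtain ⟨t, rfl⟩ := Submodule.mem_span_singleton.1 hz
      rw [map_smul, hgu]
      rfl
    haveI : (H.comap (LocalBalance.extHom hQ hW)).Normal := Subgroup.Normal.comap ‹_› _
    have hH' : ∀ a ∈ H.comap (LocalBalance.extHom hQ hW), ∃ m, Odd m ∧ a ^ m = 1 := by
      intro a ha
      obtain ⟨m, hm, hs⟩ := hH _ ha
      refine ⟨m, hm, LocalBalance.extHom_injective hQ hW ?_⟩
      rw [map_pow, map_one]
      exact pow_eq_one_of_fix hu0 (LocalBalance.extHom_apply_perp hQ hW a
        (by rw [hpW]; exact Submodule.mem_span_singleton_self u)) hs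
    have hks := ih (n - 1) (by omega) W h2 (Q.restrict W) (H5.restrict_nondegenerate hW) (by omega)
      (by omega) (H.comap (LocalBalance.extHom hQ hW))
      (fun a ha => by
        obtain ⟨m, hm, h1⟩ := hH' a ha
        exact ⟨m, hm, h1 ▸ ⟨1, fun y => by rw [one_smul]; rfl⟩⟩) k (by rw [Subgroup.mem_comap, hgk]; exact hg)
    obtain ⟨m, hm, hkm⟩ := hH' k (by rw [Subgroup.mem_comap, hgk]; exact hg)
    rw [← hgk, eq_one_of_odd_pow (LocalBalance.mul_self_eq_one_of_scalar (H5.restrict_nondegenerate hW) hks)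
      hm hkm, map_one]
  have hcomm : ∀ v : V, Q v ≠ 0 → x * refl Q v = refl Q v * x := by
    intro v hv
    set y := x * refl Q v * x⁻¹ * refl Q v with hy
    have hyH : y ∈ H := by
      rw [hy, mul_assoc, mul_assoc]
      refine mul_mem hx ?_
      have := ‹H.Normal›.conj_mem _ (inv_mem hx) (refl Q v)
      rwa [H5.refl_inv, mul_assoc] at this
    have hyr : y = refl Q ((x : V ≃ₗ[F] V) v) * refl Q v := by rw [hy, H5.refl_conj]
    set W := Submodule.span F ({v, (x : V ≃ₗ[F] V) v} : Set V) with hW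
    have hWdim : finrank F W ≤ 2 := by
      classical
      have := finrank_span_finset_le_card (R := F) ({v, (x : V ≃ₗ[F] V) v} : Finset V)
      rw [Set.finrank, Finset.coe_insert, Finset.coe_singleton] at this
      exact this.trans Finset.card_le_two
    obtain ⟨u, hu, hqu⟩ : ∃ u ∈ H5.perp Q W, Q u ≠ 0 := by
      by_contra! hall
      have hle := H5.le_perp_of_forall_eq_zero hall
      rw [show H5.perp Q (H5.perp Q W) = W from H5.perp_perp hQ W] at hle
      have h5 := H5.finrank_perp_add hQ W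
      have h6 := Submodule.finrank_mono hle
      have heq : H5.perp Q W = W := Submodule.eq_of_le_of_finrank_le hle (by omega)
      exact hv (hall v (by rw [heq]; exact Submodule.subset_span (Set.mem_insert _ _)))
    have hyu : (y : V ≃ₗ[F] V) u = u := by
      rw [hyr, orth_mul_apply, H5.refl_apply_of_ortho (H5.mem_perp.1 hu v (Submodule.subset_span (by simp))),
        H5.refl_apply_of_ortho (H5.mem_perp.1 hu _ (Submodule.subset_span (by simp)))]
    have h1 := hstab u hqu y hyH hyu
    rwa [hy, mul_eq_one_iff_eq_inv, H5.refl_inv, mul_inv_eq_iff_eq_mul] at h1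
  refine H5.isScalar_of_centralize hQ (by omega) (Or.inl hq) fun g _ => ?_
  have hg : g ∈ H5.reflGroup Q := by rw [H5.reflGroup_eq_top hQ (Or.inl hq)]; trivial
  refine H5.reflGroup_induction (p := fun g => x * g = g * x) (by rw [mul_one, one_mul])
    (fun v a hv _ ha => ?_) hg
  rw [← mul_assoc, hcomm v hv, mul_assoc, ha, ← mul_assoc]

end Cfsg.Agent.H4.LinearBalance
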