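import Cfsg.Agent.H4.LinearBalance.Cent
import Cfsg.Agent.H4.LinearBalance.OrthOdd
import Cfsg.Agent.H62.GraphPSL.Classify
import Cfsg.Agent.H2.AutPSp.Count
import Cfsg.Agent.S0270

/-!
Isometry groups of symmetric and alternating matrices: frames, involutions, coprime normal subgroups,
centralising semilinear maps.
-/

set_option autoImplicit false

namespace Cfsg.Agent.H4.LinearBalance

open Matrix
open Cfsg.Agent.H62.GraphPSL (formIso mem_formIso glConj glConj_mem_formIso glConj_mulVec IsAltMat)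

variable {n : ℕ} {F : Type*} [Field F]

local notation "Mn" => Matrix (Fin n) (Fin n) F
local notation "Vn" => (Fin n → F)

/-- Determinant of a rank one perturbation. -/
theorem det_one_add_vecMulVec (v w : Fin n → F) : (1 + vecMulVec v w : Mn).det = 1 + w ⬝ᵥ v := by
  rw [vecMulVec_eq Unit]
  exact det_one_add_replicateCol_mul_replicateRow v w

/-- The quadratic form of a matrix. -/
noncomputable def quadOf (G : Matrix (Fin n) (Fin n) F) : QuadraticForm F (Fin n → F) :=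
  (Matrix.toBilin' G).toQuadraticMap

theorem quadOf_apply (G : Matrix (Fin n) (Fin n) F) (v : Fin n → F) : quadOf G v = v ⬝ᵥ G *ᵥ v := by
  rw [quadOf, LinearMap.BilinMap.toQuadraticMap_apply, Matrix.toBilin'_apply']

theorem polar_quadOf {G : Matrix (Fin n) (Fin n) F} (hG : Gᵀ = G) (u v : Fin n → F) :
    QuadraticMap.polar (quadOf G) u v = 2 * (u ⬝ᵥ G *ᵥ v) := by
  simp only [QuadraticMap.polar, quadOf_apply, mulVec_add, dotProduct_add, add_dotProduct,
    dot_symm hG v u]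
  ring

theorem quadOf_nondeg {G : Matrix (Fin n) (Fin n) F} (hG : Gᵀ = G) (hd : G.det ≠ 0) (h2 : (2 : F) ≠ 0) :
    (QuadraticMap.polarBilin (quadOf G)).Nondegenerate := by
  have key : ∀ u : Fin n → F, (∀ v, u ⬝ᵥ G *ᵥ v = 0) → u = 0 := fun u hu => by
    refine eq_zero_of_vecMul_eq_zero hd (funext fun i => ?_)
    have := hu (Pi.single i 1)
    rw [dotProduct_mulVec, dotProduct_single, mul_one] at this
    exact this
  refine ⟨fun u hu => key u fun v => ?_, fun u hu => key u fun v => ?_⟩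
  · have := hu v
    rw [QuadraticMap.polarBilin_apply_apply, polar_quadOf hG] at this
    exact (mul_eq_zero.1 this).resolve_left h2
  · have := hu v
    rw [QuadraticMap.polarBilin_apply_apply, polar_quadOf hG, dot_symm hG v u] at this
    exact (mul_eq_zero.1 this).resolve_left h2

/-- A hyperbolic pair and an anisotropic vector orthogonal to it, through a given isotropic vector. -/
theorem exists_frame [Finite F] {G : Matrix (Fin n) (Fin n) F} (hG : Gᵀ = G) (hd : G.det ≠ 0)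
    (h2 : (2 : F) ≠ 0) (hn : 3 ≤ n) {z : Fin n → F} (hz0 : z ≠ 0) (hz : z ⬝ᵥ G *ᵥ z = 0) :
    ∃ f u, f ⬝ᵥ G *ᵥ f = 0 ∧ z ⬝ᵥ G *ᵥ f = 1 ∧ z ⬝ᵥ G *ᵥ u = 0 ∧ f ⬝ᵥ G *ᵥ u = 0 ∧
      u ⬝ᵥ G *ᵥ u ≠ 0 := by
  have hQ := quadOf_nondeg hG hd h2
  obtain ⟨f, hp⟩ := H5.exists_hypPair hQ hz0 (by rw [quadOf_apply]; exact hz)
  obtain ⟨u, hu, hqu⟩ := H5.exists_anisotropic (hp.inf_perp hQ) (by
    have := hp.finrank_pperp hQ
    rw [Module.finrank_fin_fun] at this
    omega)
  rw [H5.mem_pperp, polar_quadOf hG, polar_quadOf hG, mul_eq_zero, mul_eq_zero] at hu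
  have h1 := hp.pair
  rw [polar_quadOf hG] at h1
  have h3 := hp.right
  rw [quadOf_apply] at h3
  refine ⟨(2 : F) • f, u, ?_, ?_, hu.1.resolve_left h2, ?_, by rwa [quadOf_apply] at hqu⟩
  · simp [mulVec_smul, h3]
  · simpa [mulVec_smul] using h1
  · simp [hu.2.resolve_left h2]

theorem exists_isotropic_sym [Finite F] {G : Matrix (Fin n) (Fin n) F} (hG : Gᵀ = G) (hd : G.det ≠ 0)
    (h2 : (2 : F) ≠ 0) (hn : 3 ≤ n) : ∃ z : Fin n → F, z ≠ 0 ∧ z ⬝ᵥ G *ᵥ z = 0 := by
  obtain ⟨z, hz0, hz⟩ := H5.exists_singular (quadOf_nondeg hG hd h2)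
    (by rw [Module.finrank_fin_fun]; exact hn)
  exact ⟨z, hz0, by rwa [quadOf_apply] at hz⟩

/-- The reflection matrix. -/
def reflMat (G : Matrix (Fin n) (Fin n) F) (u : Fin n → F) : Matrix (Fin n) (Fin n) F :=
  1 + vecMulVec u ((-2 / (u ⬝ᵥ G *ᵥ u)) • (G *ᵥ u))

theorem transpose_reflMat_mul {G : Matrix (Fin n) (Fin n) F} (hG : Gᵀ = G) {u : Fin n → F}
    (hu : u ⬝ᵥ G *ᵥ u ≠ 0) : (reflMat G u)ᵀ * G * reflMat G u = G := by
  have hl : u ᵥ* G = G *ᵥ u := by rw [← mulVec_transpose, hG]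
  simp only [reflMat, transpose_add, transpose_one, transpose_smul, transpose_vecMulVec, add_mul, mul_add, one_mul, mul_one,
    vecMulVec_mul, hl, mul_vecMulVec, vecMulVec_mulVec, vecMulVec_mul_vecMulVec, vecMulVec_smul,
    smul_vecMulVec, smul_smul, dotProduct_comm (G *ᵥ u) u, smul_mul_assoc, mul_smul_comm, op_smul_eq_smul]
  match_scalars <;> field_simp <;> ring

theorem det_reflMat {G : Matrix (Fin n) (Fin n) F} {u : Fin n → F} (hu : u ⬝ᵥ G *ᵥ u ≠ 0) :
    (reflMat G u).det = -1 := by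
  rw [reflMat, det_one_add_vecMulVec, smul_dotProduct, dotProduct_comm (G *ᵥ u) u, smul_eq_mul,
    div_mul_cancel₀ _ hu]
  ring

theorem reflMat_mulVec (G : Matrix (Fin n) (Fin n) F) (u v : Fin n → F) :
    reflMat G u *ᵥ v = v + (-2 / (u ⬝ᵥ G *ᵥ u) * ((G *ᵥ u) ⬝ᵥ v)) • u := by
  rw [reflMat, add_mulVec, one_mulVec, vecMulVec_mulVec, op_smul_eq_smul, smul_dotProduct, smul_eq_mul]

/-- A non-scalar involution of determinant one preserving a symmetric form. -/
theorem exists_involution_sym [Finite F] {G : Matrix (Fin n) (Fin n) F} (hG : Gᵀ = G) (hd : G.det ≠ 0)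
    (h2 : (2 : F) ≠ 0) (hn : 3 ≤ n) :
    ∃ s : GL (Fin n) F, s ∈ formIso G ∧ (s : Mn).det = 1 ∧ s * s = 1 ∧
      ¬ ∃ a : F, (s : Mn) = a • 1 := by
  obtain ⟨e, he0, he⟩ := exists_isotropic_sym hG hd h2 hn
  obtain ⟨f, u, hf, hef, heu, hfu, hu⟩ := exists_frame hG hd h2 hn he0 he
  have hfe : f ⬝ᵥ G *ᵥ e = 1 := by rw [dot_symm hG, hef]
  set w := e + f with hw
  have hww : w ⬝ᵥ G *ᵥ w = 2 := by
    simp only [hw, mulVec_add, dotProduct_add, add_dotProduct, he, hf, hef, hfe]; ring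
  have hw0 : w ⬝ᵥ G *ᵥ w ≠ 0 := by rw [hww]; exact h2
  set M := reflMat G u * reflMat G w with hM
  have hMd : M.det = 1 := by rw [hM, det_mul, det_reflMat hu, det_reflMat hw0]; ring
  set s := Matrix.GeneralLinearGroup.mkOfDetNeZero M (by rw [hMd]; exact one_ne_zero) with hs
  have hMv : ∀ v, M *ᵥ v = v + (-2 / (u ⬝ᵥ G *ᵥ u) * (u ⬝ᵥ G *ᵥ v)) • u +
      (-2 / 2 * (w ⬝ᵥ G *ᵥ v)) • w := fun v => by
    have hGl : ∀ a b : Fin n → F, (G *ᵥ a) ⬝ᵥ b = a ⬝ᵥ G *ᵥ b := fun a b => by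
      rw [dotProduct_comm, dot_symm hG a b]
    have huw : u ⬝ᵥ G *ᵥ w = 0 := by
      simp only [hw, mulVec_add, dotProduct_add, dot_symm hG u e, dot_symm hG u f, heu, hfu, add_zero]
    rw [hM, ← mulVec_mulVec, reflMat_mulVec, reflMat_mulVec, hGl, hGl, hww, mulVec_add, mulVec_smul,
      dotProduct_add, dotProduct_smul, huw, smul_zero, add_zero]
    abel
  refine ⟨s, ?_, hMd, ?_, ?_⟩
  · show Mᵀ * G * M = G
    rw [hM, transpose_mul, show (reflMat G w)ᵀ * (reflMat G u)ᵀ * G * (reflMat G u * reflMat G w) =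
      (reflMat G w)ᵀ * ((reflMat G u)ᵀ * G * reflMat G u) * reflMat G w by simp only [mul_assoc],
      transpose_reflMat_mul hG hu, transpose_reflMat_mul hG hw0]
  · refine Units.ext (Matrix.ext_of_mulVec_single fun i => ?_)
    show (M * M) *ᵥ _ = (1 : Mn) *ᵥ _
    have huw : w ⬝ᵥ G *ᵥ u = 0 := by
      simp only [hw, add_dotProduct, heu, hfu, add_zero]
    rw [← mulVec_mulVec, hMv, hMv, one_mulVec]
    simp only [mulVec_add, mulVec_smul, dotProduct_add, dotProduct_smul, huw, dot_symm hG u w, hww,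
      smul_eq_mul, mul_zero, add_zero]
    match_scalars <;> field_simp <;> ring
  · rintro ⟨a, ha⟩
    have h1 : M *ᵥ u = -u := by
      rw [hMv, show w ⬝ᵥ G *ᵥ u = 0 by simp only [hw, add_dotProduct, heu, hfu, add_zero],
        mul_zero, zero_smul, add_zero, div_mul_cancel₀ _ hu]
      module
    have h3 : M *ᵥ (e - f) = e - f := by
      rw [hMv]
      simp only [hw, mulVec_sub, dotProduct_sub, add_dotProduct, dot_symm hG u e, dot_symm hG u f, heu, hfu,
        he, hf, hef, hfe]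
      simp
    change M = _ at ha
    rw [ha, smul_mulVec, one_mulVec] at h1 h3
    have h4 := congrArg (fun v => u ⬝ᵥ G *ᵥ v) h1
    have h5 := congrArg (fun v => f ⬝ᵥ G *ᵥ v) h3
    simp [mulVec_smul, mulVec_neg, mulVec_sub, hfe, hf] at h4 h5
    rw [h5, one_mul, eq_neg_iff_add_eq_zero, ← two_mul] at h4
    exact hu ((mul_eq_zero.1 h4).resolve_left h2)

/-- Coprime normal subgroups of the group of a symmetric form in odd characteristic. -/
theorem eq_bot_of_odd_sym [Finite F] {G : Matrix (Fin n) (Fin n) F} (hG : Gᵀ = G) (hd : G.det ≠ 0)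
    (h2 : (2 : F) ≠ 0) (hn : 3 ≤ n) {X : Type*} [Group X] (ψ : formIso G →* X)
    (hker : ∀ h, ψ h = 1 → ∃ a : F, ((h.1 : GL (Fin n) F) : Mn) = a • 1) {M : Subgroup X}
    (hM : M ≤ ψ.range) (hnorm : ∀ s ∈ ψ.range, ∀ m ∈ M, s * m * s⁻¹ ∈ M) [Finite M]
    (hodd : Odd (Nat.card M)) : M = ⊥ := by
  have hρmem : ∀ g : H5.orth (quadOf G), ∃ h : formIso G,
      ∀ v, ((h.1 : GL (Fin n) F) : Mn) *ᵥ v = (g : Vn ≃ₗ[F] Vn) v := fun g => by
    obtain ⟨P, hP⟩ := H62.GraphPSL.exists_GL_of_congr (g : Vn ≃ₗ[F] Vn)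
    refine ⟨⟨P, H62.GraphPSL.ext_of_quad h2 (by simp [transpose_mul, hG, mul_assoc]) hG fun v => ?_⟩, hP⟩
    rw [← H62.GraphPSL.dot_mulVec_congr, hP, ← quadOf_apply, ← quadOf_apply, H5.orth_map]
  choose ρf hρf using hρmem
  let ρ : H5.orth (quadOf G) →* formIso G := MonoidHom.mk' ρf fun a b =>
    Subtype.ext (Units.ext (Matrix.ext_of_mulVec_single fun i => by
      rw [hρf, Subgroup.coe_mul, Subgroup.coe_mul, Units.val_mul, ← mulVec_mulVec, hρf, hρf]; rfl))
  have hρ : ∀ (g : H5.orth (quadOf G)) (v : Vn), (((ρ g).1 : GL (Fin n) F) : Mn) *ᵥ v = (g : Vn ≃ₗ[F] Vn) v :=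
    fun g v => hρf g v
  have hsurj : ∀ h : formIso G, ∃ g, ρ g = h := fun h => by
    let e : Vn ≃ₗ[F] Vn :=
      { Matrix.toLin' ((h.1 : GL (Fin n) F) : Mn) with
        invFun := fun v => ((h.1⁻¹ : GL (Fin n) F) : Mn) *ᵥ v
        left_inv := fun v => by
          show _ *ᵥ (Matrix.toLin' _ v) = v
          rw [Matrix.toLin'_apply, mulVec_mulVec, ← Units.val_mul, inv_mul_cancel, Units.val_one, one_mulVec]
        right_inv := fun v => by
          show Matrix.toLin' _ (_ *ᵥ v) = v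
          rw [Matrix.toLin'_apply, mulVec_mulVec, ← Units.val_mul, mul_inv_cancel, Units.val_one, one_mulVec] }
    refine ⟨⟨e, fun v => ?_⟩, Subtype.ext (Units.ext (Matrix.ext_of_mulVec_single fun i => ?_))⟩
    · show quadOf G (Matrix.toLin' _ v) = quadOf G v
      rw [quadOf_apply, quadOf_apply, Matrix.toLin'_apply, H62.GraphPSL.dot_mulVec_congr, h.2]
    · rw [hρ]; exact Matrix.toLin'_apply _ _
  set H := M.comap (ψ.comp ρ)
  haveI : H.Normal := ⟨fun a ha b => by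
    rw [Subgroup.mem_comap, map_mul, map_mul, map_inv]
    exact hnorm _ ⟨ρ b, rfl⟩ _ ha⟩
  have hscal : ∀ g : H5.orth (quadOf G), ψ (ρ g) = 1 → H5.IsScalar g := fun g hg => by
    obtain ⟨a, ha⟩ := hker _ hg
    exact ⟨a, fun v => by rw [← hρ, ha, smul_mulVec, one_mulVec]⟩
  refine (Subgroup.eq_bot_iff_forall _).2 fun m hm => ?_
  obtain ⟨h, rfl⟩ := hM hm
  obtain ⟨g, rfl⟩ := hsurj h
  have hsc := scalar_of_odd_normal n Vn h2 (quadOf G) (quadOf_nondeg hG hd h2) (Module.finrank_fin_fun F) hn H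
    (fun a ha => ⟨Nat.card M, hodd, hscal _ (by
      rw [map_pow, map_pow]
      exact congrArg Subtype.val (pow_card_eq_one' (x := (⟨_, ha⟩ : M))))⟩) g hm
  have hsq := LocalBalance.mul_self_eq_one_of_scalar (quadOf_nondeg hG hd h2) hsc
  refine eq_one_of_odd_pow (by rw [← map_mul, ← map_mul, hsq, map_one, map_one]) hodd ?_
  exact congrArg Subtype.val (pow_card_eq_one' (x := (⟨_, hm⟩ : M)))

/-- Transvections preserving an alternating form. -/
theorem transpose_altTransv {G : Matrix (Fin n) (Fin n) F} (hA : IsAltMat G) (hG : Gᵀ = -G)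
    (v : Fin n → F) : (1 + vecMulVec v (G *ᵥ v))ᵀ * G * (1 + vecMulVec v (G *ᵥ v)) = G := by
  have hl : v ᵥ* G = -(G *ᵥ v) := by rw [← mulVec_transpose, hG, neg_mulVec]
  simp only [transpose_add, transpose_one, transpose_vecMulVec, add_mul, mul_add, one_mul, mul_one,
    vecMulVec_mul, hl, mul_vecMulVec, vecMulVec_neg, neg_mul, vecMulVec_mul_vecMulVec,
    dotProduct_comm (G *ᵥ v) v, hA v, zero_smul, vecMulVec_zero, neg_mulVec, vecMulVec_mulVec,
    op_smul_eq_smul, zero_mulVec, zero_vecMulVec]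
  simp

theorem det_altTransv {G : Matrix (Fin n) (Fin n) F} (hA : IsAltMat G) (v : Fin n → F) :
    (1 + vecMulVec v (G *ᵥ v) : Mn).det = 1 := by
  rw [det_one_add_vecMulVec, dotProduct_comm, hA v, add_zero]

/-- The symplectic group as the group of an alternating form. -/
theorem exists_sympEquiv [Finite F] {m : ℕ} (hnm : n = 2 * m) {G : GL (Fin n) F} (hA : IsAltMat (G : Mn)) :
    ∃ φ : Matrix.symplecticGroup (Fin m) F →* formIso (G : Mn), Function.Surjective φ ∧
      Function.Injective φ ∧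
      (∀ s, ((φ s).1 : Mn).det = 1) ∧
      ∀ s : Matrix.symplecticGroup (Fin m) F,
        (∃ a : F, (s : Matrix (Fin m ⊕ Fin m) (Fin m ⊕ Fin m) F) = a • 1) →
        ∃ a : F, ((φ s).1 : Mn) = a • 1 := by
  obtain ⟨L, hL⟩ := H62.GraphPSL.exists_equiv_symp' hnm hA
  have hmem := glConj_mem_formIso (K := Matrix.J (Fin m) F) (G := (G : Mn)) L hL
  have h1 : ∀ s : Matrix.symplecticGroup (Fin m) F,
      (glConj L).symm (H2.AutPSp.spUnit s) ∈ formIso (G : Mn) := fun s => by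
    rw [← hmem, MulEquiv.apply_symm_apply]
    exact SymplecticGroup.mem_iff'.1 s.2
  let φ : Matrix.symplecticGroup (Fin m) F →* formIso (G : Mn) :=
    MonoidHom.mk' (fun s => ⟨(glConj L).symm (H2.AutPSp.spUnit s), h1 s⟩) fun a b => Subtype.ext (by
      show (glConj L).symm (H2.AutPSp.spUnit (a * b)) = _
      rw [show H2.AutPSp.spUnit (a * b) = H2.AutPSp.spUnit a * H2.AutPSp.spUnit b from Units.ext rfl, map_mul]
      rfl)
  have hφ : ∀ s v, ((φ s).1 : Mn) *ᵥ v = L.symm ((s : Matrix (Fin m ⊕ Fin m) (Fin m ⊕ Fin m) F) *ᵥ L v) :=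
    fun s v => by
      have := glConj_mulVec L (φ s).1 v
      rw [show glConj L (φ s).1 = H2.AutPSp.spUnit s from MulEquiv.apply_symm_apply _ _] at this
      exact L.injective (by rw [L.apply_symm_apply]; exact this.symm)
  refine ⟨φ, fun h => ?_, fun x y hxy => Subtype.ext (congrArg Units.val
      ((glConj L).symm.injective (congrArg Subtype.val hxy))), fun s => ?_, ?_⟩
  · have h2 := (hmem h.1).2 h.2
    refine ⟨⟨_, SymplecticGroup.mem_iff'.2 h2⟩, Subtype.ext ?_⟩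
    show (glConj L).symm (H2.AutPSp.spUnit _) = h.1
    rw [show H2.AutPSp.spUnit ⟨_, SymplecticGroup.mem_iff'.2 h2⟩ = glConj L h.1 from Units.ext rfl,
      MulEquiv.symm_apply_apply]
  · have e : ((φ s).1 : Mn) = LinearMap.toMatrix' (L.symm.toLinearMap ∘ₗ
        Matrix.toLin' (s : Matrix (Fin m ⊕ Fin m) (Fin m ⊕ Fin m) F) ∘ₗ L.toLinearMap) := rfl
    rw [e, LinearMap.det_toMatrix', show L.symm.toLinearMap ∘ₗ
        Matrix.toLin' (s : Matrix (Fin m ⊕ Fin m) (Fin m ⊕ Fin m) F) ∘ₗ L.toLinearMap =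
        (L.symm : (Fin m ⊕ Fin m → F) →ₗ[F] Vn) ∘ₗ Matrix.toLin' (s : Matrix (Fin m ⊕ Fin m) (Fin m ⊕ Fin m) F) ∘ₗ
          (L.symm.symm : Vn →ₗ[F] (Fin m ⊕ Fin m → F)) from rfl,
      LinearMap.det_conj, LinearMap.det_toLin', SymplecticGroup.det_eq_one s.2]
  · rintro s ⟨a, ha⟩
    exact ⟨a, Matrix.ext_of_mulVec_single fun i => by
      rw [hφ, ha, smul_mulVec, one_mulVec, map_smul, L.symm_apply_apply, smul_mulVec, one_mulVec]⟩

/-- Coprime normal subgroups of the group of an alternating form in odd characteristic. -/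
theorem eq_bot_of_odd_alt [Fintype F] {G : GL (Fin n) F} (hA : IsAltMat (G : Mn)) (h2 : (2 : F) ≠ 0)
    (hn : 3 ≤ n) {X : Type*} [Group X] (ψ : formIso (G : Mn) →* X)
    (hker : ∀ h, ψ h = 1 ↔ ∃ a : F, ((h.1 : GL (Fin n) F) : Mn) = a • 1) :
    (∃ y, orderOf (ψ y) = 2) ∧ (∀ h : formIso (G : Mn), ((h.1 : GL (Fin n) F) : Mn).det = 1) ∧
    ∀ M : Subgroup X, M ≤ ψ.range → (∀ s ∈ ψ.range, ∀ m ∈ M, s * m * s⁻¹ ∈ M) →
      (Nat.card M).Coprime 2 → M = ⊥ := by
  obtain ⟨m, L, hm, hL⟩ := H62.GraphPSL.exists_equiv_symp hA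
  obtain ⟨φ, hφ, hinj, hdet, hscal⟩ := exists_sympEquiv hm hA
  have h3 : 3 ≤ Fintype.card F := by
    by_contra hlt
    have := Fintype.one_lt_card (α := F)
    have h4 := Nat.cast_card_eq_zero F
    rw [show Fintype.card F = 2 by omega] at h4
    exact h2 (by simpa using h4)
  haveI := Cfsg.Agent.S0270.result (F := F) m (by omega) (fun _ => h3)
  haveI : Fact (Nat.Prime 2) := ⟨Nat.prime_two⟩
  have hZ : Subgroup.center (Matrix.symplecticGroup (Fin m) F) ≤ (ψ.comp φ).ker := by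
    intro z hz
    rw [MonoidHom.mem_ker, MonoidHom.comp_apply, hker]
    refine hscal z ?_
    rcases (H2.mem_center_iff_eq (by omega) z).1 hz with h | h
    · exact ⟨1, by rw [h]; simp⟩
    · exact ⟨-1, by rw [h]; simp⟩
  have hy : orderOf ((ψ.comp φ) (SymplecticGroup.symJ (Fin m) F)) = 2 := by
    refine orderOf_eq_prime ?_ ?_
    · rw [← map_pow, MonoidHom.comp_apply, hker]
      refine hscal _ ⟨-1, ?_⟩
      rw [pow_two, Submonoid.coe_mul, SymplecticGroup.coe_J, Matrix.J_squared, neg_one_smul]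
    · intro h
      obtain ⟨a, ha⟩ := (hker _).1 h
      obtain ⟨L', hL'⟩ : ∃ g : Matrix.symplecticGroup (Fin m) F, g = SymplecticGroup.symJ (Fin m) F := ⟨_, rfl⟩
      have hz : SymplecticGroup.symJ (Fin m) F ∈ Subgroup.center _ := by
        rw [Subgroup.mem_center_iff]
        intro g
        by_contra hne
        exact hne (by
          have hc : φ (g * SymplecticGroup.symJ (Fin m) F) = φ (SymplecticGroup.symJ (Fin m) F * g) := by
            rw [map_mul, map_mul]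
            refine Subtype.ext (Units.ext ?_)
            rw [Subgroup.coe_mul, Subgroup.coe_mul, Units.val_mul, Units.val_mul, ha]
            simp
          exact hinj hc)
      rcases (H2.mem_center_iff_eq (by omega) _).1 hz with e | e <;>
      · have e' := congrArg (fun A : Matrix (Fin m ⊕ Fin m) (Fin m ⊕ Fin m) F =>
          A (Sum.inr ⟨0, by omega⟩) (Sum.inl ⟨0, by omega⟩)) e
        simp [SymplecticGroup.coe_J, Matrix.J] at e'
  refine ⟨⟨_, hy⟩, fun h => ?_, fun M hM hnorm hcop => ?_⟩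
  · obtain ⟨s, rfl⟩ := hφ h
    exact hdet s
  · have hr : (ψ.comp φ).range = ψ.range := by
      rw [MonoidHom.range_comp, MonoidHom.range_eq_top.2 hφ, ← MonoidHom.range_eq_map]
    exact eq_bot_of_simple_quotient (ψ.comp φ) _ hZ (hr ▸ hM) (hr ▸ hnorm) hy hcop

end Cfsg.Agent.H4.LinearBalance
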