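import Cfsg.Agent.H4.LinearBalance.Common
import Cfsg.Agent.H4.LinearBalance.Forms
import Cfsg.Agent.S0283

/-!
Graph and graph-field involutions of `PSL_n` in odd characteristic: the core of the centraliser is trivial.
-/

set_option autoImplicit false

namespace Cfsg.Agent.H4.LinearBalance

open Matrix Cfsg.Agent.H70.AutPSL
open Cfsg.Agent.H62.GraphPSL (formIso mem_formIso formSim ofForm IsAltMat)

variable {n : ℕ} {F : Type*} [Field F] [Fintype F]

local notation "PSLn" => Matrix.ProjectiveSpecialLinearGroup (Fin n) F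
local notation "Mn" => Matrix (Fin n) (Fin n) F

/-- Isometries commuted with by a semilinear automorphism, over the field itself. -/
theorem eq_one_of_scalar (h : GL (Fin n) F) (τ : F ≃+* F) {a : Fˣ} (ha : (h : Mn) = (a : F) • 1)
    (hτ : ∀ t, τ t = t) : semiAut h τ = 1 := by
  have hh : h = scal n a * 1 := by rw [mul_one]; exact Units.ext (ha.trans (scal_coe a).symm)
  have ht : τ = RingEquiv.refl F := RingEquiv.ext hτ
  rw [hh, ht, semiAut_scal_mul, semiAut_one_refl]

theorem twisted_id (τ : F ≃+* F) : twisted (RingHom.id F) τ = (τ : F →+* F) := RingHom.ext fun _ => rfl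

set_option maxHeartbeats 1600000 in
/-- The core of the centraliser of a standard graph-field involution is trivial. -/
theorem graphField_core (hn : 3 ≤ n) (h2 : (2 : F) ≠ 0)
    {A : Subgroup (MulAut PSLn)} (hinn : ∀ k : PSLn, MulAut.conj k ∈ A) (σ : F ≃+* F)
    (hσ : orderOf σ = 2) :
    Cfsg.pPrimeCore 2 ↥(A ⊓ Subgroup.centralizer {graphField n σ}) = ⊥ := by
  classical
  have hn2 : 2 ≤ n := by omega
  haveI : Fact (Nat.Prime 2) := ⟨Nat.prime_two⟩
  obtain ⟨p, hchar⟩ := CharP.exists F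
  haveI : Fact p.Prime := ⟨CharP.char_is_prime F p⟩
  obtain ⟨f, -, hf⟩ := FiniteField.card F p
  obtain ⟨-, hq⟩ := exists_pow_of_orderOf (r := 2) hf (by norm_num) hσ
  set q₀ := p ^ ((f : ℕ) / 2) with hq₀
  have hpow := exists_pow_q hq σ hσ
  have hq2 : q₀ ≠ 2 := fun h => by
    have h4 := Nat.cast_card_eq_zero F
    rw [hq, h] at h4
    exact h2 (pow_eq_zero_iff two_ne_zero |>.1 (by exact_mod_cast h4))
  set x := graphField n σ with hxdef
  have hord : orderOf x = 2 := by
    refine orderOf_eq_prime ?_ ?_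
    · rw [hxdef, graphField, graphField_sq, map_one, mul_one, ← semiAut_one_refl]
      congr 1
      exact RingEquiv.ext fun y => sigma_sigma σ hσ y
    · intro h
      rw [← semiAut_one_refl] at h
      exact semiAut_ne_mul_itAut hn _ _ _ _ h.symm
  set ι₀ : Cfsg.SU n F q₀ →* GL (Fin n) F :=
    Matrix.SpecialLinearGroup.toGL.comp (Cfsg.SU n F q₀).subtype with hι₀
  set ψ : Cfsg.SU n F q₀ →* MulAut PSLn := (innDiag n F).comp ι₀ with hψ
  have hGU : ∀ s, ι₀ s ∈ Cfsg.GU n F q₀ := fun s => H3.mem_GU_iff.2 (H3.mem_SU_iff.1 s.2)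
  have hψI : ∀ s, ψ s ∈ Cfsg.Inn PSLn ⊓ Subgroup.centralizer {x} := fun s =>
    ⟨innDiag_mem_inn s.1.2, (centralizer_graphField_iff hn2 σ (ι₀ s)).mpr
      ⟨1, by rw [(mem_GU_iff_twist σ hpow _).mp (hGU s), scal, map_one, one_mul]⟩⟩
  have hψker : Subgroup.center (Cfsg.SU n F q₀) ≤ ψ.ker := fun z hz => by
    obtain ⟨l, hl⟩ := (H3.mem_center_SU_iff hq hn2 z).1 hz
    exact (innDiag_eq_one_iff_smul hn2 _).2 ⟨l, Matrix.ext_of_mulVec_single fun i => by
      rw [smul_mulVec, one_mulVec]; exact hl _⟩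
  have hinv : ∃ y, orderOf (ψ y) = 2 := by
    set o : Fin n := ⟨0, by omega⟩
    set o' : Fin n := ⟨1, by omega⟩
    have hoo : o ≠ o' := by simp [o, o', Fin.ext_iff]
    set d : Fin n → F := fun i => if i = o ∨ i = o' then -1 else 1 with hd
    have hdet : (diagonal d).det = 1 := by
      rw [det_diagonal, Finset.prod_eq_mul o o' hoo (fun c _ hc => by simp [hd, hc.1, hc.2])
        (fun h => absurd (Finset.mem_univ o) h) (fun h => absurd (Finset.mem_univ o') h)]
      simp [hd]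
    have hdq : ∀ i, d i * d i ^ q₀ = 1 := fun i => by
      rw [← hpow]
      by_cases hi : i = o ∨ i = o' <;> simp [hd, hi]
    refine ⟨⟨⟨diagonal d, hdet⟩, H3.mem_SU_iff.2 fun u v => ?_⟩, orderOf_eq_prime ?_ ?_⟩
    · show Cfsg.hermForm n F q₀ (diagonal d *ᵥ u) (diagonal d *ᵥ v) = _
      simp only [Cfsg.hermForm, mulVec_diagonal]
      refine Finset.sum_congr rfl fun i _ => ?_
      rw [mul_pow, mul_mul_mul_comm, hdq, one_mul]
    · rw [← map_pow]
      convert map_one ψ
      refine Subtype.ext (Subtype.ext ?_)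
      rw [pow_two]
      show diagonal d * diagonal d = 1
      rw [diagonal_mul_diagonal, ← diagonal_one]
      congr 1
      funext i
      by_cases hi : i = o ∨ i = o' <;> simp [hd, hi]
    · intro h
      obtain ⟨a, ha⟩ := (innDiag_eq_one_iff_smul hn2 _).1 h
      change diagonal d = _ at ha
      have e1 := congrFun (congrFun ha o) o
      have e2 := congrFun (congrFun ha ⟨2, by omega⟩) ⟨2, by omega⟩
      simp [hd, o, o', Fin.ext_iff] at e1 e2
      rw [← e2, eq_comm, eq_neg_iff_add_eq_zero, one_add_one_eq_two] at e1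
      exact h2 e1
  refine core_eq_bot hinn ψ.range (Cfsg.inndiagPSL n F ⊓ Subgroup.centralizer {x}) ?_
    (inf_le_inf_right _ inn_le_inndiag) inf_le_right ?_ ?_ ?_
  · rintro _ ⟨s, rfl⟩
    exact hψI s
  · rintro e ⟨he, hec⟩ _ ⟨s, rfl⟩
    rw [inndiagPSL_eq_range] at he
    obtain ⟨g, rfl⟩ := he
    obtain ⟨a, ha⟩ := (centralizer_graphField_iff hn2 σ g).mp hec
    obtain ⟨b, hb⟩ := exists_twist_fixed_multiple hn2 hσ ha
    set k := scal n b * g with hk
    rw [(innDiag_eq_iff hn2 g k).2 ⟨b, hk⟩]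
    have hkG := (mem_GU_iff_twist σ hpow k).2 hb
    have hdet : ((k * ι₀ s * k⁻¹ : GL (Fin n) F) : Mn).det = 1 := by
      rw [← Matrix.GeneralLinearGroup.val_det_apply, map_mul, map_mul, map_inv, mul_inv_cancel_comm,
        Matrix.GeneralLinearGroup.val_det_apply]
      exact s.1.2
    refine ⟨⟨⟨_, hdet⟩, H3.mem_SU_iff.2
      (H3.mem_GU_iff.1 (mul_mem (mul_mem hkG (hGU s)) (inv_mem hkG)))⟩, ?_⟩
    refine Eq.trans (congrArg (innDiag n F) (a₂ := k * ι₀ s * k⁻¹) ?_) ?_
    · exact Units.ext rfl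
    · rw [map_mul, map_mul, map_inv]
      rfl
  · intro M hM hcop hnorm
    obtain ⟨y, hy⟩ := hinv
    haveI := Cfsg.Agent.S0283.result hq n hn fun h => hq2 h.2
    exact eq_bot_of_simple_quotient ψ (Subgroup.center _) hψker hM (fun e he => hnorm e (by
      obtain ⟨s, rfl⟩ := he
      exact ⟨inn_le_inndiag (hψI s).1, (hψI s).2⟩)) hy hcop
  · refine cent_of_semi hn2 1 σ rfl hord (fun s hs => by
      obtain ⟨y, rfl⟩ := hs
      exact (hψI y).2) fun h τ hcomm => ?_
    obtain ⟨c, hc0, hc⟩ := H3.exists_trace_zero_ne_zero hq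
    obtain ⟨a, ha, hτ⟩ := scalar_of_herm (RingHom.id F) τ hq hn h fun v hv hvv => by
      refine ⟨c • fun j => v j ^ q₀, fun h0 => hv (funext fun j => ?_), ?_⟩
      · have := congrFun h0 j
        simp [hc0] at this
        exact this.1
      · set s := H3.suTrans hq v c hvv hc
        have hs : ((ι₀ s : GL (Fin n) F) : Mn) = 1 + vecMulVec v (c • fun j => v j ^ q₀) := by
          show Cfsg.unitaryTransvection n q₀ v c = _
          rw [Cfsg.unitaryTransvection, vecMulVec_smul]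
        have hnil : IsNilpotent ((ι₀ s : Mn) - 1) := by
          rw [hs, add_sub_cancel_left]
          refine isNilpotent_vecMulVec ?_
          rw [smul_dotProduct, show (fun j => v j ^ q₀) ⬝ᵥ v = Cfsg.hermForm n F q₀ v v by
            rw [dotProduct_comm]; rfl, hvv, smul_zero]
        have e := matrix_eq_of_commute hn2 h τ hnil hnil (hcomm _ ⟨s, rfl⟩)
        rw [hs, Matrix.map_add _ (map_add τ), Matrix.map_one _ (map_zero τ) (map_one τ), mul_add, add_mul,
          mul_one, one_mul] at e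
        rw [twisted_id]
        simpa using add_left_cancel e
    exact eq_one_of_scalar h τ ha hτ

set_option maxHeartbeats 1600000 in
/-- The core of the centraliser of a graph involution is trivial. -/
theorem ofForm_core (hn : 3 ≤ n) (h2 : (2 : F) ≠ 0)
    {A : Subgroup (MulAut PSLn)} (hinn : ∀ k : PSLn, MulAut.conj k ∈ A) (G : GL (Fin n) F)
    (hG : (G : Mn)ᵀ = G ∨ (G : Mn)ᵀ = -(G : Mn)) :
    Cfsg.pPrimeCore 2 ↥(A ⊓ Subgroup.centralizer {ofForm G}) = ⊥ := by
  classical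
  have hn2 : 2 ≤ n := by omega
  have hd := Matrix.GeneralLinearGroup.det_ne_zero G
  set x := ofForm G with hxdef
  have hord : orderOf x = 2 := (H62.GraphPSL.orderOf_ofForm_eq_two_iff hn G).2 hG
  set ψ : formIso (G : Mn) →* MulAut PSLn := (innDiag n F).comp (formIso (G : Mn)).subtype with hψ
  set D : Subgroup (GL (Fin n) F) := formIso (G : Mn) ⊓ Matrix.GeneralLinearGroup.det.ker with hD
  have hψc : ∀ h ∈ formIso (G : Mn), innDiag n F h ∈ Subgroup.centralizer {x} := fun h hh =>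
    (H62.GraphPSL.centralizer_ofForm_iff hn2 G h).2 (H62.GraphPSL.formIso_le_formSim _ hh)
  have hker : ∀ h, ψ h = 1 ↔ ∃ a : F, ((h.1 : GL (Fin n) F) : Mn) = a • 1 := fun h =>
    innDiag_eq_one_iff_smul hn2 _
  have hSψ : D.map (innDiag n F) ≤ ψ.range := by
    rintro _ ⟨h, hh, rfl⟩
    exact ⟨⟨h, hh.1⟩, rfl⟩
  have hψE : ψ.range ≤ Cfsg.inndiagPSL n F ⊓ Subgroup.centralizer {x} := by
    rintro _ ⟨h, rfl⟩
    exact ⟨inndiagPSL_eq_range (n := n) (F := F) ▸ ⟨_, rfl⟩, hψc _ h.2⟩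
  have hDmem : ∀ {h : GL (Fin n) F}, h ∈ formIso (G : Mn) → (h : Mn).det = 1 → h ∈ D := fun hh hdet =>
    ⟨hh, Units.ext (by simpa using hdet)⟩
  have hsub : D.map (innDiag n F) ≤ Cfsg.Inn PSLn ⊓ Subgroup.centralizer {x} := by
    rintro _ ⟨h, hh, rfl⟩
    exact ⟨innDiag_mem_inn (by
      have := congrArg Units.val (show Matrix.GeneralLinearGroup.det h = 1 from hh.2)
      simpa using this), hψc h hh.1⟩
  refine core_eq_bot hinn (D.map (innDiag n F)) (Cfsg.inndiagPSL n F ⊓ Subgroup.centralizer {x}) hsub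
    (inf_le_inf_right _ inn_le_inndiag) inf_le_right ?_ ?_ ?_
  · rintro e ⟨he, hec⟩ _ ⟨s, hs, rfl⟩
    rw [inndiagPSL_eq_range] at he
    obtain ⟨g, rfl⟩ := he
    refine ⟨g * s * g⁻¹, ⟨?_, ?_⟩, by rw [map_mul, map_mul, map_inv]⟩
    · obtain ⟨c, hc⟩ := H62.GraphPSL.mem_formSim.1 ((H62.GraphPSL.centralizer_ofForm_iff hn2 G g).1 hec)
      refine mem_formIso.2 ?_
      have hgi : ((g⁻¹ : GL (Fin n) F) : Mn)ᵀ * ((c : F) • (G : Mn)) * ((g⁻¹ : GL (Fin n) F) : Mn) = G := by
        rw [← hc, show ((g⁻¹ : GL (Fin n) F) : Mn)ᵀ * ((g : Mn)ᵀ * G * g) * ((g⁻¹ : GL (Fin n) F) : Mn) =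
          ((g : Mn) * ((g⁻¹ : GL (Fin n) F) : Mn))ᵀ * G * ((g : Mn) * ((g⁻¹ : GL (Fin n) F) : Mn)) by
            simp only [transpose_mul, mul_assoc], ← Units.val_mul, mul_inv_cancel, Units.val_one,
          transpose_one, one_mul, mul_one]
      rw [Units.val_mul, Units.val_mul, transpose_mul, transpose_mul,
        show ((g⁻¹ : GL (Fin n) F) : Mn)ᵀ * ((s : Mn)ᵀ * (g : Mn)ᵀ) * G *
          ((g : Mn) * s * ((g⁻¹ : GL (Fin n) F) : Mn)) =
          ((g⁻¹ : GL (Fin n) F) : Mn)ᵀ * ((s : Mn)ᵀ * ((g : Mn)ᵀ * G * g) * s) * ((g⁻¹ : GL (Fin n) F) : Mn) by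
          simp only [mul_assoc], hc, mul_smul_comm, smul_mul_assoc, mem_formIso.1 hs.1]
      exact hgi
    · refine MonoidHom.mem_ker.2 ?_
      rw [map_mul, map_mul, map_inv,
        show Matrix.GeneralLinearGroup.det s = 1 from hs.2, mul_one, mul_inv_cancel]
  · intro M hM hcop hnorm
    have hM' := hM.trans hSψ
    have hnorm' : ∀ e ∈ ψ.range, ∀ m ∈ M, e * m * e⁻¹ ∈ M := fun e he => hnorm e (hψE he)
    rcases hG with hG | hG
    · exact eq_bot_of_odd_sym hG hd h2 hn ψ (fun h hh => (hker h).1 hh) hM' hnorm' (Nat.coprime_two_right.1 hcop)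
    · obtain ⟨-, -, h3⟩ := eq_bot_of_odd_alt (G := G) (H62.GraphPSL.isAltMat_of_skew h2 hG) h2 hn ψ hker
      exact h3 M hM' hnorm' hcop
  · have hGi : x = semiAut G⁻¹ (RingEquiv.refl F) * itAut n F := rfl
    refine cent_of_semi hn2 _ _ hGi hord (hsub.trans inf_le_right) fun h τ hcomm => ?_
    have key : ∀ N : Mn, IsNilpotent N → ((1 + N : Mn))ᵀ * G * (1 + N) = G → (1 + N).det = 1 →
        (h : Mn) * N.map τ = N * h := fun N hN hiso hdet => by
      set s := Matrix.GeneralLinearGroup.mkOfDetNeZero (1 + N) (by rw [hdet]; exact one_ne_zero)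
      have hsv : (s : Mn) = 1 + N := rfl
      have hnil : IsNilpotent ((s : Mn) - 1) := by rwa [hsv, add_sub_cancel_left]
      have e := matrix_eq_of_commute hn2 h τ hnil hnil
        (hcomm _ ⟨s, hDmem (mem_formIso.2 hiso) hdet, rfl⟩)
      rw [hsv, Matrix.map_add _ (map_add τ), Matrix.map_one _ (map_zero τ) (map_one τ), mul_add, add_mul,
        mul_one, one_mul] at e
      exact add_left_cancel e
    rcases hG with hG | hG
    · obtain ⟨z, hz0, hz⟩ := exists_isotropic_sym hG hd h2 hn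
      obtain ⟨f, u, hf, hzf, hzu, hfu, hu⟩ := exists_frame hG hd h2 hn hz0 hz
      obtain ⟨a, ha, hτ⟩ := scalar_of_eichN (RingHom.id F) τ hG hd h2 h hz hf hzf hzu hfu hu
        (fun z hz0 hz => by
          obtain ⟨f, u, -, -, hzu, -, hu⟩ := exists_frame hG hd h2 hn hz0 hz
          exact ⟨u, hzu, hu⟩)
        fun z a hz ha => by
          rw [twisted_id]
          simpa using key _ (isNilpotent_eichN hG hz ha) (transpose_eichN_mul hG h2 hz ha)
            (det_eichN hG hd h2 hz ha)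
      exact eq_one_of_scalar h τ ha hτ
    · have hA := H62.GraphPSL.isAltMat_of_skew h2 hG
      obtain ⟨a, ha, hτ⟩ := scalar_of_transvections (RingHom.id F) τ hn2 h fun v hv => by
        refine ⟨(G : Mn) *ᵥ v, fun h0 => hv (eq_zero_of_mulVec_eq_zero hd h0), ?_⟩
        rw [twisted_id]
        simpa using key _ (isNilpotent_vecMulVec (by rw [dotProduct_comm]; exact hA v))
          (transpose_altTransv hA hG v) (det_altTransv hA v)
      exact eq_one_of_scalar h τ ha hτ

end Cfsg.Agent.H4.LinearBalance
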