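import Cfsg.Agent.H4.LinearBalance.Field
import Cfsg.Agent.H4.LinearBalance.Graph
import Cfsg.Agent.H4.LocalBalance.Transfer

/-!
Local balance in almost simple groups with socle `PSL_n(q)`.
-/

set_option autoImplicit false

namespace Cfsg.Agent.H4.LinearBalance

open Matrix Cfsg.Agent.H70.AutPSL
open Cfsg.Agent.H62.GraphPSL (ofForm)

variable {n : ℕ}

theorem isFieldAut_semiAut_one {F : Type*} [Field F] [Finite F] (σ : F ≃+* F) :
    Cfsg.IsFieldAutPSL (semiAut (1 : GL (Fin n) F) σ) :=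
  ⟨σ, fun s s' h => semiAut_one_stdField σ s s' h⟩

theorem eq_semiAut_of_fieldType {F : Type*} [Field F] [Finite F]
    {γ φ : MulAut (Matrix.ProjectiveSpecialLinearGroup (Fin n) F)}
    (hγ : Cfsg.IsInnerDiagonalAutPSL γ) (hφ : Cfsg.IsFieldAutPSL φ) :
    ∃ g σ, γ * φ = semiAut g σ := by
  obtain ⟨σ, hσ⟩ := hφ
  obtain ⟨g, rfl⟩ := eq_of_inndiag hγ
  rw [eq_of_stdField (σ := σ) hσ]
  exact ⟨g, σ, (semiAut_eq_innDiag_mul g σ).symm⟩

/-- The criterion for local balance in almost simple groups with linear socle. -/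
theorem psl_local_balance (F : Type*) [Field F] [Fintype F] (r : ℕ) [Fact r.Prime] [CharP F r] (n : ℕ) (hn : 2 ≤ n)
    (hK : IsSimpleGroup (Matrix.ProjectiveSpecialLinearGroup (Fin n) F))
    (A : Subgroup (MulAut (Matrix.ProjectiveSpecialLinearGroup (Fin n) F)))
    (hinn : ∀ k : Matrix.ProjectiveSpecialLinearGroup (Fin n) F, MulAut.conj k ∈ A)
    (p : ℕ) [Fact p.Prime] (hpr : p ≠ r) (β : MulAut (Matrix.ProjectiveSpecialLinearGroup (Fin n) F))
    (hβ : β ∈ A) (hord : orderOf β = p) (hnot : ¬ Cfsg.IsInnerDiagonalAutPSL β) :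
    Cfsg.pPrimeCore p ↥(A ⊓ Subgroup.centralizer {β}) ≠ ⊥ ↔
      ((∃ γ φ : MulAut (Matrix.ProjectiveSpecialLinearGroup (Fin n) F), Cfsg.IsInnerDiagonalAutPSL γ ∧
          Cfsg.IsFieldAutPSL φ ∧ β = φ.trans γ) ∧
        Nat.Coprime p (Nat.card ↥(MonoidHom.eqLocus β.toMonoidHom
          (MonoidHom.id (Matrix.ProjectiveSpecialLinearGroup (Fin n) F))))) := by
  have hp : p.Prime := Fact.out
  have hpow : β ^ p = 1 := hord ▸ pow_orderOf_eq_one β
  obtain ⟨g, σ, rfl | ⟨hn3, rfl⟩⟩ := exists_semiAut hn β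
  · -- field type
    rw [and_iff_right ⟨_, _, semiAut_refl_inndiag g, isFieldAut_semiAut_one σ, semiAut_eq_mul g σ⟩]
    have hσ1 : σ ≠ 1 := fun h => hnot (by subst h; exact semiAut_refl_inndiag g)
    have hσ : orderOf σ = p := by
      obtain ⟨G, hG, -⟩ := exists_semiAut_pow g σ p
      rw [hpow, ← semiAut_one_refl] at hG
      exact orderOf_eq_prime (semiAut_inj hn hG).1.symm hσ1
    obtain ⟨h, a, e⟩ := exists_lang hn σ hp.pos hσ g hpow
    have hconj : semiAut g σ = innDiag n F h * semiAut 1 σ * (innDiag n F h)⁻¹ := by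
      rw [e, semiAut_scal_mul, ← innDiag_conj_semiAut_one]
    obtain ⟨h1, -, h3, h4⟩ := LocalBalance.criterion_conj hinn hβ (innDiag n F h)⁻¹ p
    rw [show (innDiag n F h)⁻¹ * semiAut g σ * (innDiag n F h)⁻¹⁻¹ = semiAut 1 σ by
      rw [hconj]; group] at h3 h4
    rw [h3, h4]
    exact field_core hn h1 hpr σ hσ
  · -- graph or graph-field type
    refine iff_of_false ?_ ?_
    swap
    · rintro ⟨⟨γ, φ, hγ, hφ, e⟩, -⟩
      obtain ⟨g', σ', e'⟩ := eq_semiAut_of_fieldType hγ hφ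
      exact semiAut_ne_mul_itAut hn3 g' g σ' σ (by rw [← e', e]; rfl)
    rw [not_not]
    have hp2 : p = 2 := by
      rcases hp.eq_two_or_odd' with e | ⟨k, hk⟩
      · exact e
      · exfalso
        obtain ⟨G, hG, -⟩ := exists_semiAut_pow (g * twist n σ g) (σ.trans σ) k
        rw [hk, pow_succ, pow_mul, graphField_sq, hG, ← mul_assoc, semiAut_mul', ← semiAut_one_refl] at hpow
        exact semiAut_ne_mul_itAut hn3 _ _ _ _ hpow.symm
    subst hp2
    have h2F : (2 : F) ≠ 0 := fun h0 => hpr (((Nat.prime_dvd_prime_iff_eq (Fact.out : r.Prime) Nat.prime_two).1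
      ((CharP.cast_eq_zero_iff F r 2).1 (by exact_mod_cast h0))).symm)
    have hsq := hpow
    rw [graphField_sq, ← semiAut_one_refl] at hsq
    by_cases hσ1 : σ = 1
    · subst hσ1
      have hx : semiAut g (1 : F ≃+* F) * itAut n F = ofForm g⁻¹ := by
        rw [ofForm, inv_inv]; rfl
      rw [hx] at hord ⊢
      exact ofForm_core hn3 h2F hinn _ ((H62.GraphPSL.orderOf_ofForm_eq_two_iff hn3 _).1 hord)
    · have hσ : orderOf σ = 2 :=
        orderOf_eq_prime (by rw [pow_two]; exact (semiAut_inj hn hsq).1) hσ1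
      obtain ⟨q, hq⟩ : ∃ q, Fintype.card F = q ^ 2 := by
        obtain ⟨f, -, hf⟩ := FiniteField.card F r
        exact ⟨_, (exists_pow_of_orderOf (r := 2) hf (by norm_num) hσ).2⟩
      obtain ⟨h, a, e⟩ := exists_lang_twist hn hq σ hσ g hpow
      have hconj : semiAut g σ * itAut n F = innDiag n F h * graphField n σ * (innDiag n F h)⁻¹ := by
        rw [e, semiAut_scal_mul, ← conj_graphField_eq]
      obtain ⟨h1, -, h3, -⟩ := LocalBalance.criterion_conj hinn hβ (innDiag n F h)⁻¹ 2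
      rw [show (innDiag n F h)⁻¹ * (semiAut g σ * itAut n F) * (innDiag n F h)⁻¹⁻¹ = graphField n σ by
        rw [hconj]; group] at h3
      by_contra hne
      exact h3.1 hne (graphField_core hn3 h2F h1 σ hσ)

end Cfsg.Agent.H4.LinearBalance
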