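import Cfsg.Agent.H4.LinearBalance.Core
import Cfsg.Agent.H4.LinearBalance.Cent
import Cfsg.Agent.H23.AutPSU.FieldAut

/-!
Semilinear automorphisms of `PSU_n` commuting with unipotent inner-diagonal automorphisms.
-/

set_option autoImplicit false

namespace Cfsg.Agent.H4.LinearBalance.Unitary

open Matrix Cfsg.Agent.H3 Cfsg.Agent.H23.Descent Cfsg.Agent.H23.AutPSU

variable {n q : ℕ} {F : Type*} [Field F] [Fintype F]

local notation "Mn" => Matrix (Fin n) (Fin n) F

/-- The automorphism of an element of `GU` is trivial exactly for scalars. -/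
theorem semiAut_one_iff_smul (hF : Fintype.card F = q ^ 2) (hn : 3 ≤ n) (a : Cfsg.GU n F q) :
    semiAut a 1 = 1 ↔ ∃ l : F, (a.1 : Mn) = l • 1 := by
  rw [semiAut_eq_one_iff hF hn, and_iff_right rfl, mem_center_GU_iff hF (by omega)]
  refine exists_congr fun l => ⟨fun h => ?_, fun h x => by rw [h, smul_mulVec, one_mulVec]⟩
  rw [eq_diagonal_of_scalar _ h, Matrix.smul_one_eq_diagonal]

/-- A semilinear automorphism with scalar matrix is standard. -/
theorem semiAut_of_smul (hF : Fintype.card F = q ^ 2) (hn : 3 ≤ n) (a : Cfsg.GU n F q) (τ : F ≃+* F)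
    {l : F} (h : (a.1 : Mn) = l • 1) : semiAut a τ = semiAut 1 τ := by
  rw [show semiAut a τ = semiAut a 1 * semiAut 1 τ by rw [semiAut_mul, guMap_one, mul_one, one_mul],
    (semiAut_one_iff_smul hF hn a).2 ⟨l, h⟩, one_mul]

/-- Commuting with a unipotent inner-diagonal automorphism is commuting of matrices. -/
theorem matrix_eq_of_commute (hF : Fintype.card F = q ^ 2) (hn : 3 ≤ n) (h : Cfsg.GU n F q) (τ : F ≃+* F)
    {a : Cfsg.GU n F q} (ha : IsNilpotent ((a.1 : Mn) - 1))
    (e : semiAut h τ * semiAut a 1 = semiAut a 1 * semiAut h τ) :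
    (h.1 : Mn) * (a.1 : Mn).map τ = (a.1 : Mn) * (h.1 : Mn) := by
  rw [semiAut_mul, semiAut_mul, guMap_one, one_mul, mul_one] at e
  have h1 : semiAut (h * guMap τ a * (a * h)⁻¹) 1 = (1 : MulAut (Cfsg.PSU n F q)) := by
    have e2 : semiAut (h * guMap τ a * (a * h)⁻¹) 1 * semiAut (a * h) τ = semiAut (h * guMap τ a) τ := by
      rw [semiAut_mul, guMap_one, one_mul, inv_mul_cancel_right]
    rw [← e] at e2
    exact mul_eq_right.1 e2
  obtain ⟨l, hl⟩ := (semiAut_one_iff_smul hF hn _).1 h1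
  have hm : (h.1 : Mn) * (a.1 : Mn).map τ = l • ((a.1 : Mn) * h.1) := by
    have e3 : (((h * guMap τ a * (a * h)⁻¹ * (a * h) : Cfsg.GU n F q)).1 : Mn) =
        l • ((a.1 : Mn) * h.1) := by
      rw [Subgroup.coe_mul, Units.val_mul, hl, Subgroup.coe_mul, Units.val_mul, smul_mul_assoc, one_mul]
    rw [inv_mul_cancel_right, Subgroup.coe_mul, Units.val_mul, coe_guMap, coe_glMap] at e3
    exact e3
  have hX : IsNilpotent ((a.1 : Mn).map τ - 1) := by
    have h1 := ha.map (τ : F →+* F).mapMatrix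
    rwa [map_sub, map_one, RingHom.mapMatrix_apply] at h1
  rw [hm, mult_eq_one_of_unipotent (by omega) h.1 hX ha hm, one_smul]

/-- The form of the previous lemma for `1 + N`. -/
theorem nil_eq_of_commute (hF : Fintype.card F = q ^ 2) (hn : 3 ≤ n) (h : Cfsg.GU n F q) (τ : F ≃+* F)
    {a : Cfsg.GU n F q} {N : Mn} (hN : IsNilpotent N) (ha : (a.1 : Mn) = 1 + N)
    (e : semiAut h τ * semiAut a 1 = semiAut a 1 * semiAut h τ) :
    (h.1 : Mn) * N.map τ = N * (h.1 : Mn) := by
  have h1 := matrix_eq_of_commute hF hn h τ (by rwa [ha, add_sub_cancel_left]) e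
  rw [ha, Matrix.map_add _ (map_add τ), Matrix.map_one _ (map_zero τ) (map_one τ), mul_add, add_mul,
    mul_one, one_mul] at h1
  exact add_left_cancel h1

/-- The field part of a power. -/
theorem orderOf_dvd_of_semiAut (hF : Fintype.card F = q ^ 2) (hn : 3 ≤ n) (g : Cfsg.GU n F q) (τ : F ≃+* F) :
    orderOf τ ∣ orderOf (semiAut g τ : MulAut (Cfsg.PSU n F q)) := by
  refine orderOf_dvd_of_pow_eq_one ?_
  obtain ⟨N, -, hpow⟩ := exists_pow_semiAut g τ (orderOf (semiAut g τ : MulAut (Cfsg.PSU n F q)))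
  rw [pow_orderOf_eq_one] at hpow
  exact ((semiAut_eq_one_iff hF hn).1 hpow.symm).1

/-- An element of order prime to `p` in the group generated by an element of order `p`. -/
theorem eq_one_of_mem_zpowers' {X : Type*} [Group X] {x g : X} {p : ℕ} (hx : orderOf x = p)
    (hg : g ∈ Subgroup.zpowers x) (hc : (orderOf g).Coprime p) : g = 1 :=
  orderOf_eq_one_iff.1 (Nat.eq_one_of_dvd_coprimes hc dvd_rfl (hx ▸ orderOf_dvd_of_mem_zpowers hg))

end Cfsg.Agent.H4.LinearBalance.Unitary
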