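import Cfsg.Agent.H4.LinearBalance.Core
import Cfsg.Agent.H3.PSUThreeTwo

/-!
`SU_3(2)`: subgroups of order prime to three normalised by the whole group.
-/

set_option autoImplicit false

namespace Cfsg.Agent.H4.LinearBalance.Unitary

open Matrix Cfsg.Agent.H3

variable {K : Type*} [Field K] [Fintype K]

/-- An image of `SU_3(2)` modulo scalars has no normal subgroup of order prime to three. -/
theorem eq_bot_of_three_two (hK : Fintype.card K = 2 ^ 2) {X : Type*} [Group X] (ψ : Cfsg.SU 3 K 2 →* X)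
    (hker : ∀ s, ψ s = 1 ↔ ∃ l : K, ((s.1 : Matrix.SpecialLinearGroup (Fin 3) K) : Matrix (Fin 3) (Fin 3) K) = l • 1)
    {M : Subgroup X} (hM : M ≤ ψ.range) (hnorm : ∀ s ∈ ψ.range, ∀ m ∈ M, s * m * s⁻¹ ∈ M)
    (hcop : (Nat.card M).Coprime 3) : M = ⊥ := by
  classical
  obtain ⟨E, hEn, -, hEcard, -, ⟨e⟩⟩ := su_three_two_structure hK
  obtain ⟨ω, htwo, hω2, hω3, hω0, hω1, -⟩ := exists_omega hK
  have hω12 : ω ≠ ω ^ 2 := fun h => hω1 (mul_left_cancel₀ hω0 (by rw [mul_one, ← pow_two, ← h]))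
  have hw2 : ω ^ 2 ≠ 1 := fun h => hω1 (by rwa [pow_succ, h, one_mul] at hω3)
  let D : Cfsg.SU 3 K 2 := ⟨⟨diagonal ![1, ω, ω ^ 2], by simp [Fin.prod_univ_three, ← pow_succ', hω3]⟩,
    mem_SU_iff.2 fun u v => (guDiag ![1, ω, ω ^ 2] fun i => by
      fin_cases i
      · simp
      · exact hω3
      · show (ω ^ 2) ^ (2 + 1) = 1
        rw [← pow_mul, show 2 * (2 + 1) = 3 * 2 from rfl, pow_mul, hω3, one_pow]).2 u v⟩
  let T : Cfsg.SU 3 K 2 := ⟨⟨!![0, 1, 0; 0, 0, 1; 1, 0, 0], by simp [det_fin_three]⟩,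
    mem_SU_iff.2 fun u v => by
      simp [Cfsg.hermForm, mulVec, dotProduct, Fin.sum_univ_three]
      ring⟩
  have hE3 : ∀ s : Cfsg.SU 3 K 2, s ^ 3 = 1 → s ∈ E := fun s hs => by
    rw [← QuotientGroup.eq_one_iff]
    refine orderOf_eq_one_iff.1 (Nat.eq_one_of_dvd_coprimes (show Nat.Coprime 3 8 by norm_num) ?_ ?_)
    · exact orderOf_dvd_of_pow_eq_one (by rw [← QuotientGroup.mk_pow, hs]; rfl)
    · refine (orderOf_dvd_natCard _).trans ?_
      rw [Nat.card_congr e.toEquiv, Nat.card_eq_fintype_card, QuaternionGroup.card]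
  have hD3 : D ^ 3 = 1 := Subtype.ext (Subtype.ext (by
    rw [SubmonoidClass.coe_pow, Matrix.SpecialLinearGroup.coe_pow]
    show diagonal ![1, ω, ω ^ 2] ^ 3 = 1
    rw [diagonal_pow, ← diagonal_one]
    congr 1
    funext i
    fin_cases i <;> simp [hω3, ← pow_mul, show ω ^ (2 * 3) = 1 by rw [mul_comm, pow_mul, hω3, one_pow]]))
  have hT3 : T ^ 3 = 1 := Subtype.ext (Subtype.ext (by
    rw [SubmonoidClass.coe_pow, Matrix.SpecialLinearGroup.coe_pow]
    show (!![0, 1, 0; 0, 0, 1; 1, 0, 0] : Matrix (Fin 3) (Fin 3) K) ^ 3 = 1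
    ext i j
    fin_cases i <;> fin_cases j <;> simp [pow_succ, Matrix.mul_apply, Fin.sum_univ_three]))
  refine (Subgroup.eq_bot_iff_forall _).2 fun x hx => ?_
  obtain ⟨m, rfl⟩ := hM hx
  have key : ∀ s : Cfsg.SU 3 K 2, s ^ 3 = 1 →
      (m.1 : Matrix (Fin 3) (Fin 3) K) * (s.1 : Matrix (Fin 3) (Fin 3) K) =
        (s.1 : Matrix (Fin 3) (Fin 3) K) * (m.1 : Matrix (Fin 3) (Fin 3) K) := by
    intro s hs
    have hc : ψ (m * s * m⁻¹ * s⁻¹) = 1 := by
      refine orderOf_eq_one_iff.1 (Nat.eq_one_of_dvd_coprimes (hcop.symm.pow_left 3) ?_ ?_)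
      · refine (orderOf_map_dvd ψ _).trans ?_
        rw [show (3 : ℕ) ^ 3 = Nat.card E by rw [hEcard]; norm_num]
        exact Subgroup.orderOf_dvd_natCard E (mul_mem (hEn.conj_mem _ (hE3 s hs) m) (inv_mem (hE3 s hs)))
      · refine Subgroup.orderOf_dvd_natCard M ?_
        rw [map_mul, map_mul, map_mul, map_inv, map_inv, mul_assoc, mul_assoc, ← mul_assoc (ψ s)]
        exact mul_mem hx (hnorm _ ⟨s, rfl⟩ _ (inv_mem hx))
    obtain ⟨c, hc⟩ := (hker _).1 hc
    have hms : (m.1 : Matrix (Fin 3) (Fin 3) K) * (s.1 : Matrix (Fin 3) (Fin 3) K) =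
        c • ((s.1 : Matrix (Fin 3) (Fin 3) K) * (m.1 : Matrix (Fin 3) (Fin 3) K)) := by
      have h1 : (((m * s * m⁻¹ * s⁻¹ * (s * m) : Cfsg.SU 3 K 2)).1 : Matrix (Fin 3) (Fin 3) K) =
          c • ((s.1 : Matrix (Fin 3) (Fin 3) K) * (m.1 : Matrix (Fin 3) (Fin 3) K)) := by
        rw [Subgroup.coe_mul, Matrix.SpecialLinearGroup.coe_mul, hc, Subgroup.coe_mul,
          Matrix.SpecialLinearGroup.coe_mul, smul_mul_assoc, one_mul]
      rw [show m * s * m⁻¹ * s⁻¹ * (s * m) = m * s by group, Subgroup.coe_mul,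
        Matrix.SpecialLinearGroup.coe_mul] at h1
      exact h1
    have hc3 : c ^ 3 = 1 := by
      have h1 := congrArg det hc
      rw [(m * s * m⁻¹ * s⁻¹).1.2, det_smul, det_one, mul_one, Fintype.card_fin] at h1
      exact h1.symm
    set a := (m.1 : Matrix (Fin 3) (Fin 3) K)
    set b := (s.1 : Matrix (Fin 3) (Fin 3) K)
    have hj : ∀ j : ℕ, a ^ j * b = c ^ j • (b * a ^ j) := by
      intro j
      induction j with
      | zero => simp
      | succ j ih => rw [pow_succ, mul_assoc, hms, mul_smul_comm, ← mul_assoc, ih, smul_mul_assoc, smul_smul,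
          mul_assoc, pow_succ']
    obtain ⟨l, hl⟩ := (hker (m ^ orderOf (ψ m))).1 (by rw [map_pow, pow_orderOf_eq_one])
    rw [SubmonoidClass.coe_pow, Matrix.SpecialLinearGroup.coe_pow] at hl
    have hck : c ^ orderOf (ψ m) = 1 := by
      have h1 := hj (orderOf (ψ m))
      rw [hl, smul_mul_assoc, one_mul, mul_smul_comm, mul_one] at h1
      have hb : b.det = 1 := s.1.2
      have hl0 : l ≠ 0 := fun h0 => by
        have := congrArg det hl
        rw [h0, zero_smul, det_zero, det_pow, m.1.2, one_pow] at this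
        exact one_ne_zero this
      obtain ⟨i, j, hij⟩ : ∃ i j, b i j ≠ 0 := by
        by_contra! h0
        rw [show b = 0 from Matrix.ext h0, det_zero] at hb
        exact zero_ne_one hb
      have h2 := congrFun (congrFun h1 i) j
      simp only [Matrix.smul_apply, smul_eq_mul] at h2
      exact mul_right_cancel₀ (mul_ne_zero hl0 hij) (h2.symm.trans (one_mul _).symm)
    have hc1 : c = 1 := orderOf_eq_one_iff.1 (Nat.eq_one_of_dvd_coprimes
      ((hcop.coprime_dvd_left (Subgroup.orderOf_dvd_natCard M hx)).symm) (orderOf_dvd_of_pow_eq_one hc3)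
      (orderOf_dvd_of_pow_eq_one hck))
    rw [hms, hc1, one_smul]
  have hD := key D hD3
  have hT := key T hT3
  refine (hker m).2 ⟨(m.1 : Matrix (Fin 3) (Fin 3) K) 0 0, ?_⟩
  change _ * diagonal ![1, ω, ω ^ 2] = diagonal ![1, ω, ω ^ 2] * _ at hD
  set a := (m.1 : Matrix (Fin 3) (Fin 3) K)
  set d : Fin 3 → K := ![1, ω, ω ^ 2] with hd
  have hoff : ∀ i j, d i ≠ d j → a i j = 0 := fun i j hij => by
    have h := congrFun (congrFun hD i) j
    rw [mul_diagonal, diagonal_mul] at h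
    exact (mul_eq_zero.1 (show (d j - d i) * a i j = 0 by linear_combination h)).resolve_left
      (sub_ne_zero.2 fun e => hij e.symm)
  have h01 := hoff 0 1 (by simpa [hd] using Ne.symm hω1)
  have h02 := hoff 0 2 (by simpa [hd] using Ne.symm hw2)
  have h10 := hoff 1 0 (by simpa [hd] using hω1)
  have h12 := hoff 1 2 (by simpa [hd] using hω12)
  have h20 := hoff 2 0 (by simpa [hd] using hw2)
  have h21 := hoff 2 1 (by simpa [hd] using Ne.symm hω12)
  change _ * !![0, 1, 0; 0, 0, 1; 1, 0, 0] = !![0, 1, 0; 0, 0, 1; 1, 0, 0] * _ at hT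
  have e1 := congrFun (congrFun hT 0) 1
  have e2 := congrFun (congrFun hT 1) 2
  simp [Matrix.mul_apply, Fin.sum_univ_three, h01, h02, h10, h12, h20, h21] at e1 e2
  ext i j
  fin_cases i <;> fin_cases j <;> simp [h01, h02, h10, h12, h20, h21, ← e2, ← e1]

end Cfsg.Agent.H4.LinearBalance.Unitary
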