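import Cfsg.Agent.H4.LinearBalance.UCommon
import Cfsg.Agent.H4.LinearBalance.UThree
import Cfsg.Agent.H4.LocalBalance.FieldCore
import Cfsg.Agent.S0283

/-!
The core criterion for a standard field automorphism of odd prime order of `PSU_n`.
-/

set_option autoImplicit false

namespace Cfsg.Agent.H4.LinearBalance.Unitary

open Matrix Cfsg.Agent.H3 Cfsg.Agent.H23.Descent Cfsg.Agent.H23.AutPSU

/-- An element of odd prime order modulo scalars can be chosen of determinant one. -/
theorem exists_su_order {K : Type*} [Field K] [Fintype K] {n Q : ℕ} (hK : Fintype.card K = Q ^ 2) (hn : 3 ≤ n)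
    {X : Type*} [Group X] (ρ : Cfsg.GU n K Q →* X)
    (hker : ∀ g, ρ g = 1 → ∃ l : K, (g.1 : Matrix (Fin n) (Fin n) K) = l • 1) {p : ℕ} [Fact p.Prime]
    {g : Cfsg.GU n K Q} (hg : orderOf (ρ g) = p) : ∃ s, orderOf (ρ (suToGU n K Q s)) = p := by
  classical
  have hp : p.Prime := Fact.out
  by_cases hpQ : p ∣ Q + 1
  · obtain ⟨t, ht⟩ := exists_prime_orderOf_dvd_card' (G := normOne K Q) p
      (by rw [show Nat.card (normOne K Q) = Q + 1 from card_norm_one_units hK]; exact hpQ)
    set o : Fin n := ⟨0, by omega⟩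
    set o' : Fin n := ⟨1, by omega⟩
    have hoo : o ≠ o' := by simp [o, o', Fin.ext_iff]
    set d : Fin n → normOne K Q := fun i => if i = o then t else if i = o' then t⁻¹ else 1 with hd
    have hdet : (diagonal fun i => ((d i : Kˣ) : K)).det = 1 := by
      rw [det_diagonal, Finset.prod_eq_mul o o' hoo (fun c _ hc => by simp [hd, hc.1, hc.2])
        (fun h => absurd (Finset.mem_univ o) h) (fun h => absurd (Finset.mem_univ o') h)]
      simp [hd, hoo, Ne.symm hoo]
    let s : Cfsg.SU n K Q := ⟨⟨_, hdet⟩, mem_SU_iff.2 fun u v =>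
      (guDiag (fun i => ((d i : Kˣ) : K)) fun i => mem_normOne.1 (d i).2).2 u v⟩
    refine ⟨s, orderOf_eq_prime ?_ fun h => ?_⟩
    · rw [← map_pow, ← map_pow]
      have hs : s ^ p = 1 := Subtype.ext (Subtype.ext (by
        rw [SubmonoidClass.coe_pow, Matrix.SpecialLinearGroup.coe_pow]
        show diagonal (fun i => ((d i : Kˣ) : K)) ^ p = 1
        rw [diagonal_pow, ← diagonal_one]
        congr 1
        funext i
        have : d i ^ p = 1 := by
          have htp : t ^ p = 1 := ht ▸ pow_orderOf_eq_one t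
          simp only [hd]
          split_ifs <;> simp [htp, inv_pow]
        simpa using congrArg (fun z : normOne K Q => ((z : Kˣ) : K)) this))
      rw [hs, map_one, map_one]
    · obtain ⟨l, hl⟩ := hker _ h
      change diagonal (fun i => ((d i : Kˣ) : K)) = _ at hl
      have e1 := congrFun (congrFun hl o) o
      have e2 := congrFun (congrFun hl ⟨2, by omega⟩) ⟨2, by omega⟩
      simp [hd, o, o', Fin.ext_iff] at e1 e2
      have : t = 1 := Subtype.ext (Units.ext (by rw [e1, ← e2]; rfl))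
      rw [this, orderOf_one] at ht
      exact hp.ne_one ht.symm
  · obtain ⟨s, hs⟩ : g ^ (Q + 1) ∈ (suToGU n K Q).range := by
      rw [range_suToGU, MonoidHom.mem_ker]
      refine Units.ext ?_
      rw [map_pow, Units.val_pow_eq_pow_val]
      exact det_GU hK g
    exact ⟨s, hs ▸ orderOf_map_pow ρ hg hpQ⟩

set_option maxHeartbeats 1600000 in
/-- The criterion for a standard field automorphism of odd order. -/
theorem field_core {F : Type*} [Field F] [Fintype F] {n q : ℕ} (hF : Fintype.card F = q ^ 2) (hn : 3 ≤ n)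
    (hs : ¬(n = 3 ∧ q = 2)) [IsSimpleGroup (Cfsg.PSU n F q)] {r : ℕ} [Fact r.Prime]
    {A : Subgroup (MulAut (Cfsg.PSU n F q))} (hinn : ∀ k : Cfsg.PSU n F q, MulAut.conj k ∈ A) {p : ℕ}
    [Fact p.Prime] (hpr : p ≠ r) (σ : F ≃+* F) (hσ : orderOf σ = p) {K : Type*} [Field K] [Fintype K] {Q e : ℕ}
    (hQ : Q = r ^ e) (hK : Fintype.card K = Q ^ 2) (T : FixedEmb σ K q Q) :
    Cfsg.pPrimeCore p ↥(A ⊓ Subgroup.centralizer {semiAut (1 : Cfsg.GU n F q) σ}) ≠ ⊥ ↔
      Nat.Coprime p (Nat.card ↥(MonoidHom.eqLocus (semiAut (1 : Cfsg.GU n F q) σ).toMonoidHom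
        (MonoidHom.id (Cfsg.PSU n F q)))) := by
  classical
  have hp : p.Prime := Fact.out
  set x := semiAut (1 : Cfsg.GU n F q) σ with hxdef
  haveI : Finite (F ≃+* F) := Finite.of_injective _ DFunLike.coe_injective
  have hord : orderOf x = p := by
    refine orderOf_eq_prime ?_ fun h => ?_
    · obtain ⟨N, hN, hpow⟩ := exists_pow_semiAut (1 : Cfsg.GU n F q) σ p
      have htw : ∀ i, tw σ (1 : GL (Fin n) F) i = 1 := fun i => by
        induction i with
        | zero => rfl
        | succ i ih => rw [tw, ih, map_one, mul_one]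
      rw [hpow, show N = 1 from Subtype.ext (by rw [hN]; exact htw p),
        show σ ^ p = 1 by rw [← hσ]; exact pow_orderOf_eq_one σ, semiAut_one]
    · rw [((semiAut_eq_one_iff hF hn).1 h).1, orderOf_one] at hσ
      exact hp.ne_one hσ.symm
  set ρ : Cfsg.GU n K Q →* MulAut (Cfsg.PSU n F q) := centHom hF T with hρ
  set ψ : Cfsg.SU n K Q →* MulAut (Cfsg.PSU n F q) := ρ.comp (suToGU n K Q) with hψ
  have hρker : ∀ g, ρ g = 1 ↔ ∃ l : K, (g.1 : Matrix (Fin n) (Fin n) K) = l • 1 := fun g => by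
    rw [← MonoidHom.mem_ker, ker_centHom hF hn T, Subgroup.mem_subgroupOf, Cfsg.Geo.mem_scalars_iff]
    constructor
    · rintro ⟨c, hc⟩
      exact ⟨c, hc⟩
    · rintro ⟨l, hl⟩
      have : Nonempty (Fin n) := ⟨⟨0, by omega⟩⟩
      have hl0 : l ≠ 0 := fun h0 => by
        have hd := ((Matrix.isUnit_iff_isUnit_det _).1 g.1.isUnit).ne_zero
        rw [hl, h0, zero_smul, det_zero] at hd
        exact hd rfl
      exact ⟨Units.mk0 l hl0, hl⟩
  have hψker : ∀ s, ψ s = 1 ↔
      ∃ l : K, ((s.1 : Matrix.SpecialLinearGroup (Fin n) K) : Matrix (Fin n) (Fin n) K) = l • 1 :=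
    fun s => hρker (suToGU n K Q s)
  have hψI : ∀ s, ψ s ∈ Cfsg.Inn (Cfsg.PSU n F q) ⊓ Subgroup.centralizer {x} := fun s => by
    refine ⟨(semiAut_mem_inn_iff hF hn _).2 ⟨1, ?_⟩, ?_⟩
    · rw [map_one]
      refine Subtype.ext (Units.ext ?_)
      rw [coe_detU, coe_embGU, suToGU_val, ← RingHom.mapMatrix_apply, ← RingHom.map_det, s.1.2, map_one]
      rfl
    · have : ψ s ∈ (centHom hF T).range := ⟨_, rfl⟩
      rw [range_centHom hF hK hn T] at this
      exact this.2
  have hE : ∀ e ∈ Cfsg.inndiagPSU n F q ⊓ Subgroup.centralizer {x}, ∃ g, ρ g = e := fun e he => by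
    rw [← range_centHom hF hK hn T] at he
    exact he
  have htrans : ∀ (v : Fin n → K) (c : K) (hv : Cfsg.hermForm n K Q v v = 0) (hc : c + c ^ Q = 0),
      (((embGU hF T (suToGU n K Q (suTrans hK v c hv hc))).1) : Matrix (Fin n) (Fin n) F) =
        1 + (vecMulVec v (c • fun j => v j ^ Q)).map T.ι := fun v c hv hc => by
    rw [coe_embGU, suToGU_val]
    show (Cfsg.unitaryTransvection n Q v c).map T.ι = _
    rw [Cfsg.unitaryTransvection, Matrix.map_add _ (map_add T.ι), Matrix.map_one _ (map_zero _) (map_one _),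
      vecMulVec_smul]
  refine core_iff hinn ψ.range (Cfsg.inndiagPSU n F q ⊓ Subgroup.centralizer {x}) ?_ ?_
    (inf_le_inf_right _ inn_le_inndiag) inf_le_right ?_ ?_ ?_
  · intro h
    obtain ⟨v, hv, hv0⟩ := exists_isotropic hK (n := n) (by omega)
    obtain ⟨c, hc0, hc⟩ := exists_trace_zero_ne_zero hK
    have hmem : ψ (suTrans hK v c hv0 hc) ∈ ψ.range := ⟨_, rfl⟩
    rw [h, Subgroup.mem_bot] at hmem
    obtain ⟨l, hl⟩ := (hψker _).1 hmem
    obtain ⟨a, ha⟩ : ∃ a, v a ≠ 0 := Function.ne_iff.1 hv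
    obtain ⟨b, hb⟩ : ∃ b, b ≠ a := by
      haveI : Nontrivial (Fin n) := Fin.nontrivial_iff_two_le.2 (by omega)
      exact exists_ne a
    have e1 := congrFun (congrFun hl a) b
    have e2 := congrFun (congrFun hl b) b
    have e3 := congrFun (congrFun hl a) a
    simp only [suTrans, Cfsg.unitaryTransvection, Matrix.add_apply, Matrix.smul_apply, vecMulVec_apply,
      one_apply_eq, one_apply_ne (Ne.symm hb), smul_eq_mul, zero_add, mul_zero, mul_one] at e1 e2 e3
    have hvb : v b = 0 := by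
      simp [hc0, ha] at e1
      exact e1.1
    rw [hvb, zero_mul, mul_zero, add_zero] at e2
    rw [← e2, add_eq_left] at e3
    simp [hc0, ha] at e3
  · rintro _ ⟨s, rfl⟩
    exact hψI s
  · rintro e he _ ⟨s, rfl⟩
    obtain ⟨g, rfl⟩ := hE e he
    obtain ⟨s', hs'⟩ : g * suToGU n K Q s * g⁻¹ ∈ (suToGU n K Q).range := by
      rw [range_suToGU]
      refine (inferInstance : (guDet n K Q).ker.Normal).conj_mem _ ?_ g
      rw [← range_suToGU]
      exact ⟨s, rfl⟩
    refine ⟨s', ?_⟩
    show ρ (suToGU n K Q s') = _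
    rw [hs', map_mul, map_mul, map_inv]
    rfl
  · intro hdvd M hM hcop hnorm
    have hnorm' : ∀ e ∈ ψ.range, ∀ m ∈ M, e * m * e⁻¹ ∈ M := fun e he => hnorm e (by
      obtain ⟨s, rfl⟩ := he
      exact ⟨inn_le_inndiag (hψI s).1, (hψI s).2⟩)
    obtain ⟨y, hy⟩ := exists_prime_orderOf_dvd_card' p hdvd
    obtain ⟨g, hg⟩ := hE (y : MulAut _) ⟨inn_le_inndiag y.2.1, y.2.2⟩
    have hgp : orderOf (ρ g) = p := by rw [hg, Subgroup.orderOf_coe, hy]
    by_cases hex : n = 3 ∧ Q = 2
    · obtain ⟨rfl, rfl⟩ := hex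
      have hr2 : r = 2 := by
        have h : r ∣ r ^ e := dvd_pow_self r (fun h0 => by rw [h0, pow_zero] at hQ; omega)
        rw [← hQ] at h
        exact (Nat.prime_dvd_prime_iff_eq Fact.out Nat.prime_two).1 h
      have hd : p ∣ Nat.card (Cfsg.GU 3 K 2) := hgp ▸ (orderOf_map_dvd ρ g).trans (orderOf_dvd_natCard _)
      rw [card_GU hK] at hd
      norm_num [Finset.prod_range_succ] at hd
      have hp3 : p = 3 := by
        rcases hp.dvd_mul.1 (show p ∣ 2 ^ 3 * 3 ^ 4 by simpa using hd) with h | h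
        · exact absurd ((Nat.prime_dvd_prime_iff_eq hp Nat.prime_two).1 (hp.dvd_of_dvd_pow h)) (hr2 ▸ hpr)
        · exact (Nat.prime_dvd_prime_iff_eq hp Nat.prime_three).1 (hp.dvd_of_dvd_pow h)
      rw [hp3] at hcop
      exact eq_bot_of_three_two hK ψ hψker hM hnorm' hcop
    · obtain ⟨s, hs⟩ := exists_su_order hK hn ρ (fun g h => (hρker g).1 h) hgp
      haveI := Cfsg.Agent.S0283.result hK n hn hex
      refine eq_bot_of_simple_quotient ψ (Subgroup.center _) (fun z hz => (hψker z).2 ?_) hM hnorm'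
        (show orderOf (ψ s) = p from hs) hcop
      obtain ⟨l, hl⟩ := (mem_center_SU_iff hK (by omega) z).1 hz
      exact ⟨l, Matrix.ext_of_mulVec_single fun i => by rw [smul_mulVec, one_mulVec]; exact hl _⟩
  · intro _ g hg hcop hgS
    obtain ⟨h, τ, rfl⟩ := exists_semilinear hF hn hs g
    obtain ⟨c, hc0, hc⟩ := exists_trace_zero_ne_zero hK
    obtain ⟨a, ha, hτ⟩ := scalar_of_herm T.ι τ hK hn h.1 fun v hv hvv => by
      refine ⟨c • fun j => v j ^ Q, fun h0 => hv (funext fun j => ?_), ?_⟩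
      · have := congrFun h0 j
        simp [hc0] at this
        exact this.1
      · have hnil : IsNilpotent ((vecMulVec v (c • fun j => v j ^ Q)).map T.ι) := by
          have h1 : IsNilpotent (vecMulVec v (c • fun j => v j ^ Q)) := by
            refine isNilpotent_vecMulVec ?_
            rw [smul_dotProduct, show (fun j => v j ^ Q) ⬝ᵥ v = Cfsg.hermForm n K Q v v by
              rw [dotProduct_comm]; rfl, hvv, smul_zero]
          simpa using h1.map T.ι.mapMatrix
        have h2 := nil_eq_of_commute hF hn h τ hnil (htrans v c hvv hc) (hgS _ ⟨_, rfl⟩)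
        rw [Matrix.map_map] at h2
        exact h2
    rw [semiAut_of_smul hF hn h τ ha] at hcop ⊢
    refine orderOf_eq_one_iff.1 ?_
    have hτ1 : τ = 1 := eq_one_of_mem_zpowers' hσ (LocalBalance.mem_zpowers_of_fix fun y hy => by
      obtain ⟨b, rfl⟩ := (T.mem y).1 hy
      exact hτ b) (hcop.coprime_dvd_left (orderOf_dvd_of_semiAut hF hn 1 τ))
    rw [hτ1, semiAut_one, orderOf_one]

end Cfsg.Agent.H4.LinearBalance.Unitary
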