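import Cfsg.Agent.H4.LinearBalance.UCommon
import Cfsg.Agent.H4.LinearBalance.Forms
import Cfsg.Agent.H4.LocalBalance.FieldCore
import Cfsg.Agent.H70.AutPSU.Transfer

/-!
The core criterion for an involutory graph automorphism of `PSU_n` in odd characteristic.
-/

set_option autoImplicit false

namespace Cfsg.Agent.H4.LinearBalance.Unitary

open Matrix Cfsg.Agent.H3 Cfsg.Agent.H23.Descent Cfsg.Agent.H23.AutPSU Cfsg.Agent.H70.AutPSU
open Cfsg.Agent.H62.GraphPSL (formIso mem_formIso IsAltMat)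

variable {F : Type*} [Field F] [Fintype F] {F₀ : Type*} [Field F₀] [Fintype F₀] {q n : ℕ}

local notation "M₁" => Matrix (Fin n) (Fin n) F
local notation "M₀" => Matrix (Fin n) (Fin n) F₀

set_option maxHeartbeats 1600000 in
/-- The criterion for a graph involution. -/
theorem graph_core (P : Pair F F₀ q) (hF : Fintype.card F = q ^ 2) (hn : 3 ≤ n) (hs : ¬(n = 3 ∧ q = 2))
    (h2 : (2 : F₀) ≠ 0) [IsSimpleGroup (Cfsg.PSU n F q)] {A : Subgroup (MulAut (Cfsg.PSU n F q))}
    (hinn : ∀ k : Cfsg.PSU n F q, MulAut.conj k ∈ A) {γ : MulAut (Cfsg.PSU n F q)} {ε : F₀} {θ : F}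
    {k : GL (Fin n) F} {H : M₀} (hrep : Rep P γ ε θ k H) :
    Cfsg.pPrimeCore 2 ↥(A ⊓ Subgroup.centralizer {γ}) ≠ ⊥ ↔
      Nat.Coprime 2 (Nat.card ↥(MonoidHom.eqLocus γ.toMonoidHom (MonoidHom.id (Cfsg.PSU n F q)))) := by
  classical
  haveI : Fact (Nat.Prime 2) := ⟨Nat.prime_two⟩
  have hd := hrep.1.det_ne
  have hH : Hᵀ = H ∨ Hᵀ = -H := by
    rcases hrep.1.eps with e | e
    · exact Or.inl (by rw [hrep.1.transp, e, one_smul])
    · exact Or.inr (by rw [hrep.1.transp, e, neg_one_smul])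
  have hmemS : ∀ h : GL (Fin n) F₀, h ∈ formIso H → ((1, h) : Fˣ × GL (Fin n) F₀) ∈ stabPair P H := by
    intro h hh
    show (((1 : Fˣ) : F) * P.sig ((1 : Fˣ) : F)) • ((h : M₀)ᵀ * H * (h : M₀)).map P.ι = H.map P.ι
    rw [Units.val_one, map_one, mul_one, one_smul, mem_formIso.1 hh]
  let inc : formIso H →* stabPair P H := MonoidHom.mk' (fun h => ⟨(1, h.1), hmemS h.1 h.2⟩)
    fun a b => Subtype.ext (Prod.ext (one_mul 1).symm rfl)
  set ψ : formIso H →* MulAut (Cfsg.PSU n F q) := (diagHom.comp (stabHom hrep)).comp inc with hψ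
  have hψcoe : ∀ h : formIso H, (stabHom hrep (inc h)).1 = k * P.ιG h.1 * k⁻¹ := fun h => by
    rw [coe_stabHom]
    show k * (scal 1 * P.ιG h.1) * k⁻¹ = _
    rw [scal_one, one_mul]
  have hker : ∀ h, ψ h = 1 ↔ ∃ a : F₀, ((h.1 : GL (Fin n) F₀) : M₀) = a • 1 := fun h => by
    show semiAut (stabHom hrep (inc h)) 1 = 1 ↔ _
    rw [semiAut_one_iff_smul hF hn, hψcoe]
    constructor
    · rintro ⟨l, hl⟩
      have h1 : ((h.1 : GL (Fin n) F₀) : M₀).map P.ι = l • 1 := by
        have h2 := congrArg (fun M : M₁ => ((k⁻¹ : GL (Fin n) F) : M₁) * M * (k : M₁)) hl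
        simp only [Units.val_mul, ← mul_assoc, ← Units.val_mul, inv_mul_cancel, Units.val_one, one_mul] at h2
        rw [Units.val_mul, Units.val_mul, mul_assoc, ← Units.val_mul, inv_mul_cancel, Units.val_one, mul_one,
          mul_smul_comm, mul_one, smul_mul_assoc, ← Units.val_mul, inv_mul_cancel, Units.val_one] at h2
        exact h2
      set o : Fin n := ⟨0, by omega⟩
      refine ⟨((h.1 : GL (Fin n) F₀) : M₀) o o, Matrix.ext fun i j => P.ι.injective ?_⟩
      have e := congrFun (congrFun h1 o) o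
      have e' := congrFun (congrFun h1 i) j
      simp only [Matrix.map_apply, Matrix.smul_apply, one_apply_eq, smul_eq_mul, mul_one] at e e'
      rw [e']
      by_cases hij : i = j
      · subst hij; simp [e]
      · simp [hij]
    · rintro ⟨a, ha⟩
      refine ⟨P.ι a, ?_⟩
      rw [Units.val_mul, Units.val_mul, P.ιG_coe, ha,
        show (a • (1 : M₀)).map P.ι = P.ι a • (1 : M₁) from Matrix.ext fun i j => by
          by_cases hij : i = j <;> simp [hij],
        mul_smul_comm, mul_one, smul_mul_assoc, ← Units.val_mul, mul_inv_cancel, Units.val_one]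
  set D : Subgroup (formIso H) := (Matrix.GeneralLinearGroup.det.comp (formIso H).subtype).ker with hD
  have hDmem : ∀ h : formIso H, h ∈ D ↔ ((h.1 : GL (Fin n) F₀) : M₀).det = 1 := fun h => by
    rw [hD, MonoidHom.mem_ker, Units.ext_iff]
    rfl
  have hψE : ψ.range ≤ Cfsg.inndiagPSU n F q ⊓ Subgroup.centralizer {γ} := by
    rintro _ ⟨h, rfl⟩
    rw [centralizer_eq hn hrep]
    exact ⟨inc h, rfl⟩
  have hsub : D.map ψ ≤ Cfsg.Inn (Cfsg.PSU n F q) ⊓ Subgroup.centralizer {γ} := by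
    rintro _ ⟨h, hh, rfl⟩
    refine ⟨(semiAut_mem_inn_iff hF hn _).2 ⟨1, ?_⟩, (hψE ⟨h, rfl⟩).2⟩
    rw [map_one]
    refine Subtype.ext (Units.ext ?_)
    rw [coe_detU, hψcoe, Units.val_mul, Units.val_mul, det_mul, det_mul, mul_right_comm, ← det_mul,
      ← Units.val_mul, mul_inv_cancel, Units.val_one, det_one, one_mul, P.ιG_coe, ← RingHom.mapMatrix_apply,
      ← RingHom.map_det, (hDmem h).1 hh, map_one]
    rfl
  have hSψ : D.map ψ ≤ ψ.range := Subgroup.map_le_range _ _
  refine core_iff hinn (D.map ψ) (Cfsg.inndiagPSU n F q ⊓ Subgroup.centralizer {γ}) ?_ hsub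
    (inf_le_inf_right _ inn_le_inndiag) inf_le_right ?_ ?_ ?_
  · intro hbot
    rcases hH with hH | hH
    · obtain ⟨s, hs, hsd, -, hns⟩ := exists_involution_sym hH hd h2 hn
      have hmem : ψ ⟨s, hs⟩ ∈ D.map ψ := ⟨_, (hDmem _).2 hsd, rfl⟩
      rw [hbot, Subgroup.mem_bot] at hmem
      exact hns ((hker _).1 hmem)
    · obtain ⟨⟨y, hy⟩, hdet, -⟩ := eq_bot_of_odd_alt (G := formGL hrep) (H62.GraphPSL.isAltMat_of_skew h2 hH) h2
        hn ψ hker
      have hmem : ψ y ∈ D.map ψ := ⟨y, (hDmem y).2 (hdet y), rfl⟩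
      rw [hbot, Subgroup.mem_bot] at hmem
      exact absurd (hy.symm.trans (orderOf_eq_one_iff.2 hmem)) (by decide)
  · rintro e he _ ⟨h, hh, rfl⟩
    rw [centralizer_eq hn hrep] at he
    obtain ⟨p, rfl⟩ := he
    set p' := p * inc h * p⁻¹ with hp'
    have hp1 : p'.1.1 = 1 := by
      show p.1.1 * 1 * p.1.1⁻¹ = 1
      rw [mul_one, mul_inv_cancel]
    have hiso : p'.1.2 ∈ formIso H := by
      have h1 : ((p'.1.1 : F) * P.sig p'.1.1) • ((p'.1.2 : M₀)ᵀ * H * (p'.1.2 : M₀)).map P.ι = H.map P.ι := p'.2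
      rw [hp1, Units.val_one, map_one, mul_one, one_smul] at h1
      exact mem_formIso.2 (Matrix.map_injective P.ι.injective h1)
    refine ⟨⟨p'.1.2, hiso⟩, ?_, ?_⟩
    · refine (hDmem _).2 ?_
      show ((p.1.2 * h.1 * p.1.2⁻¹ : GL (Fin n) F₀) : M₀).det = 1
      rw [← Matrix.GeneralLinearGroup.val_det_apply, map_mul, map_mul, map_inv, mul_inv_cancel_comm,
        Matrix.GeneralLinearGroup.val_det_apply]
      exact (hDmem h).1 hh
    · show diagHom (stabHom hrep (inc ⟨p'.1.2, hiso⟩)) = _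
      rw [show inc ⟨p'.1.2, hiso⟩ = p' from Subtype.ext (Prod.ext hp1.symm rfl), hp', map_mul, map_mul, map_inv,
        map_mul, map_mul, map_inv]
      rfl
  · intro _ M hM hcop hnorm
    have hM' := hM.trans hSψ
    have hnorm' : ∀ e ∈ ψ.range, ∀ m ∈ M, e * m * e⁻¹ ∈ M := fun e he => hnorm e (hψE he)
    rcases hH with hH | hH
    · exact eq_bot_of_odd_sym hH hd h2 hn ψ (fun h hh => (hker h).1 hh) hM' hnorm' (Nat.coprime_two_right.1 hcop)
    · obtain ⟨-, -, h3⟩ := eq_bot_of_odd_alt (G := formGL hrep) (H62.GraphPSL.isAltMat_of_skew h2 hH) h2 hn ψ hker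
      exact h3 M hM' hnorm' hcop
  · intro _ g hg hcop hgS
    obtain ⟨a, τ, rfl⟩ := exists_semilinear hF hn hs g
    set g' : GL (Fin n) F := k⁻¹ * a.1 * glMap τ k with hg'
    have key : ∀ N : M₀, IsNilpotent N → ((1 + N : M₀))ᵀ * H * (1 + N) = H → (1 + N).det = 1 →
        (g' : M₁) * N.map (twisted P.ι τ) = N.map P.ι * (g' : M₁) := fun N hN hiso hdet => by
      set s : formIso H := ⟨Matrix.GeneralLinearGroup.mkOfDetNeZero (1 + N) (by rw [hdet]; exact one_ne_zero),
        mem_formIso.2 hiso⟩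
      set N' : M₁ := (k : M₁) * N.map P.ι * ((k⁻¹ : GL (Fin n) F) : M₁) with hN'
      have hnil : IsNilpotent N' := by
        obtain ⟨j, hj⟩ := hN.map P.ι.mapMatrix
        refine ⟨j, ?_⟩
        rw [hN', Units.conj_pow, show (N.map P.ι) ^ j = 0 from hj, mul_zero, zero_mul]
      have hval : ((stabHom hrep (inc s)).1 : M₁) = 1 + N' := by
        rw [hψcoe, Units.val_mul, Units.val_mul, P.ιG_coe]
        show (k : M₁) * (1 + N).map P.ι * _ = _
        rw [Matrix.map_add _ (map_add P.ι), Matrix.map_one _ (map_zero _) (map_one _), mul_add, add_mul, mul_one,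
          ← Units.val_mul, mul_inv_cancel, Units.val_one]
      have e := nil_eq_of_commute hF hn a τ hnil hval (hgS _ ⟨s, (hDmem s).2 hdet, rfl⟩)
      rw [hN', Matrix.map_mul, Matrix.map_mul, Matrix.map_map] at e
      have e2 := congrArg (fun X : M₁ => ((k⁻¹ : GL (Fin n) F) : M₁) * X * ((glMap τ k : GL (Fin n) F) : M₁)) e
      rw [← coe_glMap, ← coe_glMap, map_inv] at e2
      rw [hg', Units.val_mul, Units.val_mul]
      simpa [mul_assoc] using e2
    have hres : ∃ b : Fˣ, (g' : M₁) = (b : F) • 1 ∧ ∀ t, τ (P.ι t) = P.ι t := by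
      rcases hH with hH | hH
      · obtain ⟨z, hz0, hz⟩ := exists_isotropic_sym hH hd h2 hn
        obtain ⟨f, u, hf, hzf, hzu, hfu, hu⟩ := exists_frame hH hd h2 hn hz0 hz
        exact scalar_of_eichN P.ι τ hH hd h2 g' hz hf hzf hzu hfu hu
          (fun z hz0 hz => by
            obtain ⟨f, u, -, -, hzu, -, hu⟩ := exists_frame hH hd h2 hn hz0 hz
            exact ⟨u, hzu, hu⟩)
          fun z a hz ha => key _ (isNilpotent_eichN hH hz ha) (transpose_eichN_mul hH h2 hz ha)
            (det_eichN hH hd h2 hz ha)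
      · have hA := H62.GraphPSL.isAltMat_of_skew h2 hH
        exact scalar_of_transvections P.ι τ (by omega) g' fun v hv =>
          ⟨H *ᵥ v, fun h0 => hv (eq_zero_of_mulVec_eq_zero hd h0),
            key _ (isNilpotent_vecMulVec (by rw [dotProduct_comm]; exact hA v))
              (transpose_altTransv hA hH v) (det_altTransv hA v)⟩
    obtain ⟨b, hb, hτ⟩ := hres
    haveI : Finite (F ≃+* F) := Finite.of_injective _ DFunLike.coe_injective
    have hτ1 : τ = 1 := eq_one_of_mem_zpowers' P.orderOf_sig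
      (LocalBalance.mem_zpowers_of_fix fun y hy => by
        obtain ⟨x, rfl⟩ := P.exists_ι_of_fixed hy
        exact hτ x)
      (hcop.coprime_dvd_left (orderOf_dvd_of_semiAut hF hn a τ))
    subst hτ1
    refine (semiAut_one_iff_smul hF hn a).2 ⟨(b : F), ?_⟩
    rw [show a.1 = k * g' * k⁻¹ by rw [hg', glMap_one]; group, Units.val_mul, Units.val_mul, hb, mul_smul_comm,
      mul_one, smul_mul_assoc, ← Units.val_mul, mul_inv_cancel, Units.val_one]

end Cfsg.Agent.H4.LinearBalance.Unitary
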