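import Cfsg.Agent.H4.LinearBalance.UField
import Cfsg.Agent.H4.LinearBalance.UTwo
import Cfsg.Agent.H4.LocalBalance.Transfer
import Cfsg.Agent.S0282
import Mathlib.FieldTheory.Finite.GaloisField

/-!
Local balance in almost simple groups with socle `PSU_n(q)`.
-/

set_option autoImplicit false

namespace Cfsg.Agent.H4.LinearBalance.Unitary

open Cfsg.Agent.H3 Cfsg.Agent.H23.AutPSU

/-- The criterion for local balance in almost simple groups with unitary socle. -/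
theorem psu_local_balance (F : Type*) [Field F] [Fintype F] (r : ℕ) [Fact r.Prime] [CharP F r] (q : ℕ)
    (hF : Fintype.card F = q ^ 2) (n : ℕ) (hn : 3 ≤ n) (hK : IsSimpleGroup (Cfsg.PSU n F q))
    (A : Subgroup (MulAut (Cfsg.PSU n F q))) (hinn : ∀ k : Cfsg.PSU n F q, MulAut.conj k ∈ A)
    (p : ℕ) [Fact p.Prime] (hpr : p ≠ r) (β : MulAut (Cfsg.PSU n F q)) (hβ : β ∈ A) (hord : orderOf β = p)
    (hnot : ¬ Cfsg.IsInnerDiagonalAutPSU β) :
    Cfsg.pPrimeCore p ↥(A ⊓ Subgroup.centralizer {β}) ≠ ⊥ ↔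
      ((∃ γ φ : MulAut (Cfsg.PSU n F q), Cfsg.IsInnerDiagonalAutPSU γ ∧
          (∃ σ : F ≃+* F, Cfsg.IsFieldAutPSUOf σ φ) ∧ β = φ.trans γ) ∧
        Nat.Coprime p (Nat.card ↥(MonoidHom.eqLocus β.toMonoidHom (MonoidHom.id (Cfsg.PSU n F q))))) := by
  classical
  have hp : p.Prime := Fact.out
  have hs : ¬(n = 3 ∧ q = 2) := by
    rintro ⟨rfl, rfl⟩
    obtain ⟨hcard, hsol⟩ := Cfsg.Agent.S0282.result (F := F) (by rw [hF]; norm_num)
    letI : CommGroup (Cfsg.PSU 3 F 2) :=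
      { (inferInstance : Group (Cfsg.PSU 3 F 2)) with mul_comm := IsSimpleGroup.comm_iff_isSolvable.2 hsol }
    have h1 := IsSimpleGroup.prime_card (α := Cfsg.PSU 3 F 2)
    rw [hcard] at h1
    norm_num at h1
  obtain ⟨g, σ, rfl⟩ := exists_semilinear hF hn hs β
  rw [and_iff_right ⟨semiAut g 1, semiAut 1 σ, isInnerDiagonal_iff.2 ⟨g, rfl⟩, ⟨σ, isFieldAut_iff.2 rfl⟩, by
    show semiAut g σ = semiAut g 1 * semiAut 1 σ
    rw [semiAut_mul, guMap_one, mul_one, one_mul]⟩]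
  have hσ1 : σ ≠ 1 := fun h => hnot (isInnerDiagonal_iff.2 ⟨g, by rw [h]⟩)
  have hpow : semiAut g σ ^ p = 1 := hord ▸ pow_orderOf_eq_one _
  have hσ : orderOf σ = p := by
    obtain ⟨N, -, hN⟩ := exists_pow_semiAut g σ p
    rw [hpow] at hN
    exact orderOf_eq_prime ((semiAut_eq_one_iff hF hn).1 hN.symm).1 hσ1
  obtain ⟨f, hq, hf⟩ : ∃ f, q = r ^ f ∧ 1 ≤ f := by
    obtain ⟨N, hN, hc⟩ := FiniteField.card F r
    obtain ⟨f, -, hf⟩ := (Nat.dvd_prime_pow (Fact.out : r.Prime)).1 (hc ▸ hF ▸ (dvd_pow_self q two_ne_zero))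
    refine ⟨f, hf, Nat.one_le_iff_ne_zero.2 fun h => ?_⟩
    rw [hf, h, pow_zero, one_pow] at hF
    have := Fintype.one_lt_card (α := F)
    omega
  rcases hp.eq_two_or_odd' with rfl | hodd
  · -- graph type
    haveI := Fintype.ofFinite (GaloisField r f)
    obtain ⟨P⟩ := Cfsg.Agent.H70.AutPSU.exists_pair (F₀ := GaloisField r f) hF
      (by rw [← Nat.card_eq_fintype_card, GaloisField.card r f (by omega), hq])
    have h2 : (2 : GaloisField r f) ≠ 0 := fun h0 => hpr (((Nat.prime_dvd_prime_iff_eq (Fact.out : r.Prime)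
      Nat.prime_two).1 ((CharP.cast_eq_zero_iff (GaloisField r f) r 2).1 (by exact_mod_cast h0))).symm)
    have hgr : Cfsg.IsGraphAutClassPSU (semiAut g σ) :=
      ⟨hn, semiAut g 1, semiAut 1 σ, σ, by rw [hσ]; exact even_two, isInnerDiagonal_iff.2 ⟨g, rfl⟩,
        isFieldAut_iff.2 rfl, by rw [semiAut_mul, guMap_one, mul_one, one_mul]⟩
    obtain ⟨ε, θ, k, H, hrep⟩ := Cfsg.Agent.H70.AutPSU.exists_rep P hq hf hn hgr hord
    exact graph_core P hF hn hs h2 hinn hrep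
  · -- field type
    have hoddσ : Odd (orderOf σ) := hσ ▸ hodd
    obtain ⟨hdvd, hemb⟩ := exists_fixedEmb hq hF σ hoddσ
    set e := f / orderOf σ with he
    have he0 : e ≠ 0 := Nat.ne_of_gt (Nat.div_pos (Nat.le_of_dvd hf hdvd) (hσ ▸ hp.pos))
    haveI := Fintype.ofFinite (GaloisField r (2 * e))
    have hK₀ : Fintype.card (GaloisField r (2 * e)) = r ^ (2 * e) := by
      rw [← Nat.card_eq_fintype_card, GaloisField.card r _ (by omega)]
    obtain ⟨T⟩ := hemb (GaloisField r (2 * e)) hK₀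
    have hK₂ : Fintype.card (GaloisField r (2 * e)) = (r ^ e) ^ 2 := by rw [hK₀, ← pow_mul, mul_comm]
    obtain ⟨k, hk⟩ := exists_conj_of_pow hF hK₂ hn T hoddσ (g := g) (by rw [hσ]; exact hpow)
    obtain ⟨h1, -, h3, h4⟩ := LocalBalance.criterion_conj hinn hβ (semiAut k 1)⁻¹ p
    rw [show (semiAut k 1)⁻¹ * semiAut g σ * (semiAut k 1)⁻¹⁻¹ = semiAut 1 σ by rw [hk]; group] at h3 h4
    rw [h3, h4]
    exact field_core hF hn hs h1 hpr σ hσ rfl hK₂ T

end Cfsg.Agent.H4.LinearBalance.Unitary
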